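import Mathlib
import Cfsg.Agent.Og.BN
import Cfsg.Agent.Og.AutA

/-! An involution whose centralizer has a large Ree group as standard component: definitions.
The plan of the proof is in `stubs/Cfsg/Agent/DF/PLAN.md`. -/

set_option autoImplicit false
set_option linter.unusedSectionVars false

namespace Cfsg.Agent.DF

open Cfsg.Agent.Og Cfsg.Agent.Og.SG Cfsg.Agent.Loc.Mss Subgroup
open scoped commutatorElement

variable {K : Type*} [Field K] [CharP K 2] {s : Sg K} {G : Type*} [Group G]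

/-- An involution `t` centralizing `L = F.G0`, with `L⟨t⟩` containing the `2`-elements of `C(t)`. -/
structure Cfg (s : Sg K) (G : Type*) [Group G] where
  F : Ft s G
  t : G
  rf : RF F
  inj : Function.Injective F.u
  big : ∃ a : Kˣ, a ≠ 1
  tt : t * t = 1
  cen : ∀ g ∈ F.G0, t * g = g * t
  nrm : 𝐂₁[t] ≤ 𝐍[F.G0]
  two : ∀ g ∈ 𝐂₁[t], ∀ k : ℕ, g ^ 2 ^ k = 1 → g ∈ F.G0 ∨ g * t ∈ F.G0
  nl : ∀ g, g * t * g⁻¹ ∉ F.G0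

namespace Cfg

variable (c : Cfg s G)

/-- The commutator with `t`. -/
def δ (g : G) : G := g * c.t * g⁻¹ * c.t

/-- The rotation of the octagon: index `i ↦ i + 2`. -/
def ρ : G := c.F.m * c.F.n

/-- Conjugation by a power of the rotation. -/
def sh (j : Fin 8) (g : G) : G := c.ρ ^ j.val * g * (c.ρ ^ j.val)⁻¹

/-- The rotated copies of a family sitting at position `2`. -/
def rot (E : K × K → G) (j : Fin 8) (w : K × K) : G := c.sh (j - 2) (E w)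

end Cfg

/-- The hat of `X = V₄`, as a subgroup. -/
structure HA (c : Cfg s G) (A : Subgroup G) : Prop where
  X_le : c.F.lt.X ≤ A
  cent : A ≤ 𝐂[c.F.lt.C]
  del : ∀ d ∈ A, c.δ d ∈ c.F.lt.X
  ker : ∀ d ∈ A, c.δ d = 1 → d ∈ c.F.lt.X
  onto : ∀ x ∈ c.F.lt.X, ∃ d ∈ A, c.δ d = x
  nH : c.F.H ≤ 𝐍[A]
  odd : ∀ k ∈ 𝐂₁[c.t], Odd (orderOf k) → k ∈ 𝐂[c.F.lt.X] → k ∈ 𝐂[A]
  ab : A ≤ 𝐂[A]
  c6 : A ≤ 𝐂[cj(c.F.m, A)]

/-- The hat of `X = V₄`, in coordinates. -/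
structure HE (c : Cfg s G) (E : K × K → G) : Prop where
  add : ∀ w v, E (w + v) = E w * E v
  inj : ∀ w, E w = 1 → w = 0
  zero : ∀ a, E (a, 0) = c.F.u (w4 0 a)
  tw : ∀ a b, c.t * E (a, b) * c.t = E (a + b, b)
  tor : ∀ (α β : Kˣ) w, c.F.t (α, β) * E w * (c.F.t (α, β))⁻¹ =
    E (((α : K) ^ 2 * s.σ α * β ^ 3 * s.σ β ^ 2) • w)
  cent : ∀ g ∈ c.F.lt.C, ∀ w, g * E w = E w * g
  odd : ∀ k ∈ 𝐂₁[c.t], Odd (orderOf k) → k ∈ 𝐂[c.F.lt.X] → ∀ w, k * E w = E w * k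
  c46 : ∀ w v, Commute (E w) (c.F.m * E v * c.F.m)
  c16 : ∀ a w, c.F.u (x1 a) * (c.F.m * E w * c.F.m) * (c.F.u (x1 a))⁻¹ = c.F.m * E w * c.F.m * E (a • w)

/-- The hat of `V`. -/
structure HV (c : Cfg s G) (E : K × K → G) (W : Subgroup G) : Prop where
  el : ∀ a ∈ W, a * a = 1
  V_le : c.F.lt.V ≤ W
  mem4 : ∀ w, E w ∈ W
  mem6 : ∀ w, c.F.m * E w * c.F.m ∈ W
  nC : c.F.lt.C ≤ 𝐍[W]
  nH : c.F.H ≤ 𝐍[W]
  cY : c.F.lt.Y ≤ 𝐂[W]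
  del : ∀ a ∈ W, c.δ a ∈ c.F.lt.V
  ker : ∀ a ∈ W, c.δ a = 1 → a ∈ c.F.lt.V
  onto : ∀ v ∈ c.F.lt.V, ∃ a ∈ W, c.δ a = v
  odd : ∀ k ∈ 𝐂₁[c.t], Odd (orderOf k) → k ∈ 𝐂[c.F.lt.Z] → k ∈ 𝐍[W]

/-- The hat of `U₅`, in coordinates. -/
structure HO (c : Cfg s G) (W : Subgroup G) (O : K × K → G) : Prop where
  add : ∀ w v, O (w + v) = O w * O v
  inj : ∀ w, O w = 1 → w = 0
  zero : ∀ a, O (a, 0) = c.F.u (x5 a)
  tw : ∀ a b, c.t * O (a, b) * c.t = O (a + b, b)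
  tor : ∀ (α β : Kˣ) w, c.F.t (α, β) * O w * (c.F.t (α, β))⁻¹ =
    O (((α : K) * s.σ α * β ^ 2 * s.σ β ^ 2) • w)
  mem : ∀ w, O w ∈ W
  cm : ∀ w, c.F.m * O w = O w * c.F.m
  c1 : ∀ a w, c.F.u (x1 a) * O w = O w * c.F.u (x1 a)

variable (s) in
/-- The weights of the torus on `V₀, V₂, …, V₁₄`. -/
def χe (α β : K) : Fin 8 → K :=
  ![(β * s.σ β)⁻¹, α * s.σ α * β * s.σ β, α ^ 2 * s.σ α * β ^ 3 * s.σ β ^ 2, α * s.σ α * β ^ 3 * s.σ β ^ 2,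
    β * s.σ β, (α * s.σ α * β * s.σ β)⁻¹, (α ^ 2 * s.σ α * β ^ 3 * s.σ β ^ 2)⁻¹,
    (α * s.σ α * β ^ 3 * s.σ β ^ 2)⁻¹]

variable (s) in
/-- The weights of the torus on `U₁, U₃, …, U₁₅`. -/
def χo (α β : K) : Fin 8 → K :=
  ![α, α * s.σ α * β ^ 2 * s.σ β, α * s.σ α * β ^ 2 * s.σ β ^ 2, α * β ^ 2 * s.σ β,
    α⁻¹, (α * s.σ α * β ^ 2 * s.σ β)⁻¹, (α * s.σ α * β ^ 2 * s.σ β ^ 2)⁻¹, (α * β ^ 2 * s.σ β)⁻¹]

/-- Coordinates on the hat of `V`. -/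
def Φ (e o : Fin 8 → K × K → G) (a b d f k : K × K) : G := e 1 a * o 1 b * e 2 d * o 2 f * e 3 k

/-- The system of hats: `e j` is the hat of `V_{2j}`, `o j` the hat of `U_{2j+1}`, `W` the hat of `V`. -/
structure Pre (c : Cfg s G) (W : Subgroup G) (e o : Fin 8 → K × K → G) : Prop where
  e_add : ∀ j w v, e j (w + v) = e j w * e j v
  o_add : ∀ j w v, o j (w + v) = o j w * o j v
  n_e : ∀ j w, c.F.n * e j w * c.F.n = e (4 - j) w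
  n_o : ∀ j w, c.F.n * o j w * c.F.n = o (3 - j) w
  m_e : ∀ j w, c.F.m * e j w * c.F.m = e (5 - j) w
  m_o : ∀ j w, c.F.m * o j w * c.F.m = o (4 - j) w
  t_e : ∀ j a b, c.t * e j (a, b) * c.t = e j (a + b, b)
  t_o : ∀ j a b, c.t * o j (a, b) * c.t = o j (a + b, b)
  e1 : ∀ a, e 1 (a, 0) = c.F.u (w2 0 a)
  e2 : ∀ a, e 2 (a, 0) = c.F.u (w4 0 a)
  e3 : ∀ a, e 3 (a, 0) = c.F.u (w6 0 a)
  e4 : ∀ a, e 4 (a, 0) = c.F.u (w8 0 a)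
  o0 : ∀ a, o 0 (a, 0) = c.F.u (x1 a)
  o1 : ∀ a, o 1 (a, 0) = c.F.u (x3 a)
  o2 : ∀ a, o 2 (a, 0) = c.F.u (x5 a)
  o3 : ∀ a, o 3 (a, 0) = c.F.u (x7 a)
  h_e : ∀ (α β : Kˣ) j w, c.F.t (α, β) * e j w * (c.F.t (α, β))⁻¹ = e j (χe s α β j • w)
  h_o : ∀ (α β : Kˣ) j w, c.F.t (α, β) * o j w * (c.F.t (α, β))⁻¹ = o j (χo s α β j • w)
  ee1 : ∀ j w v, Commute (e j w) (e (j + 1) v)
  ee2 : ∀ j w v, Commute (e j w) (e (j + 2) v)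
  oe0 : ∀ j w v, Commute (o j w) (e j v)
  oe1 : ∀ j w v, Commute (o j w) (e (j + 1) v)
  oe2 : ∀ j w v, Commute (o j w) (e (j + 2) v)
  oe7 : ∀ j w v, Commute (o j w) (e (j + 7) v)
  oo1 : ∀ j w v, Commute (o j w) (o (j + 1) v)
  ind : ∀ a b d f k, Φ e o a b d f k = 1 → a = 0 ∧ b = 0 ∧ d = 0 ∧ f = 0 ∧ k = 0
  mem_W : ∀ g, g ∈ W ↔ ∃ a b d f k, g = Φ e o a b d f k
  nC : c.F.lt.C ≤ 𝐍[W]
  cY : c.F.lt.Y ≤ 𝐂[W]
  odd : ∀ k ∈ 𝐂₁[c.t], Odd (orderOf k) → k ∈ 𝐂[c.F.lt.Z] → k ∈ 𝐍[W]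
  cC : ∀ g ∈ c.F.lt.C, ∀ w, Commute g (e 2 w)
  c15 : ∀ a w, Commute (c.F.u (x1 a)) (o 2 w)
  c16 : ∀ a w, c.F.u (x1 a) * e 3 w * (c.F.u (x1 a))⁻¹ = e 3 w * e 2 (a • w)

/-- The hat of `V₈` acts on the hat of `V`. -/
structure Pre2 (c : Cfg s G) (W : Subgroup G) (e o : Fin 8 → K × K → G) : Prop extends Pre c W e o where
  r28 : ∀ w v, ∃ d f k, e 4 v * e 1 w * e 4 v = e 1 w * (e 2 d * o 2 f * e 3 k)
  r38 : ∀ w v, ∃ k, e 4 v * o 1 w * e 4 v = o 1 w * e 3 k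

/-- The multiplication of `K[θ]`, `θ² = θ + b`. -/
def mb (b : K) (w v : K × K) : K × K := (w.1 * v.1 + b * w.2 * v.2, w.1 * v.2 + w.2 * v.1 + w.2 * v.2)

/-- The commutator maps, first form. -/
structure Mu (c : Cfg s G) (W : Subgroup G) (e o : Fin 8 → K × K → G) (b x : K)
    (β : K × K → K × K → K × K) : Prop extends Pre c W e o where
  q38 : ∀ w v, e 4 v * o 1 w * e 4 v = o 1 w * e 3 (mb b w v)
  q28 : ∀ w v, e 4 v * e 1 w * e 4 v = e 1 w * (e 2 (β v w) * o 2 (mb b w v) * e 3 (β w v))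
  add_l : ∀ w w' v, β (w + w') v = β w v + β w' v
  add_r : ∀ w v v', β w (v + v') = β w v + β w v'
  smul_l : ∀ (a : K) w v, β (a • w) v = a • β w v
  smul_r : ∀ (a : K) w v, β w (a • v) = s.σ a • β w v
  one_r : ∀ w, β w (1, 0) = w
  th : β (1, 0) (0, 1) = (x, 1)

/-- The split system: coordinates in the ring `K × K`, `t` swaps the factors. -/
structure Sp (c : Cfg s G) (φ : K × K → K × K) (e o : Fin 8 → K × K → G) : Prop where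
  e_add : ∀ j w v, e j (w + v) = e j w * e j v
  o_add : ∀ j w v, o j (w + v) = o j w * o j v
  e_inj : ∀ j w, e j w = 1 → w = 0
  n_e : ∀ j w, c.F.n * e j w * c.F.n = e (4 - j) w
  n_o : ∀ j w, c.F.n * o j w * c.F.n = o (3 - j) w
  m_e : ∀ j w, c.F.m * e j w * c.F.m = e (5 - j) w
  m_o : ∀ j w, c.F.m * o j w * c.F.m = o (4 - j) w
  t_e : ∀ j w, c.t * e j w * c.t = e j w.swap
  t_o : ∀ j w, c.t * o j w * c.t = o j w.swap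
  e2 : ∀ a, e 2 (a, a) = c.F.u (w4 0 a)
  o2 : ∀ a, o 2 (a, a) = c.F.u (x5 a)
  ee1 : ∀ j w v, Commute (e j w) (e (j + 1) v)
  ee2 : ∀ j w v, Commute (e j w) (e (j + 2) v)
  oe0 : ∀ j w v, Commute (o j w) (e j v)
  oe1 : ∀ j w v, Commute (o j w) (e (j + 1) v)
  oe2 : ∀ j w v, Commute (o j w) (e (j + 2) v)
  oe7 : ∀ j w v, Commute (o j w) (e (j + 7) v)
  ee3 : ∀ j w v, ⁅e j w, e (j + 3) v⁆ = e (j + 1) (v * φ w) * o (j + 1) (w * v) * e (j + 2) (w * φ v)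
  oe3 : ∀ j w v, ⁅o j w, e (j + 3) v⁆ = e (j + 2) (w * v)
  eo2 : ∀ j w v, ⁅e j w, o (j + 2) v⁆ = e (j + 1) (w * v)

variable (s) in
/-- The twisting map in the product case. -/
def φP (w : K × K) : K × K := (s.σ w.1, s.σ w.2)

variable (s) in
/-- The twisting map in the case of `F₄`. -/
def φF (w : K × K) : K × K := (s.σ w.2, s.σ w.1)

/-- What the final Sylow and transfer argument needs. -/
structure Last (c : Cfg s G) (G0 U : Subgroup G) : Prop where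
  syl : Syl 2 U G0
  perf : G0 ≤ ⁅G0, G0⁆
  tU : c.t ∈ 𝐍[U]
  card : Nat.card ↥(U ⊓ 𝐂₁[c.t]) = Nat.card K ^ 12
  cob : ∀ u ∈ U, c.t * u * c.t * u = 1 → ∃ r ∈ U, c.t * u = r * c.t * r⁻¹
  big : ∀ x ∈ U, x * x = 1 → x ≠ 1 →
    ∃ P : Subgroup G, IsPGroup 2 P ∧ P ≤ 𝐂₁[x] ∧ Nat.card K ^ 13 ≤ Nat.card P

end Cfsg.Agent.DF
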