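import Mathlib
import Cfsg.Agent.DF.Defs
import Cfsg.Agent.Og.KitG

/-! Basic tools: commutators with `t`, centralizers in `L`, non-additive maps, coordinates. -/

set_option autoImplicit false
set_option linter.unusedSectionVars false

namespace Cfsg.Agent.DF

open Cfsg.Agent.Og Cfsg.Agent.Og.SG Cfsg.Agent.Loc.Mss Subgroup
open scoped commutatorElement

variable {K : Type*} [Field K] [CharP K 2] {s : Sg K} {G : Type*} [Group G]

/-! ### Field lemmas -/

theorem σ_fix {a : K} (h : s.σ a = a) : a = 0 ∨ a = 1 := by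
  have h2 : a ^ 2 = a := by rw [← s.sq a, h, h]
  have : a * (a - 1) = 0 := by linear_combination h2
  rcases mul_eq_zero.1 this with h | h
  · exact Or.inl h
  · exact Or.inr (sub_eq_zero.1 h)

theorem σ_ne_zero {a : K} (h : a ≠ 0) : s.σ a ≠ 0 := (map_ne_zero s.σ).2 h

theorem exists_ne (hq : ∃ a : Kˣ, a ≠ 1) : ∃ a : K, a ≠ 0 ∧ a ≠ 1 ∧ a + 1 ≠ 0 ∧ s.σ a ≠ a := by
  obtain ⟨a, ha⟩ := hq
  have h1 : (a : K) ≠ 1 := fun e => ha (Units.ext e)
  refine ⟨a, a.ne_zero, h1, fun e => h1 ?_, fun e => (σ_fix e).elim a.ne_zero h1⟩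
  have h2 : (2 : K) = 0 := CharTwo.two_eq_zero
  linear_combination e - h2

theorem sq_add_ne (s : Sg K) (a : K) : a ^ 2 + a + 1 ≠ 0 := fun h => by
  have h2 : (2 : K) = 0 := CharTwo.two_eq_zero
  have h3 : s.σ a ^ 2 + s.σ a + 1 = 0 := by simpa using congrArg s.σ h
  have h4 : (s.σ a + a) * (s.σ a + a + 1) = 0 := by grind
  rcases mul_eq_zero.1 h4 with e | e
  · have : s.σ a = a := by grind
    rcases σ_fix this with rfl | rfl
    · simp at h
    · grind
  · have e1 : s.σ a = a + 1 := by grind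
    have e2 := congrArg s.σ e1
    rw [s.sq, map_add, map_one, e1] at e2
    grind

theorem exists_nrm [Finite K] (s : Sg K) {d : K} (hd : d ≠ 0) : ∃ a : K, a ≠ 0 ∧ a * s.σ a = d :=
  ⟨s.σ d / d, div_ne_zero (σ_ne_zero hd) hd, by
    have := σ_ne_zero (s := s) hd
    rw [map_div₀, s.sq]; field_simp⟩

/-- The map `a σ(a) ↦ a` is not additive. -/
theorem na (hq : ∃ a : Kˣ, a ≠ 1) {f ψ : K → K} {l : K} (hf : ∀ a b, f (a + b) = f a + f b)
    (hψ : ∀ a b, ψ (a + b) = ψ a + ψ b) (hi : ∀ a, ψ a = 0 → a = 0)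
    (h : ∀ a, a ≠ 0 → f (a * s.σ a) = l * ψ a) : l = 0 := by
  obtain ⟨d, h0, h1, h1', hσ⟩ := exists_ne (s := s) hq
  have h2 : (2 : K) = 0 := CharTwo.two_eq_zero
  have key : ∀ d : K, d ≠ 0 → f d = l * ψ (s.σ d / d) := fun d hd => by
    have hs := σ_ne_zero (s := s) hd
    rw [← h _ (div_ne_zero hs hd), map_div₀, s.sq]
    congr 1; field_simp
  have e := hf d 1
  rw [key _ h1', key _ h0, key _ one_ne_zero, ← mul_add, ← hψ] at e
  by_contra hl
  have e1 := mul_left_cancel₀ hl e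
  have e2 : ψ (s.σ (d + 1) / (d + 1) + (s.σ d / d + s.σ 1 / 1)) = 0 := by
    rw [hψ, e1, CharTwo.add_self_eq_zero]
  have e3 := hi _ e2
  rw [map_add, map_one] at e3
  field_simp at e3
  have e4 : s.σ d = s.σ (s.σ d) := by rw [s.sq]; grind
  exact hσ (s.σ_inj e4).symm

/-- The map `a ↦ a σ(a)` is not additive. -/
theorem na1 (hq : ∃ a : Kˣ, a ≠ 1) {f : K → K} {l : K} (hf : ∀ a b, f (a + b) = f a + f b)
    (h : ∀ a, a ≠ 0 → f a = l * (a * s.σ a)) : l = 0 := by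
  obtain ⟨d, h0, h1, h1', hσ⟩ := exists_ne (s := s) hq
  have e := hf d 1
  rw [h _ h1', h _ h0, h _ one_ne_zero, map_add, map_one] at e
  have : l * (s.σ d + d) = 0 := by grind
  rcases mul_eq_zero.1 this with h | h
  · exact h
  · exact absurd (by grind) hσ

/-- The map `a σ(a) ↦ a / σ(a)` is not additive. -/
theorem na2 (hq : ∃ a : Kˣ, a ≠ 1) {f : K → K} {l : K} (hf : ∀ a b, f (a + b) = f a + f b)
    (h : ∀ a, a ≠ 0 → f (a * s.σ a) = l * (a / s.σ a)) : l = 0 := by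
  obtain ⟨d, h0, h1, h1', hσ⟩ := exists_ne (s := s) hq
  have h2 : (2 : K) = 0 := CharTwo.two_eq_zero
  have key : ∀ d : K, d ≠ 0 → f d = l * (s.σ d ^ 2 / d ^ 3) := fun d hd => by
    have hs := σ_ne_zero (s := s) hd
    have := h _ (div_ne_zero hs hd)
    rw [map_div₀, s.sq, show s.σ d / d * (d ^ 2 / s.σ d) = d by field_simp] at this
    rw [this]; congr 1; field_simp
  have e := hf d 1
  rw [key _ h1', key _ h0, key _ one_ne_zero, ← mul_add] at e
  by_contra hl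
  have e1 := mul_left_cancel₀ hl e
  rw [map_add, map_one] at e1
  field_simp at e1
  have e2 : (d ^ 2 + d + 1) * (s.σ d + d ^ 2) ^ 2 = 0 := by grind
  have e3 : s.σ d + d ^ 2 = 0 := by simpa using (mul_eq_zero.1 e2).resolve_left (sq_add_ne s d)
  have e4 : s.σ d = s.σ (s.σ d) := by rw [s.sq]; grind
  exact hσ (s.σ_inj e4).symm

/-- An additive map invariant under a nontrivial scalar vanishes. -/
theorem inv_zero {M N : Type*} [AddCommGroup M] [Module K M] [AddCommGroup N] {f : M → N}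
    (hf : ∀ a b, f (a + b) = f a + f b) {l : K} (hl : l ≠ 1) (h : ∀ a, f (l • a) = f a) (a : M) : f a = 0 := by
  have h1 : l - 1 ≠ 0 := sub_ne_zero.2 hl
  have e := hf ((l - 1) • (l - 1)⁻¹ • a) ((l - 1)⁻¹ • a)
  have e0 : ∀ x : M, (l - 1) • x + x = l • x := fun x => by rw [sub_smul, one_smul, sub_add_cancel]
  rw [e0, h, smul_smul, mul_inv_cancel₀ h1, one_smul] at e
  simpa using e

/-! ### Elements of odd order -/

theorem exists_odd [Finite G] (k : G) : ∃ j, Odd (orderOf (k ^ 2 ^ j)) :=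
  (exists_pow_coprime (p := 2) k).imp fun _ h => Nat.coprime_two_right.1 h

theorem eq_one_of_odd {k : G} (h : Odd (orderOf k)) {j : ℕ} (e : k ^ 2 ^ j = 1) : k = 1 := by
  have h1 : orderOf k ∣ 2 ^ j := orderOf_dvd_of_pow_eq_one e
  have h2 : (orderOf k).Coprime (2 ^ j) := (Nat.coprime_two_right.2 h).pow_right j
  exact orderOf_eq_one_iff.1 (h2.eq_one_of_dvd h1)

/-- If `a` inverts `k` and the commutators of `a` with the odd powers of `k` are `2`-elements, so is `k`. -/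
theorem two_of_inv [Finite G] {k a : G} (hi : a * k * a⁻¹ = k⁻¹)
    (h : ∀ j : ℕ, Odd (orderOf (k ^ j)) → ∃ i, (k ^ j * a * (k ^ j)⁻¹ * a⁻¹) ^ 2 ^ i = 1) :
    ∃ j, k ^ 2 ^ j = 1 := by
  obtain ⟨j, hj⟩ := exists_odd k
  obtain ⟨i, e⟩ := h _ hj
  have e1 : a * (k ^ 2 ^ j)⁻¹ * a⁻¹ = k ^ 2 ^ j := by
    rw [← inv_pow, ← conj_pow, show a * k⁻¹ * a⁻¹ = (a * k * a⁻¹)⁻¹ by group, hi, inv_inv]
  rw [show k ^ 2 ^ j * a * (k ^ 2 ^ j)⁻¹ * a⁻¹ = k ^ 2 ^ j * (a * (k ^ 2 ^ j)⁻¹ * a⁻¹) by group, e1, ← sq,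
    ← pow_mul, ← pow_succ'] at e
  exact ⟨j, eq_one_of_odd hj e⟩

/-- An element of odd order that moves `d` by an involution it centralizes fixes `d`. -/
theorem fix_of_odd {k d x : G} (ho : Odd (orderOf k)) (e : k * d * k⁻¹ = d * x) (hx : k * x = x * k)
    (h2 : x * x = 1) : k * d = d * k := by
  have key : ∀ n : ℕ, k ^ n * d * (k ^ n)⁻¹ = d * x ^ n := fun n => by
    induction n with
    | zero => simp
    | succ n ih =>
      have hc : Commute k (x ^ n) := (show Commute k x from hx).pow_right n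
      calc k ^ (n + 1) * d * (k ^ (n + 1))⁻¹ = k * (k ^ n * d * (k ^ n)⁻¹) * k⁻¹ := by group
        _ = (k * d * k⁻¹) * (k * x ^ n * k⁻¹) := by rw [ih]; group
        _ = d * x ^ (n + 1) := by rw [e, hc.eq]; group
  obtain ⟨m, hm⟩ := ho
  have := key (orderOf k)
  rw [pow_orderOf_eq_one, hm, pow_succ, pow_mul, sq, h2] at this
  have hx1 : x = 1 := by simpa using this
  rw [hx1, mul_one] at e
  exact mul_inv_eq_iff_eq_mul.1 e

namespace Cfg

variable (c : Cfg s G)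

theorem t_inv : c.t⁻¹ = c.t := inv_eq_of_mul_eq_one_right c.tt
theorem t_not_mem : c.t ∉ c.F.G0 := by simpa using c.nl 1
theorem L_le : c.F.G0 ≤ 𝐂₁[c.t] := fun g hg => mem_c1.2 (c.cen g hg).symm
theorem t_mem : c.t ∈ 𝐂₁[c.t] := mem_c1.2 rfl
theorem t_u (p : SG s) : c.t * c.F.u p = c.F.u p * c.t := c.cen _ (c.F.u_mem_G0 p)
theorem conj_t (g : G) : g * c.t * g⁻¹ = c.δ g * c.t := by rw [δ, mul_assoc _ c.t c.t, c.tt, mul_one]
theorem t_conj (g : G) : c.t * g * c.t = (c.δ g)⁻¹ * g := by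
  rw [δ]; simp only [mul_inv_rev, inv_inv, c.t_inv]; group
theorem δ_eq_one {g : G} : c.δ g = 1 ↔ g ∈ 𝐂₁[c.t] := by
  rw [mem_c1, δ, mul_eq_one_iff_eq_inv, c.t_inv, mul_inv_eq_iff_eq_mul]
theorem δ_mul (g h : G) : c.δ (g * h) = g * c.δ h * g⁻¹ * c.δ g := by
  simp only [δ]
  rw [show g * (h * c.t * h⁻¹ * c.t) * g⁻¹ * (g * c.t * g⁻¹ * c.t) = g * h * c.t * h⁻¹ * (c.t * c.t) * g⁻¹ * c.t
    by group, c.tt]
  group
theorem δ_conj {g : G} (hg : g ∈ 𝐂₁[c.t]) (h : G) : c.δ (g * h * g⁻¹) = g * c.δ h * g⁻¹ := by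
  have e : g⁻¹ * c.t * g = c.t := by rw [mul_assoc, ← mem_c1.1 hg]; group
  have e' : g⁻¹ * c.t = c.t * g⁻¹ := by
    calc g⁻¹ * c.t = g⁻¹ * c.t * g * g⁻¹ := by group
      _ = _ := by rw [e]
  simp only [δ]
  calc g * h * g⁻¹ * c.t * (g * h * g⁻¹)⁻¹ * c.t = g * h * (g⁻¹ * c.t * g) * h⁻¹ * (g⁻¹ * c.t) := by group
    _ = _ := by rw [e, e']; group

theorem oc : OC c.F.lt := ⟨c.rf.rc, c.inj⟩

variable [Finite K] [Finite G]

theorem mem_C {g : G} (hg : g ∈ c.F.G0) (h : g * c.F.lt.τ = c.F.lt.τ * g) : g ∈ c.F.lt.C := by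
  rw [← c.rf.cent_τ c.inj]; exact ⟨hg, mem_c1.2 h⟩

theorem norm_C {g : G} (hg : g ∈ 𝐂₁[c.t]) (h : g * c.F.lt.τ = c.F.lt.τ * g) : g ∈ 𝐍[c.F.lt.C] := by
  rw [← c.rf.cent_τ c.inj]
  refine norm_inf (X := zpowers g) (zpowers_le.2 (c.nrm hg)) (zpowers_le.2 ?_) (mem_zpowers g)
  rw [← cj_eq_iff, KitG.cj_c1, h, mul_inv_cancel_right]

theorem X_le_Z : c.F.lt.X ≤ c.F.lt.Z := Lt.im_mono fun p hp => by simp_all

theorem cent_Z : c.F.G0 ⊓ 𝐂[c.F.lt.Z] = c.F.lt.R := by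
  rw [← c.oc.cent_Z]
  refine le_antisymm (fun g hg => ⟨c.mem_C hg.1 (mem_cent.1 hg.2 _ (c.X_le_Z c.F.lt.τ_mem_X)).symm, hg.2⟩)
    (inf_le_inf_right _ c.F.C_le_G0)

theorem norm_R {g : G} (hg : g ∈ 𝐂₁[c.t]) (h : g ∈ 𝐂[c.F.lt.Z]) : g ∈ 𝐍[c.F.lt.R] := by
  rw [← c.cent_Z]
  exact norm_inf (X := zpowers g) (zpowers_le.2 (c.nrm hg)) (norm_cent (zpowers_le.2 (cent_le_norm _ h)))
    (mem_zpowers g)

/-- An element of `L` commuting with `τ` and `x₆(1)` lies in `R`. -/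
theorem mem_R {g : G} (hg : g ∈ c.F.G0) (h4 : Commute g (c.F.u (w4 0 1))) (h6 : Commute g (c.F.u (w6 0 1))) :
    ∃ p : SG s, p.a1 = 0 ∧ g = c.F.u p := by
  have : g ∈ c.F.lt.R := by rw [← c.oc.cent2]; exact ⟨c.mem_C hg h4, mem_c1.2 h6⟩
  obtain ⟨p, hp, rfl⟩ := this
  exact ⟨p, hp, rfl⟩

/-- A `2`-element of `C(t)` is `l` or `l t`, where `l ∈ L` commutes with the same elements of `L`. -/
theorem two' {g : G} (hg : g ∈ 𝐂₁[c.t]) {k : ℕ} (h : g ^ 2 ^ k = 1) :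
    ∃ l ∈ c.F.G0, (g = l ∨ g = l * c.t) ∧ ∀ x ∈ c.F.G0, Commute g x → Commute l x := by
  rcases c.two g hg k h with h | h
  · exact ⟨g, h, Or.inl rfl, fun _ _ h => h⟩
  · refine ⟨_, h, Or.inr (by rw [mul_assoc, c.tt, mul_one]), fun x hx e => e.mul_left (c.cen x hx)⟩

theorem u_comm {p r : SG s} : Commute (c.F.u p) (c.F.u r) ↔ p * r = r * p := by
  rw [commute_iff_eq, ← map_mul, ← map_mul, c.inj.eq_iff]

/-- The centralizer of `U₄` in `R` is `V U₈`. -/
theorem cent_U4 (c : Cfg s G) {p : SG s} (h1 : p.a1 = 0) (h : ∀ a, p * w4 a 0 = w4 a 0 * p) :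
    p.a2 = 0 ∧ p.a4 = 0 ∧ p.a6 = 0 ∧ p.a7 = 0 := by
  obtain ⟨d, h0, h1', -, hσ⟩ := exists_ne (s := s) c.big
  have e3 := congrArg SG.a3 (h 1)
  have e5 := congrArg SG.a5 (h 1)
  have e6 := congrArg SG.u6 (h 1)
  have e4 := congrArg SG.u4 (h 1)
  have e4' := congrArg SG.u4 (h d)
  simp [h1] at e3 e5 e6 e4 e4'
  have a2 : p.a2 = 0 := by grind
  have a6 : p.a6 = 0 := by grind
  have a7 : p.a7 = 0 := by grind
  have a4 : p.a4 * (s.σ d + d) = 0 := by grind
  exact ⟨a2, (mul_eq_zero.1 a4).resolve_right (by grind), a6, a7⟩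

theorem cent_Y {g : G} (hg : g ∈ c.F.G0) (h : g ∈ 𝐂[c.F.lt.Y]) : g ∈ c.F.lt.V := by
  have hc : ∀ p ∈ Ys s, Commute g (c.F.u p) := fun p hp => (mem_cent.1 h _ (Lt.u_mem_im hp)).symm
  obtain ⟨p, h1, rfl⟩ := c.mem_R hg (hc _ (by simp)) (hc _ (by simp))
  obtain ⟨a2, a4, a6, a7⟩ := c.cent_U4 h1 fun a => c.u_comm.1 (hc _ (by simp))
  have e := c.u_comm.1 (hc (w2 0 1) (by simp))
  have e3 := congrArg SG.a3 e
  have e5 := congrArg SG.a5 e
  simp [h1, a2, a4, a6, a7] at e3 e5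
  have a8 : p.a8 = 0 := by grind
  exact Lt.u_mem_im (by simp [h1, a2, a4, a6, a7, a8]; grind)

end Cfg

/-! ### Coordinates -/

/-- Equivariant coordinates on an elementary abelian group `A` with `[A, t] = C_A(t) = x(K)`. -/
theorem coord [Finite K] {A : Subgroup G} {t : G} {x : K → G} {τ : Kˣ × Kˣ →* G} {χ : Kˣ × Kˣ → K}
    (el : ∀ a ∈ A, a * a = 1) (xa : ∀ a b, x (a + b) = x a * x b) (xi : ∀ a, x a = 1 → a = 0)
    (xm : ∀ a, x a ∈ A) (tt : t * t = 1) (tx : ∀ a, t * x a * t = x a)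
    (del : ∀ d ∈ A, ∃ a, t * d * t = d * x a) (ker : ∀ d ∈ A, t * d * t = d → ∃ a, d = x a)
    (onto : ∀ a, ∃ d ∈ A, t * d * t = d * x a) (nrm : ∀ h, τ h ∈ 𝐍[A]) (ct : ∀ h, t * τ h = τ h * t)
    (act : ∀ h a, τ h * x a * (τ h)⁻¹ = x (χ h * a)) :
    ∃ E : K × K → G, (∀ w v, E (w + v) = E w * E v) ∧ (∀ w, E w = 1 → w = 0) ∧ (∀ a, E (a, 0) = x a) ∧
      (∀ a b, t * E (a, b) * t = E (a + b, b)) ∧ (∀ h w, τ h * E w * (τ h)⁻¹ = E (χ h • w)) ∧
      ∀ d, d ∈ A ↔ ∃ w, E w = d := by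
  classical
  have cm : ∀ a ∈ A, ∀ b ∈ A, a * b = b * a := fun a ha b hb => by
    have h1 := inv_eq_of_mul_eq_one_right (el _ (mul_mem ha hb))
    rw [mul_inv_rev, inv_eq_of_mul_eq_one_right (el a ha), inv_eq_of_mul_eq_one_right (el b hb)] at h1
    exact h1.symm
  have x0 : x 0 = 1 := by have := xa 0 0; simpa using this
  have xinj : Function.Injective x := fun a b h => by
    have := xi (a + b) (by rw [xa, h, ← xa, CharTwo.add_self_eq_zero, x0])
    exact CharTwo.add_eq_zero.1 this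
  let _ : CommGroup A := { (inferInstance : Group A) with mul_comm := fun a b => Subtype.ext (cm _ a.2 _ b.2) }
  let _ : Module (ZMod 2) (Additive A) := AddCommGroup.zmodModule (n := 2) fun a => by
    rw [two_nsmul]; exact Subtype.ext (el _ a.toMul.2)
  let _ : Algebra (ZMod 2) K := ZMod.algebra K 2
  choose! p hp using del
  have pa : ∀ a ∈ A, ∀ b ∈ A, p (a * b) = p a + p b := fun a ha b hb => by
    apply xinj
    have e := hp _ (mul_mem ha hb)
    rw [show t * (a * b) * t = t * a * t * (t * b * t) by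
      rw [show t * a * t * (t * b * t) = t * a * (t * t) * b * t by group, tt]; group, hp a ha, hp b hb,
      mul_assoc a, ← mul_assoc (x _), cm _ (xm _) b hb, mul_assoc, ← xa, ← mul_assoc] at e
    exact (mul_left_cancel e).symm
  have px : ∀ a, p (x a) = 0 := fun a => xinj (by
    have := hp _ (xm a); rw [tx] at this; rw [x0]; simpa using this)
  let π : Additive A →+ K := AddMonoidHom.mk' (fun a => p a.toMul) fun a b => pa _ a.toMul.2 _ b.toMul.2
  have πs : Function.Surjective π := fun a => by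
    obtain ⟨d, hd, e⟩ := onto a
    exact ⟨Additive.ofMul ⟨d, hd⟩, xinj (mul_left_cancel ((hp d hd).symm.trans e))⟩
  obtain ⟨s0, hs0⟩ := (π.toZModLinearMap 2).exists_rightInverse_of_surjective (LinearMap.range_eq_top.2 πs)
  have hs : ∀ v, π (s0 v) = v := fun v => LinearMap.congr_fun hs0 v
  let ac : Kˣ × Kˣ → Additive A →+ Additive A := fun h => AddMonoidHom.mk'
    (fun a => Additive.ofMul ⟨τ h * a.toMul * (τ h)⁻¹, conj_mem_of_norm (nrm h) a.toMul.2⟩)
    fun a b => Subtype.ext (show τ h * (a.toMul * b.toMul) * (τ h)⁻¹ =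
      τ h * a.toMul * (τ h)⁻¹ * (τ h * b.toMul * (τ h)⁻¹) by group)
  have acm : ∀ h k a, ac h (ac k a) = ac (h * k) a := fun h k a => Subtype.ext
    (show τ h * (τ k * a.toMul * (τ k)⁻¹) * (τ h)⁻¹ = τ (h * k) * a.toMul * (τ (h * k))⁻¹ by rw [map_mul]; group)
  have χm : ∀ h k, χ (h * k) = χ h * χ k := fun h k => by
    have := act (h * k) 1
    rw [map_mul, show τ h * τ k * x 1 * (τ h * τ k)⁻¹ = τ h * (τ k * x 1 * (τ k)⁻¹) * (τ h)⁻¹ by group,
      act, act] at this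
    simpa using (xinj this).symm
  have χ1 : χ 1 = 1 := by have := act 1 1; simpa using (xinj (by simpa using this)).symm
  have πa : ∀ h a, π (ac h a) = χ h * π a := fun h a => by
    apply xinj
    have e := hp _ (ac h a).toMul.2
    have e1 : ((ac h a).toMul : G) = τ h * a.toMul * (τ h)⁻¹ := rfl
    have e2 : (τ h)⁻¹ * t = t * (τ h)⁻¹ := by rw [inv_mul_eq_iff_eq_mul, ← mul_assoc, ← ct]; group
    rw [e1, show t * (τ h * a.toMul * (τ h)⁻¹) * t = t * τ h * a.toMul * ((τ h)⁻¹ * t) by group, ct, e2,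
      show τ h * t * a.toMul * (t * (τ h)⁻¹) = τ h * (t * a.toMul * t) * (τ h)⁻¹ by group, hp _ a.toMul.2,
      show τ h * (a.toMul * x (p a.toMul)) * (τ h)⁻¹ = τ h * a.toMul * (τ h)⁻¹ * (τ h * x (p a.toMul) * (τ h)⁻¹)
        by group, act] at e
    exact (mul_left_cancel e).symm
  let _ : Fintype (Kˣ × Kˣ) := Fintype.ofFinite (Kˣ × Kˣ)
  let sv : K → Additive A := fun v => ∑ h, ac h⁻¹ (s0 (χ h * v))
  have sa : ∀ v w, sv (v + w) = sv v + sv w := fun v w => by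
    simp only [sv, mul_add, map_add, Finset.sum_add_distrib]
  have πv : ∀ v, π (sv v) = v := fun v => by
    have : ∀ h, π (ac h⁻¹ (s0 (χ h * v))) = v := fun h => by
      rw [πa, hs, ← mul_assoc, ← χm, inv_mul_cancel, χ1, one_mul]
    simp only [sv, map_sum, this, Finset.sum_const, Finset.card_univ]
    obtain ⟨k, hk⟩ : Odd (Fintype.card (Kˣ × Kˣ)) := by
      rw [← Nat.card_eq_fintype_card, Nat.card_prod]
      exact (Sg.odd_card_units (K := K)).mul (Sg.odd_card_units (K := K))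
    rw [hk, add_smul, one_smul, mul_comm, mul_smul, two_smul, CharTwo.add_self_eq_zero, smul_zero, zero_add]
  have se : ∀ k v, ac k (sv v) = sv (χ k * v) := fun k v => by
    simp only [sv, map_sum, acm]
    refine Fintype.sum_equiv (Equiv.mulRight k⁻¹) _ _ fun h => ?_
    simp only [Equiv.coe_mulRight, mul_inv_rev, inv_inv]
    rw [← mul_assoc, ← χm, inv_mul_cancel_right]
  have s0' : sv 0 = 0 := by have := sa 0 0; simpa using this
  let y : K → G := fun v => (sv v).toMul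
  have ym : ∀ v, y v ∈ A := fun v => (sv v).toMul.2
  have ya : ∀ v w, y (v + w) = y v * y w := fun v w => by simp only [y, sa]; rfl
  have y0 : y 0 = 1 := by simp only [y, s0']; rfl
  have py : ∀ v, p (y v) = v := πv
  have tm : ∀ a b, t * (a * b) * t = t * a * t * (t * b * t) := fun a b => by
    rw [show t * a * t * (t * b * t) = t * a * (t * t) * b * t by group, tt]; group
  refine ⟨fun w => x w.1 * y w.2, fun w v => ?_, fun w e => ?_, fun a => by simp [y0], fun a b => ?_,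
    fun h w => ?_, fun d => ⟨fun hd => ?_, by rintro ⟨w, rfl⟩; exact mul_mem (xm _) (ym _)⟩⟩
  · simp only [Prod.fst_add, Prod.snd_add, xa, ya]
    rw [mul_assoc, ← mul_assoc (x v.1), cm _ (xm v.1) _ (ym w.2)]; group
  · have h2 : w.2 = 0 := by
      have := congrArg p e
      rwa [pa _ (xm _) _ (ym _), px, py, ← x0, px, zero_add] at this
    simp only [h2, y0, mul_one] at e
    exact Prod.ext (xi _ e) h2
  · simp only
    rw [tm, tx, hp _ (ym b), py, cm _ (ym b) _ (xm b), xa, mul_assoc]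
  · have : τ h * y w.2 * (τ h)⁻¹ = y (χ h * w.2) := congrArg (fun a : Additive A => (a.toMul : G)) (se h w.2)
    simp only [Prod.smul_fst, Prod.smul_snd, smul_eq_mul]
    rw [← this, ← act]; group
  · have e := hp _ (mul_mem hd (ym (p d)))
    rw [pa _ hd _ (ym _), py, CharTwo.add_self_eq_zero, x0, mul_one] at e
    obtain ⟨a, ha⟩ := ker _ (mul_mem hd (ym (p d))) e
    exact ⟨(a, p d), by simp only; rw [← ha, mul_assoc, el _ (ym _), mul_one]⟩

end Cfsg.Agent.DF
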