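import Mathlib
import Cfsg.Agent.DF.Kit

/-! Basic consequences of `Pre`. -/

set_option autoImplicit false
set_option linter.unusedSectionVars false

namespace Cfsg.Agent.DF

open Cfsg.Agent.Og Cfsg.Agent.Og.SG Cfsg.Agent.Loc.Mss Subgroup
open scoped commutatorElement

variable {K : Type*} [Field K] [CharP K 2] [Finite K] {s : Sg K} {G : Type*} [Group G] [Finite G]
  {c : Cfg s G} {W : Subgroup G} {e o : Fin 8 → K × K → G}

theorem add_self (w : K × K) : w + w = 0 := Prod.ext (CharTwo.add_self_eq_zero _) (CharTwo.add_self_eq_zero _)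

theorem eq_of_add {w v : K × K} (h : w + v = 0) : w = v := by
  rw [← add_zero w, ← add_self v, ← add_assoc, h, zero_add]

theorem zero_of_add {x : K × K → G} (h : ∀ w v, x (w + v) = x w * x v) : x 0 = 1 := by
  have := h 0 0; simpa using this

theorem sq_of_add {x : K × K → G} (h : ∀ w v, x (w + v) = x w * x v) (w : K × K) : x w * x w = 1 := by
  rw [← h, add_self, zero_of_add h]

theorem inv_of_add {x : K × K → G} (h : ∀ w v, x (w + v) = x w * x v) (w : K × K) : (x w)⁻¹ = x w :=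
  inv_eq_of_mul_eq_one_right (sq_of_add h w)

theorem comm_of_add {x : K × K → G} (h : ∀ w v, x (w + v) = x w * x v) (w v : K × K) : Commute (x w) (x v) := by
  rw [commute_iff_eq, ← h, ← h, add_comm]

theorem commute_conj {a b g : G} (hg : g * g = 1) (h : Commute a b) : Commute (g * a * g) (g * b * g) := by
  have := h.conj g
  rwa [inv_eq_of_mul_eq_one_right hg] at this

theorem inv_mul_conj {g : G} (hg : g * g = 1) (a b : G) : g * (a * b) * g = g * a * g * (g * b * g) := by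
  rw [show g * a * g * (g * b * g) = g * a * (g * g) * b * g by group, hg]; group

theorem rot_ind {P : Fin 8 → Prop} (hs : ∀ j, P (j + 1) → P j) {i : Fin 8} (hi : P i) (j : Fin 8) : P j := by
  have h0 : ∀ k : Fin 8, P (j + k + 1) → P (j + k) := fun k => hs _
  have h1 : P (j + 1) → P j := hs j
  have h2 : P (j + 2) → P j := fun h => h1 (h0 1 (by rwa [add_assoc]))
  have h3 : P (j + 3) → P j := fun h => h2 (h0 2 (by rwa [add_assoc]))
  have h4 : P (j + 4) → P j := fun h => h3 (h0 3 (by rwa [add_assoc]))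
  have h5 : P (j + 5) → P j := fun h => h4 (h0 4 (by rwa [add_assoc]))
  have h6 : P (j + 6) → P j := fun h => h5 (h0 5 (by rwa [add_assoc]))
  have h7 : P (j + 7) → P j := fun h => h6 (h0 6 (by rwa [add_assoc]))
  have : ∀ i j : Fin 8, i = j ∨ i = j + 1 ∨ i = j + 2 ∨ i = j + 3 ∨ i = j + 4 ∨ i = j + 5 ∨ i = j + 6 ∨ i = j + 7 := by
    decide
  rcases this i j with rfl | rfl | rfl | rfl | rfl | rfl | rfl | rfl
  exacts [hi, h1 hi, h2 hi, h3 hi, h4 hi, h5 hi, h6 hi, h7 hi]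

theorem rot_ind' {P : Fin 8 → Prop} (hs : ∀ j, P j → P (j + 1)) {i : Fin 8} (hi : P i) (j : Fin 8) : P j := by
  have := rot_ind (P := fun j => P (-j)) (fun j h => by
    have := hs _ h; rwa [show -(j + 1) + 1 = -j by abel] at this) (i := -i) (by rwa [neg_neg]) (-j)
  rwa [neg_neg] at this

theorem Cfg.nn (c : Cfg s G) : c.F.n * c.F.n = 1 := c.rf.rc.nn
theorem Cfg.mm (c : Cfg s G) : c.F.m * c.F.m = 1 := c.rf.mm
theorem Cfg.ρ_conj (c : Cfg s G) (g : G) : c.ρ * g * c.ρ⁻¹ = c.F.m * (c.F.n * g * c.F.n) * c.F.m := by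
  rw [Cfg.ρ, mul_inv_rev, c.rf.toRF0.n_inv, c.rf.toRF0.m_inv]; group
theorem Cfg.n_u (c : Cfg s G) {p : SG s} (hp : p ∈ Qs s) : c.F.n * c.F.u p * c.F.n = c.F.u (nu p) :=
  c.rf.toRF0.n_u hp
theorem Cfg.m_u (c : Cfg s G) {p : SG s} (hp : p ∈ Rs s) : c.F.m * c.F.u p * c.F.m = c.F.u (mu p) :=
  c.rf.toRF0.m_u hp

namespace Pre

variable (h : Pre c W e o)
include h

theorem e_zero (j : Fin 8) : e j 0 = 1 := zero_of_add (h.e_add j)
theorem o_zero (j : Fin 8) : o j 0 = 1 := zero_of_add (h.o_add j)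
theorem e_sq (j : Fin 8) (w : K × K) : e j w * e j w = 1 := sq_of_add (h.e_add j) w
theorem o_sq (j : Fin 8) (w : K × K) : o j w * o j w = 1 := sq_of_add (h.o_add j) w
theorem e_inv (j : Fin 8) (w : K × K) : (e j w)⁻¹ = e j w := inv_of_add (h.e_add j) w
theorem o_inv (j : Fin 8) (w : K × K) : (o j w)⁻¹ = o j w := inv_of_add (h.o_add j) w
theorem ee0 (j : Fin 8) (w v : K × K) : Commute (e j w) (e j v) := comm_of_add (h.e_add j) w v
theorem oo0 (j : Fin 8) (w v : K × K) : Commute (o j w) (o j v) := comm_of_add (h.o_add j) w v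

theorem ρ_e (j : Fin 8) (w : K × K) : c.ρ * e j w * c.ρ⁻¹ = e (j + 1) w := by
  rw [c.ρ_conj, h.n_e, h.m_e]; congr 1; revert j; decide

theorem ρ_o (j : Fin 8) (w : K × K) : c.ρ * o j w * c.ρ⁻¹ = o (j + 1) w := by
  rw [c.ρ_conj, h.n_o, h.m_o]; congr 1; revert j; decide

theorem Φ_add (a b d f k a' b' d' f' k' : K × K) :
    Φ e o (a + a') (b + b') (d + d') (f + f') (k + k') = Φ e o a b d f k * Φ e o a' b' d' f' k' := by
  have c1 : Commute (o 1 b * e 2 d * o 2 f * e 3 k) (e 1 a') :=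
    (((h.oe0 1 b a').mul_left (h.ee1 1 a' d).symm).mul_left (h.oe7 2 f a')).mul_left (h.ee2 1 a' k).symm
  have c2 : Commute (e 2 d * o 2 f * e 3 k) (o 1 b') :=
    ((h.oe1 1 b' d).symm.mul_left (h.oo1 1 b' f).symm).mul_left (h.oe2 1 b' k).symm
  have c3 : Commute (o 2 f * e 3 k) (e 2 d') := (h.oe0 2 f d').mul_left (h.ee1 2 d' k).symm
  have c4 : Commute (e 3 k) (o 2 f') := (h.oe1 2 f' k).symm
  simp only [Φ, h.e_add, h.o_add]
  calc _ = e 1 a * (e 1 a' * (o 1 b * (o 1 b' * (e 2 d * (e 2 d' * (o 2 f * (o 2 f' * e 3 k))))))) * e 3 k' := by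
        group
    _ = e 1 a * (e 1 a' * (o 1 b * (o 1 b' * (e 2 d * (e 2 d' * (o 2 f * e 3 k)))))) * o 2 f' * e 3 k' := by
        rw [← c4.eq]; group
    _ = e 1 a * (e 1 a' * (o 1 b * (o 1 b' * (e 2 d * o 2 f * e 3 k)))) * e 2 d' * o 2 f' * e 3 k' := by
        rw [← c3.eq]; group
    _ = e 1 a * (e 1 a' * (o 1 b * e 2 d * o 2 f * e 3 k)) * o 1 b' * e 2 d' * o 2 f' * e 3 k' := by
        rw [← c2.eq]; group
    _ = _ := by rw [← c1.eq]; group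

theorem Φ_zero : Φ e o 0 0 0 0 0 = 1 := by simp [Φ, h.e_zero, h.o_zero]

theorem Φ_sq (a b d f k : K × K) : Φ e o a b d f k * Φ e o a b d f k = 1 := by
  simp only [← h.Φ_add, add_self, h.Φ_zero]

theorem Φ_inj {a b d f k a' b' d' f' k' : K × K} (hh : Φ e o a b d f k = Φ e o a' b' d' f' k') :
    a = a' ∧ b = b' ∧ d = d' ∧ f = f' ∧ k = k' := by
  obtain ⟨h1, h2, h3, h4, h5⟩ := h.ind (a + a') (b + b') (d + d') (f + f') (k + k') (by rw [h.Φ_add, hh, h.Φ_sq])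
  exact ⟨eq_of_add h1, eq_of_add h2, eq_of_add h3, eq_of_add h4, eq_of_add h5⟩

theorem Φ_mem (a b d f k : K × K) : Φ e o a b d f k ∈ W := (h.mem_W _).2 ⟨_, _, _, _, _, rfl⟩
theorem e1_eq (w : K × K) : e 1 w = Φ e o w 0 0 0 0 := by simp [Φ, h.e_zero, h.o_zero]
theorem o1_eq (w : K × K) : o 1 w = Φ e o 0 w 0 0 0 := by simp [Φ, h.e_zero, h.o_zero]
theorem e2_eq (w : K × K) : e 2 w = Φ e o 0 0 w 0 0 := by simp [Φ, h.e_zero, h.o_zero]
theorem o2_eq (w : K × K) : o 2 w = Φ e o 0 0 0 w 0 := by simp [Φ, h.e_zero, h.o_zero]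
theorem e3_eq (w : K × K) : e 3 w = Φ e o 0 0 0 0 w := by simp [Φ, h.e_zero, h.o_zero]
theorem M_eq (d f k : K × K) : e 2 d * o 2 f * e 3 k = Φ e o 0 0 d f k := by simp [Φ, h.e_zero, h.o_zero]
theorem Φ_eq (a b d f k : K × K) : Φ e o a b d f k = e 1 a * o 1 b * (e 2 d * o 2 f * e 3 k) := by
  simp only [Φ, mul_assoc]

theorem e_inj (j : Fin 8) {w : K × K} (hw : e j w = 1) : w = 0 := by
  refine rot_ind (P := fun j => e j w = 1 → w = 0) (fun j ih hj => ih ?_) (i := 1) (fun hw => ?_) j hw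
  · rw [← h.ρ_e, hj]; group
  · rw [h.e1_eq] at hw; exact (h.ind _ _ _ _ _ hw).1

theorem o_inj (j : Fin 8) {w : K × K} (hw : o j w = 1) : w = 0 := by
  refine rot_ind (P := fun j => o j w = 1 → w = 0) (fun j ih hj => ih ?_) (i := 1) (fun hw => ?_) j hw
  · rw [← h.ρ_o, hj]; group
  · rw [h.o1_eq] at hw; exact (h.ind _ _ _ _ _ hw).2.1

theorem el {g : G} (hg : g ∈ W) : g * g = 1 := by
  obtain ⟨a, b, d, f, k, rfl⟩ := (h.mem_W g).1 hg
  exact h.Φ_sq ..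

theorem comm {g g' : G} (hg : g ∈ W) (hg' : g' ∈ W) : Commute g g' := by
  obtain ⟨a, b, d, f, k, rfl⟩ := (h.mem_W g).1 hg
  obtain ⟨a', b', d', f', k', rfl⟩ := (h.mem_W g').1 hg'
  rw [commute_iff_eq, ← h.Φ_add, ← h.Φ_add, add_comm a, add_comm b, add_comm d, add_comm f, add_comm k]

theorem pg : IsPGroup 2 W := pg_iff.2 fun x hx => ⟨1, by rw [pow_one, sq, h.el hx]⟩

theorem u_V {p : SG s} (hp : p ∈ Vs s) :
    c.F.u p = Φ e o (p.u2, 0) (p.a3, 0) (p.u4, 0) (p.a5, 0) (p.u6, 0) := by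
  simp only [Φ, h.e1, h.o1, h.e2, h.o2, h.e3, ← map_mul]
  congr 1
  obtain ⟨h1, h2, h3, h4, h5, h6, h7⟩ := hp
  ext <;> simp [*]

theorem Φ_real (a b d f k : K) : Φ e o (a, 0) (b, 0) (d, 0) (f, 0) (k, 0) =
    c.F.u ⟨0, 0, a, b, 0, d, f, 0, k, 0, 0, 0⟩ := (h.u_V (p := ⟨0, 0, a, b, 0, d, f, 0, k, 0, 0, 0⟩) (by simp)).symm

theorem V_le : c.F.lt.V ≤ W := by
  rintro _ ⟨p, hp, rfl⟩
  exact (h.u_V hp : c.F.u p = _) ▸ h.Φ_mem ..

theorem t_e' (j : Fin 8) (w : K × K) : c.t * e j w * c.t = e j (w + (w.2, 0)) := by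
  rw [h.t_e j w.1 w.2]; congr 1; ext <;> simp
theorem t_o' (j : Fin 8) (w : K × K) : c.t * o j w * c.t = o j (w + (w.2, 0)) := by
  rw [h.t_o j w.1 w.2]; congr 1; ext <;> simp

theorem t_Φ (a b d f k : K × K) : c.t * Φ e o a b d f k * c.t =
    Φ e o a b d f k * Φ e o (a.2, 0) (b.2, 0) (d.2, 0) (f.2, 0) (k.2, 0) := by
  rw [← h.Φ_add]
  simp only [Φ, inv_mul_conj c.tt, h.t_e', h.t_o']

theorem δ_Φ (a b d f k : K × K) :
    c.δ (Φ e o a b d f k) = Φ e o (a.2, 0) (b.2, 0) (d.2, 0) (f.2, 0) (k.2, 0) := by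
  rw [Cfg.δ, inv_eq_of_mul_eq_one_right (h.Φ_sq ..), mul_assoc, mul_assoc, ← mul_assoc c.t, h.t_Φ, ← mul_assoc,
    h.Φ_sq, one_mul]

theorem δ_e (j : Fin 8) (w : K × K) : c.δ (e j w) = e j (w.2, 0) := by
  rw [Cfg.δ, h.e_inv, mul_assoc, mul_assoc, ← mul_assoc c.t, h.t_e', h.e_add, ← mul_assoc, h.e_sq, one_mul]

theorem t_norm : c.t ∈ 𝐍[W] := mem_norm_of_cj_le (cj_le_iff.2 fun g hg => by
  obtain ⟨a, b, d, f, k, rfl⟩ := (h.mem_W g).1 hg
  rw [c.t_inv, h.t_Φ]; exact mul_mem (h.Φ_mem ..) (h.Φ_mem ..))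

theorem real_of_comm {a b d f k : K × K} (ht : Φ e o a b d f k ∈ 𝐂₁[c.t]) :
    a.2 = 0 ∧ b.2 = 0 ∧ d.2 = 0 ∧ f.2 = 0 ∧ k.2 = 0 := by
  have := c.δ_eq_one.2 ht
  rw [h.δ_Φ] at this
  simpa [Prod.ext_iff] using h.ind _ _ _ _ _ this

theorem ker {g : G} (hg : g ∈ W) (ht : g ∈ 𝐂₁[c.t]) : g ∈ c.F.lt.V := by
  obtain ⟨⟨a, a'⟩, ⟨b, b'⟩, ⟨d, d'⟩, ⟨f, f'⟩, ⟨k, k'⟩, rfl⟩ := (h.mem_W g).1 hg
  obtain ⟨rfl, rfl, rfl, rfl, rfl⟩ := h.real_of_comm ht
  rw [h.Φ_real]; exact Lt.u_mem_im (by simp)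

theorem h_Φ (α β : Kˣ) (a b d f k : K × K) : c.F.t (α, β) * Φ e o a b d f k * (c.F.t (α, β))⁻¹ =
    Φ e o (χe s α β 1 • a) (χo s α β 1 • b) (χe s α β 2 • d) (χo s α β 2 • f) (χe s α β 3 • k) := by
  simp only [Φ, ← h.h_e, ← h.h_o]; group

theorem nH : c.F.H ≤ 𝐍[W] := by
  rintro _ ⟨⟨α, β⟩, rfl⟩
  refine mem_norm_of_cj_le (cj_le_iff.2 fun g hg => ?_)
  obtain ⟨a, b, d, f, k, rfl⟩ := (h.mem_W g).1 hg
  rw [h.h_Φ]; exact h.Φ_mem ..

theorem n_Φ (a b d f k : K × K) : c.F.n * Φ e o a b d f k * c.F.n = Φ e o k f d b a := by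
  rw [show Φ e o k f d b a = Φ e o (0 + 0 + 0 + 0 + k) (0 + 0 + 0 + f + 0) (0 + 0 + d + 0 + 0) (0 + b + 0 + 0 + 0)
    (a + 0 + 0 + 0 + 0) by simp]
  simp only [h.Φ_add, ← h.e1_eq, ← h.o1_eq, ← h.e2_eq, ← h.o2_eq, ← h.e3_eq]
  simp only [Φ, inv_mul_conj c.nn, h.n_e, h.n_o]
  rfl

theorem c4 (p : SG s) (w : K × K) : Commute (c.F.u p) (e 2 w) := h.cC _ (c.F.lt.u_mem_C p) w

theorem c6 {p : SG s} (hp : p.a1 = 0) (w : K × K) : Commute (c.F.u p) (e 3 w) := by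
  have := commute_conj c.mm (h.c4 (mu p) w)
  rwa [c.m_u (mu_mem p), mu_mu hp, h.m_e] at this

theorem c2 {p : SG s} (hp : p ∈ Qs s) (h7 : p.a7 = 0) (w : K × K) : Commute (c.F.u p) (e 1 w) := by
  have := commute_conj c.nn (h.c6 (p := nu p) (by simpa) w)
  rwa [c.n_u (nu_mem p), nu_nu hp, h.n_e] at this

theorem c8 {p : SG s} (hp : p ∈ T5s s) (w : K × K) : Commute (c.F.u p) (e 4 w) := by
  obtain ⟨h1, h2, h3, h4⟩ := hp
  have := commute_conj c.mm (h.c2 (p := mu p) (by simp [*]) (by simp [*]) w)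
  rwa [c.m_u (mu_mem p), mu_mu h1, h.m_e] at this

theorem c73 (a : K) (w : K × K) : Commute (c.F.u (x7 a)) (o 1 w) := by
  have := commute_conj c.nn (h.c15 a w)
  rw [c.n_u (by simp), h.n_o] at this
  rwa [show nu (x1 a) = (x7 a : SG s) by ext <;> simp] at this

theorem c72 (a : K) (w : K × K) : c.F.u (x7 a) * e 1 w * (c.F.u (x7 a))⁻¹ = e 1 w * e 2 (a • w) := by
  have := congrArg (fun g => c.F.n * g * c.F.n) (h.c16 a w)
  simp only [inv_mul_conj c.nn, ← map_inv, h.n_e] at this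
  rw [c.n_u (by simp), c.n_u (by simp)] at this
  rw [← map_inv]
  convert this using 4 <;> ext <;> simp

theorem c38 (a : K) (w : K × K) : c.F.u (x3 a) * e 4 w * (c.F.u (x3 a))⁻¹ = e 4 w * e 3 (a • w) := by
  have := congrArg (fun g => c.ρ * g * c.ρ⁻¹) (h.c16 a w)
  simp only [← h.o0, h.o_inv, ← conj_mul, h.ρ_e, h.ρ_o] at this
  rw [← h.o1, h.o_inv]
  exact this

/-- The hat of `V₈` centralizes the hat of `V₄ U₅ V₆`. -/
theorem e4_M (v d f k : K × K) : Commute (e 4 v) (Φ e o 0 0 d f k) := by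
  rw [← h.M_eq]
  exact ((h.ee2 2 d v).symm.mul_right (h.oe2 2 f v).symm).mul_right (h.ee1 3 k v).symm

theorem x7_W3 (a : K) (b d f k : K × K) : Commute (c.F.u (x7 a)) (Φ e o 0 b d f k) := by
  rw [Φ, h.e_zero, one_mul]
  refine (((h.c73 a b).mul_right (h.c4 _ d)).mul_right ?_).mul_right (h.c6 (by simp) k)
  rw [← h.o3]; exact (h.oo1 2 f _).symm

theorem x7_Φ (x : K) (a b d f k : K × K) :
    c.F.u (x7 x) * Φ e o a b d f k * (c.F.u (x7 x))⁻¹ = Φ e o a b (d + x • a) f k := by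
  have e1 : Φ e o a b d f k = e 1 a * Φ e o 0 b d f k := by rw [h.e1_eq, ← h.Φ_add]; simp
  rw [e1, ← conj_mul, h.c72, (h.x7_W3 x b d f k).mul_inv_cancel, h.e1_eq, h.e2_eq, ← h.Φ_add, ← h.Φ_add]
  simp [add_comm]

/-- An element normalizing `W` and centralizing `x₇(1)` and the hat of `V₄` fixes the first coordinate. -/
theorem tri {g : G} (hg : g ∈ 𝐍[W]) (h7 : Commute g (c.F.u (x7 1))) (h4 : ∀ w, Commute g (e 2 w))
    (a b d f k : K × K) : ∃ b' d' f' k', g * Φ e o a b d f k * g⁻¹ = Φ e o a b' d' f' k' := by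
  obtain ⟨a', b', d', f', k', e1⟩ := (h.mem_W _).1 (conj_mem_of_norm hg (h.Φ_mem a b d f k))
  have e2 := h.x7_Φ 1 a' b' d' f' k'
  have e3 : ∀ a b d f k x : K × K, Φ e o a b (d + x) f k = Φ e o a b d f k * e 2 x := fun a b d f k x => by
    rw [h.e2_eq, ← h.Φ_add]; simp
  rw [e3, ← e1, show c.F.u (x7 1) * (g * Φ e o a b d f k * g⁻¹) * (c.F.u (x7 1))⁻¹ =
    (c.F.u (x7 1) * g) * Φ e o a b d f k * (c.F.u (x7 1) * g)⁻¹ by group, ← h7.eq,
    show g * c.F.u (x7 1) * Φ e o a b d f k * (g * c.F.u (x7 1))⁻¹ =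
      g * (c.F.u (x7 1) * Φ e o a b d f k * (c.F.u (x7 1))⁻¹) * g⁻¹ by group, h.x7_Φ, e3, ← conj_mul,
    (h4 _).mul_inv_cancel, mul_right_inj, one_smul, one_smul, h.e2_eq, h.e2_eq] at e2
  obtain rfl := (h.Φ_inj e2).2.2.1
  exact ⟨b', d', f', k', e1⟩

/-- An element of `W₃` commuting with `x₈(1)` lies in the hat of `V₄ U₅ V₆`. -/
theorem zero_of_x8 {b d f k : K × K} (h8 : Commute (c.F.u (w8 0 1)) (Φ e o 0 b d f k)) : b = 0 := by
  have e1 : Φ e o 0 b d f k = o 1 b * Φ e o 0 0 d f k := by rw [h.o1_eq, ← h.Φ_add]; simp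
  have c0 : Commute (c.F.u (w8 0 1)) (o 1 b) := by
    have := h8.mul_right (h.e4 1 ▸ h.e4_M (1, 0) d f k).inv_right
    rwa [e1, mul_inv_cancel_right] at this
  have key : ∀ a : K, Commute (c.F.u (w8 0 1)) (o 1 (a, 0)) → a = 0 := fun a ha => by
    rw [h.o1, c.u_comm] at ha
    simpa using congrArg SG.u6 ha
  have h2 : b.2 = 0 := key _ (by
    have := commute_conj c.tt c0
    rw [c.t_u, mul_assoc, c.tt, mul_one, h.t_o', h.o_add] at this
    simpa [← mul_assoc] using c0.inv_right.mul_right this)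
  have : b = (b.1, 0) := Prod.ext rfl h2
  rw [this] at c0
  exact Prod.ext (key _ c0) h2

/-- The action of `U₈`. -/
theorem y_Φ (x y : K) (a b d f k : K × K) :
    ∃ b' d' f' k', c.F.u (w8 x y) * Φ e o a b d f k * (c.F.u (w8 x y))⁻¹ = Φ e o a b' d' f' k' :=
  h.tri (h.nC (c.F.lt.u_mem_C _)) (c.u_comm.2 (by ext <;> simp)) (h.c4 _) ..

theorem y_M (x y : K) (d f k : K × K) :
    ∃ d' f' k', c.F.u (w8 x y) * Φ e o 0 0 d f k * (c.F.u (w8 x y))⁻¹ = Φ e o 0 0 d' f' k' := by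
  obtain ⟨b', d', f', k', e1⟩ := h.y_Φ x y 0 0 d f k
  have c1 : Commute (c.F.u (w8 x y)) (c.F.u (w8 0 1)) := c.u_comm.2 (by ext <;> simp [add_comm])
  have c2 := (h.e4 1 ▸ h.e4_M (1, 0) d f k).conj (c.F.u (w8 x y))
  rw [c1.mul_inv_cancel, e1] at c2
  obtain rfl := h.zero_of_x8 c2
  exact ⟨d', f', k', e1⟩

end Pre

end Cfsg.Agent.DF
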