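import Mathlib
import Cfsg.Agent.DF.PK

/-! The commutator maps between the hats are bilinear. -/

set_option autoImplicit false
set_option linter.unusedSectionVars false

namespace Cfsg.Agent.DF

open Cfsg.Agent.Og Cfsg.Agent.Og.SG Cfsg.Agent.Loc.Mss Subgroup
open scoped commutatorElement

variable {K : Type*} [Field K] [CharP K 2] [Finite K] {s : Sg K} {G : Type*} [Group G] [Finite G]
  {c : Cfg s G}

variable {W : Subgroup G} {e o : Fin 8 → K × K → G}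

namespace AlgA

/-- The change of coordinates. -/
def ψ (κ : K) (w : K × K) : K × K := (w.1 + κ * w.2, w.2)

theorem ψ_add (κ : K) (w v : K × K) : ψ κ (w + v) = ψ κ w + ψ κ v := by
  ext
  · show w.1 + v.1 + κ * (w.2 + v.2) = w.1 + κ * w.2 + (v.1 + κ * v.2)
    ring
  · rfl

theorem ψ_smul (κ a : K) (w : K × K) : ψ κ (a • w) = a • ψ κ w := by
  ext
  · show a * w.1 + κ * (a * w.2) = a * (w.1 + κ * w.2)
    ring
  · rfl

theorem ψ_ψ (κ : K) (w : K × K) : ψ κ (ψ κ w) = w := by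
  ext
  · show w.1 + κ * w.2 + κ * w.2 = w.1
    rw [add_assoc, CharTwo.add_self_eq_zero, add_zero]
  · rfl

theorem ψ_real (κ a : K) : ψ κ (a, 0) = (a, 0) := by
  ext
  · show a + κ * 0 = a
    ring
  · rfl

theorem ψ_eq_zero {κ : K} {w : K × K} (h : ψ κ w = 0) : w = 0 := by
  rw [← ψ_ψ κ w, h]; exact ψ_real κ 0

theorem pre2 (h : Pre2 c W e o) (κ : K) : Pre2 c W e fun j w => o j (ψ κ w) :=
  { h with
    o_add := fun j w v => by rw [ψ_add, h.o_add]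
    n_o := fun j w => h.n_o j _
    m_o := fun j w => h.m_o j _
    t_o := fun j a b => (h.t_o j (a + κ * b) b).trans (by rw [add_right_comm]; rfl)
    o0 := fun a => by rw [ψ_real, h.o0]
    o1 := fun a => by rw [ψ_real, h.o1]
    o2 := fun a => by rw [ψ_real, h.o2]
    o3 := fun a => by rw [ψ_real, h.o3]
    h_o := fun α β j w => by rw [ψ_smul, h.h_o]
    oe0 := fun j w v => h.oe0 j _ v
    oe1 := fun j w v => h.oe1 j _ v
    oe2 := fun j w v => h.oe2 j _ v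
    oe7 := fun j w v => h.oe7 j _ v
    oo1 := fun j w v => h.oo1 j _ _
    ind := fun a b d f k hh => by
      obtain ⟨h1, h2, h3, h4, h5⟩ := h.ind a (ψ κ b) d (ψ κ f) k hh
      exact ⟨h1, ψ_eq_zero h2, h3, ψ_eq_zero h4, h5⟩
    mem_W := fun g => (h.mem_W g).trans
      ⟨fun ⟨a, b, d, f, k, hh⟩ => ⟨a, ψ κ b, d, ψ κ f, k, by
        rw [hh]
        show _ = e 1 a * o 1 (ψ κ (ψ κ b)) * e 2 d * o 2 (ψ κ (ψ κ f)) * e 3 k
        rw [ψ_ψ, ψ_ψ]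
        rfl⟩,
      fun ⟨a, b, d, f, k, hh⟩ => ⟨a, ψ κ b, d, ψ κ f, k, hh⟩⟩
    c15 := fun a w => h.c15 a _
    r28 := fun w v => by
      obtain ⟨d, f, k, hh⟩ := h.r28 w v
      exact ⟨d, ψ κ f, k, by rw [ψ_ψ]; exact hh⟩
    r38 := fun w v => h.r38 _ v }

theorem zero_of {f : K × K → K × K} (hf : ∀ a b, f (a + b) = f a + f b) : f 0 = 0 := by
  have := hf 0 0
  rw [add_zero] at this
  exact left_eq_add.1 this

theorem dec (w : K × K) : w = w.1 • ((1, 0) : K × K) + w.2 • ((0, 1) : K × K) := by ext <;> simp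

theorem conj_add (h : Pre c W e o) (v v' : K × K) (g : G) :
    e 4 (v + v') * g * e 4 (v + v') = e 4 v * (e 4 v' * g * e 4 v') * e 4 v := by
  nth_rewrite 2 [add_comm]
  rw [h.e_add, h.e_add]; group

theorem conj_M (h : Pre c W e o) (v d f k : K × K) : e 4 v * Φ e o 0 0 d f k * e 4 v = Φ e o 0 0 d f k := by
  rw [(h.e4_M v d f k).eq, mul_assoc, h.e_sq, mul_one]

theorem conj3 (g a b : G) : g * (a * b * a) * g⁻¹ = g * a * g⁻¹ * (g * b * g⁻¹) * (g * a * g⁻¹) := by group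

/-- The action of `t` on coordinates. -/
def τ (w : K × K) : K × K := w + (w.2, 0)

theorem t_Φ (h : Pre c W e o) (a b d f k : K × K) :
    c.t * Φ e o a b d f k * c.t = Φ e o (τ a) (τ b) (τ d) (τ f) (τ k) := by
  rw [h.t_Φ, ← h.Φ_add]; rfl

theorem τ_zero : τ (0 : K × K) = 0 := by simp [τ]
theorem τ_one : τ ((1, 0) : K × K) = (1, 0) := by simp [τ]
theorem τ_θ : τ ((0, 1) : K × K) = (0, 1) + (1, 0) := by simp [τ]

theorem snd_of_τ {w : K × K} (h : w + (1, 0) = τ w) : w.2 = 1 := by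
  have := congrArg Prod.fst h
  simpa [τ] using this.symm

section gamma

variable {γ : K × K → K × K → K × K} (h : Pre c W e o)
  (hγ : ∀ w v, e 4 v * o 1 w * e 4 v = Φ e o 0 w 0 0 (γ w v))
include h hγ

theorem γ_add_l (w w' v : K × K) : γ (w + w') v = γ w v + γ w' v := by
  have e1 := hγ (w + w') v
  rw [h.o_add, inv_mul_conj (h.e_sq 4 v), hγ, hγ, ← h.Φ_add] at e1
  exact (h.Φ_inj e1).2.2.2.2.symm

theorem γ_add_r (w v v' : K × K) : γ w (v + v') = γ w v + γ w v' := by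
  have e1 := hγ w (v + v')
  have e2 : Φ e o 0 w 0 0 (γ w v') = o 1 w * Φ e o 0 0 0 0 (γ w v') := by rw [h.o1_eq, ← h.Φ_add]; simp
  rw [conj_add h, hγ, e2, inv_mul_conj (h.e_sq 4 v), hγ, conj_M h, ← h.Φ_add] at e1
  exact (h.Φ_inj e1).2.2.2.2.symm

theorem γ_smul {a b : K} (ha : a ≠ 0) (hb : b ≠ 0) (w v : K × K) : γ (a • w) (b • v) = (a * b) • γ w v := by
  obtain ⟨β, hβ, rfl⟩ := exists_nrm s hb
  have h1 : β ^ 2 * s.σ β ≠ 0 := mul_ne_zero (pow_ne_zero _ hβ) (σ_ne_zero hβ)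
  obtain ⟨α, hα, e0⟩ := exists_nrm s (div_ne_zero ha h1)
  obtain rfl : a = α * s.σ α * β ^ 2 * s.σ β := by rw [mul_assoc, e0, div_mul_cancel₀ _ h1]
  have e1 := congrArg (fun g => c.F.t (Units.mk0 α hα, Units.mk0 β hβ) * g *
    (c.F.t (Units.mk0 α hα, Units.mk0 β hβ))⁻¹) (hγ w v)
  beta_reduce at e1
  rw [conj3, h.h_e, h.h_o, h.h_Φ, hγ] at e1
  refine (h.Φ_inj e1).2.2.2.2.trans ?_
  congr 1
  show α * s.σ α * β ^ 3 * s.σ β ^ 2 = _
  ring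

theorem γ_smul_l (a : K) (w v : K × K) : γ (a • w) v = a • γ w v := by
  rcases eq_or_ne a 0 with rfl | ha
  · rw [zero_smul, zero_smul]; exact zero_of (f := fun w => γ w v) fun _ _ => γ_add_l h hγ _ _ v
  · simpa using γ_smul h hγ ha one_ne_zero w v

theorem γ_smul_r (a : K) (w v : K × K) : γ w (a • v) = a • γ w v := by
  rcases eq_or_ne a 0 with rfl | ha
  · rw [zero_smul, zero_smul]; exact zero_of (f := γ w) (γ_add_r h hγ w)
  · simpa using γ_smul h hγ one_ne_zero ha w v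

theorem γ_one (v : K × K) : γ (1, 0) v = v := by
  have e1 := h.c38 1 v
  rw [← h.o1, h.o_inv, one_smul] at e1
  have e2 : e 4 v * o 1 (1, 0) * e 4 v = o 1 (1, 0) * e 3 v := by
    calc _ = e 4 v * (o 1 (1, 0) * e 4 v * o 1 (1, 0)) * (o 1 (1, 0))⁻¹ := by group
      _ = _ := by rw [e1, ← mul_assoc, h.e_sq, one_mul, h.o_inv]; exact (h.oe2 1 _ v).eq.symm
  rw [hγ, h.o1_eq, h.e3_eq, ← h.Φ_add] at e2
  simpa using (h.Φ_inj e2).2.2.2.2

theorem γ_τ (w v : K × K) : γ (τ w) (τ v) = τ (γ w v) := by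
  have e1 := congrArg (fun g => c.t * g * c.t) (hγ w v)
  simp only [inv_mul_conj c.tt, h.t_e', h.t_o', t_Φ h] at e1
  exact (h.Φ_inj ((hγ (τ w) (τ v)).symm.trans e1)).2.2.2.2

theorem γ_θ : (γ (0, 1) (1, 0)).2 = 1 := by
  have e1 := γ_τ h hγ (0, 1) (1, 0)
  rw [τ_θ, τ_one, γ_add_l h hγ, γ_one h hγ] at e1
  exact snd_of_τ e1

theorem γ_eq (h0 : γ (0, 1) (1, 0) = (0, 1)) : ∃ b, ∀ w v, γ w v = mb b w v := by
  have e1 := γ_τ h hγ (0, 1) (0, 1)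
  rw [τ_θ, γ_add_l h hγ, γ_add_r h hγ, γ_one h hγ, h0, add_assoc, ← add_assoc (0, 1), add_self, zero_add] at e1
  refine ⟨(γ (0, 1) (0, 1)).1, fun w v => ?_⟩
  have e2 : γ (0, 1) (0, 1) = ((γ (0, 1) (0, 1)).1, 1) := Prod.ext rfl (snd_of_τ e1)
  generalize (γ (0, 1) (0, 1)).1 = b at e2
  conv_lhs => rw [dec w, dec v]
  simp only [γ_add_l h hγ, γ_add_r h hγ, γ_smul_l h hγ, γ_smul_r h hγ, γ_one h hγ, h0, e2]
  ext <;> simp [mb] <;> ring

end gamma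

theorem mb_one (b : K) (w : K × K) : mb b w (1, 0) = w := by ext <;> simp [mb]

section beta

variable {β4 β5 β6 : K × K → K × K → K × K} (h : Pre c W e o)
  (hβ : ∀ w v, e 4 v * e 1 w * e 4 v = Φ e o w 0 (β4 w v) (β5 w v) (β6 w v))
include h hβ

theorem β_add_l (w w' v : K × K) : β6 (w + w') v = β6 w v + β6 w' v := by
  have e1 := hβ (w + w') v
  rw [h.e_add 1, inv_mul_conj (h.e_sq 4 v), hβ, hβ, ← h.Φ_add] at e1
  exact (h.Φ_inj e1).2.2.2.2.symm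

omit hβ in
theorem split (a d f k : K × K) : Φ e o a 0 d f k = e 1 a * Φ e o 0 0 d f k := by rw [h.e1_eq, ← h.Φ_add]; simp

theorem β_add_r (w v v' : K × K) : β6 w (v + v') = β6 w v + β6 w v' := by
  have e1 := hβ w (v + v')
  rw [conj_add h, hβ, split h, inv_mul_conj (h.e_sq 4 v), hβ, conj_M h, ← h.Φ_add] at e1
  exact (h.Φ_inj e1).2.2.2.2.symm

theorem β_smul {a b : K} (ha : a ≠ 0) (hb : b ≠ 0) (w v : K × K) :
    β6 (a • w) (b • v) = (a * s.σ b) • β6 w v := by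
  obtain ⟨β, hβ0, rfl⟩ := exists_nrm s hb
  obtain ⟨δ, hδ, rfl⟩ := exists_nrm s ha
  obtain ⟨α, rfl⟩ : ∃ α, δ = α * β := ⟨δ / β, by field_simp⟩
  have hα : α ≠ 0 := left_ne_zero_of_mul hδ
  have e1 := congrArg (fun g => c.F.t (Units.mk0 α hα, Units.mk0 β hβ0) * g *
    (c.F.t (Units.mk0 α hα, Units.mk0 β hβ0))⁻¹) (hβ w v)
  beta_reduce at e1
  rw [conj3, h.h_e, h.h_e, h.h_Φ, hβ] at e1
  have e2 : α * β * s.σ (α * β) = α * s.σ α * β * s.σ β := by rw [map_mul]; ring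
  rw [e2]
  refine (h.Φ_inj e1).2.2.2.2.trans ?_
  congr 1
  show α * s.σ α * β ^ 3 * s.σ β ^ 2 = _
  rw [map_mul, s.sq]
  ring

theorem β_τ (w v : K × K) : β6 (τ w) (τ v) = τ (β6 w v) := by
  have e1 := congrArg (fun g => c.t * g * c.t) (hβ w v)
  simp only [inv_mul_conj c.tt, h.t_e', t_Φ h] at e1
  exact (h.Φ_inj ((hβ (τ w) (τ v)).symm.trans e1)).2.2.2.2

theorem β_swap (w v : K × K) : β4 v w = β6 w v := by
  have e1 := congrArg (fun g => c.F.m * g * c.F.m) (hβ w v)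
  beta_reduce at e1
  rw [split h, ← h.M_eq] at e1
  simp only [inv_mul_conj c.mm, h.m_e, h.m_o] at e1
  have e2 : e 1 v * e 4 w * e 1 v = e 4 w * (e 3 (β4 w v) * o 2 (β5 w v) * e 2 (β6 w v)) := e1
  have e3 : e 4 w * (e 1 v * e 4 w * e 1 v) = e 4 w * e 1 v * e 4 w * e 1 v := by group
  rw [hβ, e2, ← mul_assoc, h.e_sq, one_mul, h.e3_eq, h.o2_eq, h.e2_eq, h.e1_eq, ← h.Φ_add, ← h.Φ_add,
    ← h.Φ_add] at e3
  simpa using (h.Φ_inj e3).2.2.1.symm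

omit hβ in
theorem nxn : c.F.n * e 4 (1, 0) * c.F.n = (c.F.u (w8 1 0))⁻¹ * c.F.n * c.F.u (w8 1 0) := by
  have e1 := c.rf.rc.r1 0 1 1 (by simp)
  rw [h.e4, ← map_inv, show (w8 1 0 : SG s)⁻¹ = w8 1 1 by ext <;> simp]
  have e2 : c.F.t (1, 1) = 1 := map_one c.F.t
  simpa [e2] using e1

omit hβ in
theorem y_conj (g : G) : c.F.u (w8 1 0) * (c.F.n * (e 4 (1, 0) * (c.F.n * g * c.F.n) * e 4 (1, 0)) * c.F.n) *
    (c.F.u (w8 1 0))⁻¹ = c.F.n * (c.F.u (w8 1 0) * g * (c.F.u (w8 1 0))⁻¹) * c.F.n := by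
  calc _ = c.F.u (w8 1 0) * (c.F.n * e 4 (1, 0) * c.F.n) * g * (c.F.n * e 4 (1, 0) * c.F.n) *
        (c.F.u (w8 1 0))⁻¹ := by group
    _ = _ := by rw [nxn h]; group

theorem β_one (d : K × K) : β6 d (1, 0) = d := by
  have e1 := y_conj h (e 3 d)
  rw [(h.c6 (p := w8 1 0) (by simp) d).mul_inv_cancel, h.n_e, show (4 - 3 : Fin 8) = 1 from rfl, hβ, h.n_Φ] at e1
  obtain ⟨b', d', f', k', e2⟩ := h.y_Φ 1 0 (β6 d (1, 0)) (β5 d (1, 0)) (β4 d (1, 0)) 0 d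
  rw [e2, h.e1_eq] at e1
  exact (h.Φ_inj e1).1

theorem β5_eq {b : K} (hγ : ∀ w v, e 4 v * o 1 w * e 4 v = Φ e o 0 w 0 0 (mb b w v)) (w v : K × K) :
    β5 w v = mb b w v := by
  choose d' f' k' hy using fun w => h.y_M 1 0 0 w 0
  simp only [← h.o2_eq] at hy
  have c2 := fun d => (h.c4 (w8 1 0) d).mul_inv_cancel
  have c3 := fun d => (h.c6 (p := w8 1 0) (by simp) d).mul_inv_cancel
  have c4 := fun d => (h.c8 (p := w8 1 0) (by simp) d).mul_inv_cancel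
  have yM : ∀ d f k, c.F.u (w8 1 0) * Φ e o 0 0 d f k * (c.F.u (w8 1 0))⁻¹ =
      Φ e o 0 0 (d + d' f) (f' f) (k' f + k) := fun d f k => by
    rw [← h.M_eq, ← conj_mul, ← conj_mul, c2, c3, hy, h.e2_eq, h.e3_eq, ← h.Φ_add, ← h.Φ_add]
    simp
  have y1 : ∀ w, c.F.u (w8 1 0) * e 1 w * (c.F.u (w8 1 0))⁻¹ = Φ e o (k' w) (f' w) 0 (f' w) (k' w) := fun w => by
    have e1 := y_conj h (o 2 w)
    rw [hy, h.n_o, show (3 - 2 : Fin 8) = 1 from rfl, hγ, mb_one, h.n_Φ, h.n_Φ, split h, ← conj_mul, ← h.o2_eq, hy,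
      ← eq_mul_inv_iff_mul_eq, inv_eq_of_mul_eq_one_right (h.Φ_sq ..), ← h.Φ_add] at e1
    simpa [add_self] using e1
  have hk : ∀ w, k' w = w := fun w => by
    obtain ⟨_, _, _, _, e1⟩ := h.y_Φ 1 0 w 0 0 0 0
    rw [← h.e1_eq, y1] at e1
    exact (h.Φ_inj e1).1
  have key : ∀ w v, β5 w v = mb b (f' w) v ∧ f' (β5 w v) = β5 w v := fun w v => by
    have e1 := conj3 (c.F.u (w8 1 0)) (e 4 v) (e 1 w)
    have e2 : Φ e o w (f' w) 0 (f' w) w = e 1 w * o 1 (f' w) * Φ e o 0 0 0 (f' w) w := by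
      rw [h.e1_eq, h.o1_eq, ← h.Φ_add, ← h.Φ_add]; simp
    rw [c4, hβ, split h, ← conj_mul, y1, yM, hk, hk, ← h.Φ_add, e2, inv_mul_conj (h.e_sq 4 v),
      inv_mul_conj (h.e_sq 4 v), hβ, hγ, conj_M h, ← h.Φ_add, ← h.Φ_add] at e1
    obtain ⟨-, -, -, h4, h5⟩ := h.Φ_inj e1
    exact ⟨by linear_combination h5, by linear_combination h4⟩
  have ff : f' (f' w) = w := by
    have e1 := yM (d' w) (f' w) (k' w)
    have e2 : c.F.u (w8 1 0) * c.F.u (w8 1 0) = e 4 (1, 0) := by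
      rw [h.e4, ← map_mul, show (w8 1 0 : SG s) * w8 1 0 = w8 0 1 by ext <;> simp [CharTwo.add_self_eq_zero]]
    rw [← hy, show c.F.u (w8 1 0) * (c.F.u (w8 1 0) * o 2 w * (c.F.u (w8 1 0))⁻¹) * (c.F.u (w8 1 0))⁻¹ =
      c.F.u (w8 1 0) * c.F.u (w8 1 0) * o 2 w * (c.F.u (w8 1 0) * c.F.u (w8 1 0))⁻¹ by group, e2, h.e_inv, h.o2_eq,
      conj_M h] at e1
    exact (h.Φ_inj e1).2.2.2.1.symm
  have e3 := key w (1, 0)
  rw [mb_one] at e3
  have e4 := e3.2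
  rw [e3.1, ff] at e4
  rw [(key w v).1, ← e4]

end beta

theorem Φ38 (h : Pre c W e o) (w k : K × K) : o 1 w * e 3 k = Φ e o 0 w 0 0 k := by
  rw [h.o1_eq, h.e3_eq, ← h.Φ_add]; simp

theorem Φ28 (h : Pre c W e o) (w d f k : K × K) : e 1 w * (e 2 d * o 2 f * e 3 k) = Φ e o w 0 d f k := by
  rw [h.M_eq, ← split h]

theorem mu (h : Pre2 c W e o) (h0 : e 4 (1, 0) * o 1 (0, 1) * e 4 (1, 0) = o 1 (0, 1) * e 3 (0, 1)) :
    ∃ b x β, Mu c W e o b x β := by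
  have p := h.toPre
  choose γ hγ using h.r38
  choose β4 β5 β6 hβ using h.r28
  simp only [Φ38 p] at hγ h0
  simp only [Φ28 p] at hβ
  obtain ⟨b, hb⟩ := γ_eq p hγ (p.Φ_inj ((hγ _ _).symm.trans h0)).2.2.2.2
  simp only [hb] at hγ
  refine ⟨b, (β6 (1, 0) (0, 1)).1, β6,
    { toPre := p
      q38 := fun w v => by rw [hγ, Φ38 p]
      q28 := fun w v => by rw [hβ, Φ28 p, β_swap p hβ, β5_eq p hβ hγ]
      add_l := β_add_l p hβ
      add_r := β_add_r p hβ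
      smul_l := fun a w v => ?_
      smul_r := fun a w v => ?_
      one_r := β_one p hβ
      th := Prod.ext rfl ?_ }⟩
  · rcases eq_or_ne a 0 with rfl | ha
    · rw [zero_smul, zero_smul]; exact zero_of (f := fun w => β6 w v) fun _ _ => β_add_l p hβ _ _ v
    · simpa using β_smul p hβ ha one_ne_zero w v
  · rcases eq_or_ne a 0 with rfl | ha
    · rw [map_zero, zero_smul, zero_smul]; exact zero_of (f := β6 w) (β_add_r p hβ w)
    · simpa using β_smul p hβ one_ne_zero ha w v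
  · have e1 := β_τ p hβ (1, 0) (0, 1)
    rw [τ_θ, τ_one, β_add_r p hβ, β_one p hβ] at e1
    exact snd_of_τ e1

end AlgA

open AlgA

theorem Pre2.exists_mu (h : Pre2 c W e o) : ∃ o' b x β, Mu c W e o' b x β := by
  have p := h.toPre
  choose γ hγ using h.r38
  simp only [Φ38 p] at hγ
  refine ⟨_, mu (pre2 h (γ (0, 1) (1, 0)).1) ?_⟩
  show e 4 (1, 0) * o 1 (ψ _ _) * e 4 (1, 0) = o 1 (ψ _ _) * e 3 (0, 1)
  rw [hγ, Φ38 p]
  congr 1
  have e2 : γ (0, 1) (1, 0) = ((γ (0, 1) (1, 0)).1, 1) := Prod.ext rfl (γ_θ p hγ)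
  generalize (γ (0, 1) (1, 0)).1 = κ at e2
  rw [dec (ψ κ (0, 1)), γ_add_l p hγ, γ_smul_l p hγ, γ_smul_l p hγ, γ_one p hγ, e2]
  ext <;> simp [ψ, CharTwo.add_self_eq_zero]

end Cfsg.Agent.DF
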