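import Mathlib
import Cfsg.Agent.DF.PK

/-! The commutator maps are given by a twisted multiplication (PLAN: AlgB). -/

set_option autoImplicit false
set_option linter.unusedSectionVars false

namespace Cfsg.Agent.DF

open Cfsg.Agent.Og Cfsg.Agent.Og.SG Cfsg.Agent.Loc.Mss Subgroup
open scoped commutatorElement

variable {K : Type*} [Field K] [CharP K 2] [Finite K] {s : Sg K} {G : Type*} [Group G] [Finite G]
  {c : Cfg s G}

variable {W : Subgroup G} {e o : Fin 8 → K × K → G}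

namespace AlgB

theorem mb_comm (b : K) (w v : K × K) : mb b w v = mb b v w := by ext <;> simp [mb] <;> ring
theorem mb_assoc (b : K) (w v u : K × K) : mb b (mb b w v) u = mb b w (mb b v u) := by ext <;> simp [mb] <;> ring
theorem mb_one (b : K) (w : K × K) : mb b w (1, 0) = w := by ext <;> simp [mb]
theorem one_mb (b : K) (w : K × K) : mb b (1, 0) w = w := by ext <;> simp [mb]
theorem mb_smul_l (b a : K) (w v : K × K) : mb b (a • w) v = a • mb b w v := by ext <;> simp [mb] <;> ring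
theorem mb_smul_r (b a : K) (w v : K × K) : mb b w (a • v) = a • mb b w v := by ext <;> simp [mb] <;> ring

theorem cancel {b : K} {l l' : K × K} (hl : mb b l l' = (1, 0)) (w : K × K) : mb b l (mb b l' w) = w := by
  rw [← mb_assoc, hl, one_mb]

theorem exists_unit (hq : ∃ a : Kˣ, a ≠ 1) (s : Sg K) (b : K) : ∃ k l', mb b (k, 1) l' = (1, 0) := by
  have h2 : (2 : K) = 0 := CharTwo.two_eq_zero
  have key : ∀ k : K, k ^ 2 + k + b ≠ 0 → ∃ k l', mb b (k, 1) l' = (1, 0) := fun k hk =>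
    ⟨k, (k ^ 2 + k + b)⁻¹ • (k + 1, 1), by
      rw [mb_smul_r, show mb b (k, 1) (k + 1, 1) = (k ^ 2 + k + b) • ((1, 0) : K × K) by
        ext <;> simp [mb] <;> grind, smul_smul, inv_mul_cancel₀ hk, one_smul]⟩
  by_cases hb : b = 0
  · obtain ⟨a, h0, -, h1, -⟩ := exists_ne (s := s) hq
    exact key a (by rw [hb, add_zero, sq, ← mul_add_one]; exact mul_ne_zero h0 h1)
  · exact key 0 (by simpa)

theorem swap {a g k : G} (ha : a * a = 1) (hg : g * g = 1) (h : a * g * a = g * k) : g * a * g = k * a := by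
  calc _ = g * (a * g * a) * a := by
        rw [show g * (a * g * a) * a = g * a * g * (a * a) by group, ha, mul_one]
    _ = _ := by rw [h, ← mul_assoc, hg, one_mul]

theorem smul_fix {a : K} (ha : a ≠ 1) {w : K × K} (h : a • w = w) : w = 0 := by
  have : (a - 1) • w = 0 := by rw [sub_smul, h, one_smul, sub_self]
  exact (smul_eq_zero.1 this).resolve_left (sub_ne_zero.2 ha)

variable {b x : K} {β : K × K → K × K → K × K} (h : Mu c W e o b x β)
include h

theorem rA (j : Fin 8) : ∀ w v, e (j + 3) v * o j w * e (j + 3) v = o j w * e (j + 2) (mb b w v) := by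
  refine rot_ind' (P := fun j => ∀ w v, e (j + 3) v * o j w * e (j + 3) v = o j w * e (j + 2) (mb b w v))
    (fun j ih w v => ?_) (i := 1) h.q38 j
  have := congrArg (fun g => c.ρ * g * c.ρ⁻¹) (ih w v)
  simpa only [← conj_mul, h.toPre.ρ_e, h.toPre.ρ_o, add_right_comm j _ 1] using this

theorem rB (j : Fin 8) : ∀ w v, e j v * o (j + 2) w * e j v = o (j + 2) w * e (j + 1) (mb b w v) := by
  refine rot_ind' (P := fun j => ∀ w v, e j v * o (j + 2) w * e j v = o (j + 2) w * e (j + 1) (mb b w v))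
    (fun j ih w v => ?_) (i := 0) (fun w v => ?_) j
  · have := congrArg (fun g => c.ρ * g * c.ρ⁻¹) (ih w v)
    simpa only [← conj_mul, h.toPre.ρ_e, h.toPre.ρ_o, add_right_comm j _ 1] using this
  · have := congrArg (fun g => c.F.n * g * c.F.n) (h.q38 w v)
    simp only [inv_mul_conj c.nn, h.n_e, h.n_o] at this
    exact this

theorem rC (j : Fin 8) : ∀ w v, e (j + 3) v * e j w * e (j + 3) v =
    e j w * (e (j + 1) (β v w) * o (j + 1) (mb b w v) * e (j + 2) (β w v)) := by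
  refine rot_ind' (P := fun j => ∀ w v, e (j + 3) v * e j w * e (j + 3) v =
    e j w * (e (j + 1) (β v w) * o (j + 1) (mb b w v) * e (j + 2) (β w v))) (fun j ih w v => ?_) (i := 1) h.q28 j
  have := congrArg (fun g => c.ρ * g * c.ρ⁻¹) (ih w v)
  simpa only [← conj_mul, h.toPre.ρ_e, h.toPre.ρ_o, add_right_comm j _ 1] using this

theorem exists_mu {l l' : K × K} (hl : mb b l l' = (1, 0)) : ∃ g : G, g * g = 1 ∧
    (∀ w, g * e 1 w * g = e 0 (mb b l' w)) ∧ ∀ w, g * e 4 w * g = e 5 (mb b l' w) := by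
  have p := h.toPre
  have fix : ∀ {a g : G}, g * g = 1 → Commute g a → g * a * g = a := fun hg hc => by
    rw [hc.eq, mul_assoc, hg, mul_one]
  have ass : ∀ a g k : G, a * g * a * k * (a * g * a) = a * (g * (a * k * a) * g) * a := fun a g k => by group
  refine ⟨o 2 l * o 6 l' * o 2 l, ?_, fun w => ?_, fun w => ?_⟩
  · rw [← inv_mul_conj (p.o_sq 2 l), p.o_sq, mul_one, p.o_sq]
  · have k1 : o 6 l' * e 1 w * o 6 l' = e 0 (mb b l' w) * e 1 w := swap (p.e_sq ..) (p.o_sq ..) (rA h 6 l' w)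
    have k2 : ∀ v, o 2 l * e 0 v * o 2 l = e 1 (mb b l v) * e 0 v := fun v =>
      swap (p.e_sq ..) (p.o_sq ..) (rB h 0 l v)
    have k3 : o 2 l * e 1 w * o 2 l = e 1 w := fix (p.o_sq ..) (p.oe7 2 l w)
    have k4 : Commute (e 0 (mb b l' w)) (e 1 w) := p.ee1 0 _ _
    rw [ass, k3, k1, inv_mul_conj (p.o_sq ..), k2, k3, cancel hl, fix (p.e_sq ..) k4.symm]
  · have k1 : o 6 l' * e 4 w * o 6 l' = e 5 (mb b l' w) * e 4 w := swap (p.e_sq ..) (p.o_sq ..) (rB h 4 l' w)
    have k2 : ∀ v, o 2 l * e 5 v * o 2 l = e 4 (mb b l v) * e 5 v := fun v =>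
      swap (p.e_sq ..) (p.o_sq ..) (rA h 2 l v)
    have k3 : o 2 l * e 4 w * o 2 l = e 4 w := fix (p.o_sq ..) (p.oe2 2 l w)
    have k4 : Commute (e 4 w) (e 5 (mb b l' w)) := p.ee1 4 _ _
    rw [ass, k3, k1, inv_mul_conj (p.o_sq ..), k2, k3, cancel hl, fix (p.e_sq ..) k4]

theorem exists_tau {l l' : K × K} (hl : mb b l l' = (1, 0)) : ∃ τ : G →* G, (∀ w, τ (e 1 w) = e 1 (mb b l w)) ∧
    (∀ w, τ (e 4 w) = e 4 (mb b l w)) ∧ ∀ w, τ (e 0 w) = e 0 (mb b l' w) := by
  obtain ⟨g, hg, g1, g4⟩ := exists_mu h hl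
  obtain ⟨k, hk, k1, k4⟩ := exists_mu h (one_mb b (1, 0))
  have hl' : mb b l' l = (1, 0) := by rw [mb_comm, hl]
  have back : ∀ {g a a' : G}, g * g = 1 → g * a * g = a' → g * a' * g = a := fun {g a a'} hg e => by
    rw [← e, show g * (g * a * g) * g = g * g * a * (g * g) by group, hg, one_mul, mul_one]
  have ap : ∀ a, (MulAut.conj (g * k)).toMonoidHom a = g * (k * a * k) * g := fun a => by
    simp [inv_eq_of_mul_eq_one_right hg, inv_eq_of_mul_eq_one_right hk, mul_assoc]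
  simp only [one_mb] at k1 k4
  refine ⟨(MulAut.conj (g * k)).toMonoidHom, fun w => ?_, fun w => ?_, fun w => ?_⟩
  · rw [ap, k1]; exact back hg (by rw [g1, cancel hl'])
  · rw [ap, k4]; exact back hg (by rw [g4, cancel hl'])
  · rw [ap, back hk (k1 w), g1]

theorem rM (w v : K × K) (a d : K) : e 1 (a • w) * e 4 (d • v) * e 1 (a • w) * e 4 (d • v) =
    Φ e o 0 0 ((d * s.σ a) • β v w) ((a * d) • mb b w v) ((a * s.σ d) • β w v) := by
  rw [mul_assoc, mul_assoc, ← mul_assoc (e 4 _), h.q28, ← mul_assoc, h.toPre.e_sq, one_mul, h.toPre.M_eq, h.smul_l,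
    h.smul_r, h.smul_l, h.smul_r, mb_smul_l, mb_smul_r, smul_smul, smul_smul, smul_smul]

section
variable {l l' : K × K} {τ : G →* G} (t1 : ∀ w, τ (e 1 w) = e 1 (mb b l w)) (t4 : ∀ w, τ (e 4 w) = e 4 (mb b l w))
include t1 t4

theorem tM (w v : K × K) (a d : K) :
    τ (Φ e o 0 0 ((d * s.σ a) • β v w) ((a * d) • mb b w v) ((a * s.σ d) • β w v)) =
      Φ e o 0 0 ((d * s.σ a) • β (mb b l v) (mb b l w)) ((a * d) • mb b (mb b l w) (mb b l v))
        ((a * s.σ d) • β (mb b l w) (mb b l v)) := by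
  rw [← rM h, ← rM h]
  simp only [map_mul, t1, t4, mb_smul_r]

theorem t23 (k : K × K) : τ (e 3 k) = e 3 (β (mb b l k) l) ∧ τ (e 2 k) = e 2 (β (mb b l k) l) := by
  have p := h.toPre
  have h2 : (2 : K) = 0 := CharTwo.two_eq_zero
  obtain ⟨a, h0, h1, h1', hσ⟩ := exists_ne (s := s) c.big
  have hk : (a + s.σ a) * (a * (a + 1)) ≠ 0 := mul_ne_zero (fun e => hσ (by grind)) (mul_ne_zero h0 h1')
  obtain ⟨w, rfl⟩ : ∃ w, k = ((a + s.σ a) * (a * (a + 1))) • w :=
    ⟨((a + s.σ a) * (a * (a + 1)))⁻¹ • k, by rw [smul_smul, mul_inv_cancel₀ hk, one_smul]⟩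
  have sq := s.sq a
  constructor
  · have k := congrArg₂ (· * ·) (congrArg₂ (· * ·) (tM h t1 t4 w (1, 0) (a * a) 1) (tM h t1 t4 w (1, 0) a (s.σ a)))
      (congrArg₂ (· * ·) (tM h t1 t4 w (1, 0) a a) (tM h t1 t4 w (1, 0) 1 (a * s.σ a)))
    simp only [← map_mul τ, ← p.Φ_add, ← add_smul, map_mul s.σ, map_one, add_zero, sq] at k
    rw [show 1 * (s.σ a * s.σ a) + s.σ a * s.σ a + (a * s.σ a + a * s.σ a * 1) = 0 by grind,
      show a * a * 1 + a * s.σ a + (a * a + 1 * (a * s.σ a)) = 0 by grind,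
      show a * a * 1 + a * a ^ 2 + (a * s.σ a + 1 * (s.σ a * a ^ 2)) = (a + s.σ a) * (a * (a + 1)) by ring] at k
    simp only [zero_smul, ← p.e3_eq, h.one_r, mb_one] at k
    rw [k, mb_smul_r, h.smul_l]
  · have k := congrArg₂ (· * ·) (congrArg₂ (· * ·) (tM h t1 t4 (1, 0) w 1 (a * a)) (tM h t1 t4 (1, 0) w (s.σ a) a))
      (congrArg₂ (· * ·) (tM h t1 t4 (1, 0) w a a) (tM h t1 t4 (1, 0) w (a * s.σ a) 1))
    simp only [← map_mul τ, ← p.Φ_add, ← add_smul, map_mul s.σ, map_one, add_zero, sq] at k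
    rw [show 1 * (s.σ a * s.σ a) + s.σ a * s.σ a + (a * s.σ a + a * s.σ a * 1) = 0 by grind,
      show 1 * (a * a) + s.σ a * a + (a * a + a * s.σ a * 1) = 0 by grind,
      show a * a * 1 + a * a ^ 2 + (a * s.σ a + 1 * (s.σ a * a ^ 2)) = (a + s.σ a) * (a * (a + 1)) by ring] at k
    simp only [zero_smul, ← p.e2_eq, h.one_r, mb_one] at k
    rw [k, mb_smul_r, h.smul_l]

theorem rel (t0 : ∀ w, τ (e 0 w) = e 0 (mb b l' w)) (w v : K × K) :
    β (β (mb b l v) l) (mb b l' w) = mb b l (β v w) ∧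
      β (mb b l' w) (β (mb b l v) l) = β (mb b l (β w v)) l := by
  have p := h.toPre
  have key : ∀ w v, τ (o 1 (mb b w v)) = Φ e o (β (β (mb b l v) l) (mb b l' w) + mb b l (β v w))
      (mb b (mb b l' w) (β (mb b l v) l)) (β (mb b l' w) (β (mb b l v) l) + β (mb b l (β w v)) l) 0 0 := fun w v => by
    have k0 : ∀ w v, e 3 v * e 0 w * e 3 v = e 0 w * (e 1 (β v w) * o 1 (mb b w v) * e 2 (β w v)) := rC h 0
    have k := congrArg τ (k0 w v)
    simp only [map_mul, t0, t1, fun k => (t23 h t1 t4 k).1, fun k => (t23 h t1 t4 k).2] at k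
    rw [k0, mul_right_inj] at k
    rw [eq_inv_mul_of_mul_eq (eq_mul_inv_of_mul_eq k.symm), p.e_inv, p.e_inv]
    simp only [p.e1_eq, p.o1_eq, p.e2_eq, ← p.Φ_add, add_zero, zero_add, add_comm]
  obtain ⟨a, h0, -, -, hσ⟩ := exists_ne (s := s) c.big
  have hs := σ_ne_zero (s := s) h0
  have k := key (a • w) (a⁻¹ • v)
  rw [mb_smul_l, mb_smul_r, smul_smul, mul_inv_cancel₀ h0, one_smul, key] at k
  obtain ⟨k1, -, k2, -⟩ := p.Φ_inj k
  simp only [mb_smul_r, h.smul_l, h.smul_r, smul_smul, ← smul_add, map_inv₀] at k1 k2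
  refine ⟨eq_of_add (smul_fix (fun e => hσ ?_) k1.symm), eq_of_add (smul_fix (fun e => hσ ?_) k2.symm)⟩
  · field_simp at e; exact e
  · field_simp at e; exact e.symm

end

end AlgB

open AlgB in
theorem Mu.form {b x : K} {β : K × K → K × K → K × K} (h : Mu c W e o b x β) :
    b = x + s.σ x ∧ ∀ w v, β w v = mb b w (s.σ v.1 + x * s.σ v.2, s.σ v.2) := by
  have h2 : (2 : K) = 0 := CharTwo.two_eq_zero
  obtain ⟨k, l', hl⟩ := exists_unit c.big s b
  have hl' : mb b l' (k, 1) = (1, 0) := by rw [mb_comm, hl]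
  obtain ⟨τ, t1, t4, t0⟩ := exists_tau h hl
  have r := rel h t1 t4 t0
  have dec : ∀ w v, β w v = s.σ v.1 • w + s.σ v.2 • β w (0, 1) := fun w v => by
    rw [← h.smul_r, ← h.one_r w, ← h.smul_r, h.one_r, ← h.add_r]
    congr 1; ext <;> simp
  have b1 : β (k, 1) (0, 1) = mb b (k, 1) (x, 1) := by
    have := (r (k, 1) (1, 0)).1
    rw [hl', h.one_r, mb_one, dec, dec (1, 0), h.th] at this
    simp only [map_one, one_smul] at this
    rw [eq_sub_of_add_eq' this]
    ext <;> simp [mb] <;> ring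
  have b2 : ∀ w, β w (0, 1) = mb b w (x, 1) := fun w => by
    have : w = (w.1 + k * w.2) • ((1, 0) : K × K) + w.2 • ((k, 1) : K × K) := by ext <;> simp; grind
    rw [this, h.add_l, h.smul_l, h.smul_l, h.th, b1]
    ext <;> simp [mb] <;> ring
  have b3 : ∀ w v, β w v = mb b w (s.σ v.1 + x * s.σ v.2, s.σ v.2) := fun w v => by
    rw [dec, b2]
    ext <;> simp [mb] <;> ring
  refine ⟨?_, b3⟩
  obtain ⟨φ, hφ⟩ : ∃ φ : K × K → K × K, ∀ v, φ v = (s.σ v.1 + x * s.σ v.2, s.σ v.2) := ⟨_, fun _ => rfl⟩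
  simp only [← hφ] at b3
  have m1 : ∀ w, mb b (φ (k, 1)) (φ (mb b l' w)) = φ w := fun w => by
    have := (r w l').1
    rwa [hl, b3, b3, b3, one_mb, cancel hl] at this
  have m2 := (r (k, 1) (1, 0)).2
  rw [hl', h.one_r, mb_one, b3, b3, b3, one_mb, ← m1, cancel hl', mb_comm _ (mb ..)] at m2
  have m3 := congrArg (mb b (φ l')) m2
  have m4 : mb b (φ l') (φ (k, 1)) = (1, 0) := by
    have := m1 (1, 0)
    rw [mb_one, mb_comm] at this
    rw [this, hφ]; simp
  rw [cancel m4, cancel m4, hφ, hφ] at m3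
  have m5 := congrArg Prod.fst m3
  simp [mb, s.sq] at m5
  grind

end Cfsg.Agent.DF
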