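import Mathlib
import Cfsg.Agent.DF.PK

/-! The splitting of the coordinate ring. -/

set_option autoImplicit false
set_option linter.unusedSectionVars false

namespace Cfsg.Agent.DF

open Cfsg.Agent.Og Cfsg.Agent.Og.SG Cfsg.Agent.Loc.Mss Subgroup
open scoped commutatorElement

variable {K : Type*} [Field K] [CharP K 2] [Finite K] {s : Sg K} {G : Type*} [Group G] [Finite G]
  {c : Cfg s G}

variable {W : Subgroup G} {e o : Fin 8 → K × K → G}

namespace AlgC

theorem exists_y (s : Sg K) (x : K) : ∃ y : K, s.σ y + y = x ∨ s.σ y + y = x + 1 := by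
  have h2 : (2 : K) = 0 := CharTwo.two_eq_zero
  let f : K →+ K := s.σ.toAddMonoidHom + AddMonoidHom.id K
  have hf : ∀ y, f y = s.σ y + y := fun _ => rfl
  have hk : (f.ker : Set K) = {0, 1} := by
    ext y
    simp only [SetLike.mem_coe, AddMonoidHom.mem_ker, hf, Set.mem_insert_iff, Set.mem_singleton_iff]
    constructor
    · intro h
      exact σ_fix (s := s) (by linear_combination h - y * h2)
    · rintro (rfl | rfl)
      · simp
      · rw [map_one]; linear_combination h2
  have hi : f.range.index = 2 := by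
    rw [AddSubgroup.index_range]
    change Nat.card (f.ker : Set K) = 2
    rw [hk, Nat.card_coe_set_eq, Set.ncard_pair zero_ne_one]
  have h1 : (1 : K) ∉ f.range := by
    rintro ⟨y, hy⟩
    rw [hf] at hy
    have h3 := congrArg s.σ hy
    rw [map_add, s.sq, map_one] at h3
    have h4 : y * (y - 1) = 0 := by linear_combination h3 - hy
    rcases mul_eq_zero.1 h4 with h | h
    · rw [h] at hy; simp at hy
    · rw [sub_eq_zero.1 h, map_one] at hy
      exact one_ne_zero (by linear_combination hy : (1 : K) = 0)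
  by_cases hx : x ∈ f.range
  · obtain ⟨y, hy⟩ := hx
    exact ⟨y, Or.inl hy⟩
  · obtain ⟨y, hy⟩ := (AddSubgroup.add_mem_iff_of_index_two hi).2 (iff_of_false hx h1)
    exact ⟨y, Or.inr hy⟩

/-- The splitting map. -/
def io (y : K) (w : K × K) : K × K := (w.1 * y + w.2 * (1 + y), w.1 + w.2)

theorem io_add (y : K) (w v : K × K) : io y (w + v) = io y w + io y v := by
  ext <;> simp only [io, Prod.fst_add, Prod.snd_add] <;> ring

theorem io_inj {y : K} {w : K × K} (h : io y w = 0) : w = 0 := by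
  have h2 : (2 : K) = 0 := CharTwo.two_eq_zero
  have h1 : w.1 * y + w.2 * (1 + y) = 0 := congrArg Prod.fst h
  have h3 : w.1 + w.2 = 0 := congrArg Prod.snd h
  have h4 : w.2 = 0 := by linear_combination h1 - y * h3
  exact Prod.ext (by rw [h4, add_zero] at h3; exact h3) h4

theorem io_diag (y a : K) : io y (a, a) = (a, 0) := by
  have h2 : (2 : K) = 0 := CharTwo.two_eq_zero
  ext <;> simp only [io]
  · linear_combination a * y * h2
  · linear_combination a * h2

theorem io_mul {y b : K} (hb : b = y ^ 2 + y) (w v : K × K) : mb b (io y w) (io y v) = io y (w * v) := by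
  have h2 : (2 : K) = 0 := CharTwo.two_eq_zero
  subst hb
  ext <;> simp only [io, mb, Prod.fst_mul, Prod.snd_mul] <;> grind

theorem io_swap (y : K) (w : K × K) : ((io y w).1 + (io y w).2, (io y w).2) = io y w.swap := by
  have h2 : (2 : K) = 0 := CharTwo.two_eq_zero
  ext <;> simp only [io, Prod.fst_swap, Prod.snd_swap] <;> grind

theorem io_P {x y : K} (hy : s.σ y + y = x) (w : K × K) :
    (s.σ (io y w).1 + x * s.σ (io y w).2, s.σ (io y w).2) = io y (φP s w) := by
  have h2 : (2 : K) = 0 := CharTwo.two_eq_zero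
  subst hy
  ext <;> simp only [io, φP, map_add, map_mul, map_one] <;> grind

theorem io_F {x y : K} (hy : s.σ y + y = x + 1) (w : K × K) :
    (s.σ (io y w).1 + x * s.σ (io y w).2, s.σ (io y w).2) = io y (φF s w) := by
  have h2 : (2 : K) = 0 := CharTwo.two_eq_zero
  obtain rfl : x = s.σ y + y + 1 := by linear_combination -hy - h2
  ext <;> simp only [io, φF, map_add, map_mul, map_one] <;> grind

theorem conj_comm (g a b : G) : g * ⁅a, b⁆ * g⁻¹ = ⁅g * a * g⁻¹, g * b * g⁻¹⁆ := by
  simp only [commutatorElement_def]; group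

theorem conj_mul' (g a b : G) : g * (a * b) * g⁻¹ = g * a * g⁻¹ * (g * b * g⁻¹) := by group

theorem sp_of {b x y : K} {β : K × K → K × K → K × K} (h : Mu c W e o b x β) (hb : b = y ^ 2 + y)
    {φ : K × K → K × K} (hβ : ∀ w v, β (io y w) (io y v) = io y (w * φ v)) :
    Sp c φ (fun j w => e j (io y w)) (fun j w => o j (io y w)) := by
  have p := h.toPre
  have a3 : ∀ (i : ℕ) [i.AtLeastTwo] (j : Fin 8), j + 1 + OfNat.ofNat i = j + OfNat.ofNat i + 1 :=
    fun i _ j => add_right_comm _ _ _
  have oe3 : ∀ j w v, ⁅o j (io y w), e (j + 3) (io y v)⁆ = e (j + 2) (io y (w * v)) := by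
    refine rot_ind' (i := 1) (fun j hj w v => ?_) fun w v => ?_
    · rw [add_right_comm j 1 3, add_right_comm j 1 2, ← p.ρ_o, ← p.ρ_e, ← p.ρ_e, ← conj_comm, hj]
    · rw [commutatorElement_def, p.o_inv, p.e_inv, ← io_mul hb]
      have := h.q38 (io y w) (io y v)
      calc _ = o 1 (io y w) * (e 4 (io y v) * o 1 (io y w) * e 4 (io y v)) := by
            simp only [mul_assoc]; rfl
        _ = _ := by rw [this, ← mul_assoc, p.o_sq, one_mul]; rfl
  refine ⟨fun j w v => by rw [io_add, p.e_add], fun j w v => by rw [io_add, p.o_add],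
    fun j w hw => io_inj (p.e_inj j hw), fun j w => p.n_e j _, fun j w => p.n_o j _, fun j w => p.m_e j _,
    fun j w => p.m_o j _, fun j w => by rw [← io_swap, ← p.t_e], fun j w => by rw [← io_swap, ← p.t_o],
    fun a => by rw [io_diag, p.e2], fun a => by rw [io_diag, p.o2], fun j w v => p.ee1 j _ _,
    fun j w v => p.ee2 j _ _, fun j w v => p.oe0 j _ _, fun j w v => p.oe1 j _ _, fun j w v => p.oe2 j _ _,
    fun j w v => p.oe7 j _ _, ?_, oe3, ?_⟩
  · refine rot_ind' (i := 1) (fun j hj w v => ?_) fun w v => ?_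
    · rw [add_right_comm j 1 3, add_right_comm j 1 2, ← p.ρ_e j, ← p.ρ_e (j + 3), ← conj_comm, hj,
        conj_mul', conj_mul', p.ρ_e, p.ρ_e, p.ρ_o]
    · rw [commutatorElement_def, p.e_inv, p.e_inv, ← hβ, ← hβ, ← io_mul hb]
      have := h.q28 (io y w) (io y v)
      calc _ = e 1 (io y w) * (e 4 (io y v) * e 1 (io y w) * e 4 (io y v)) := by
            simp only [mul_assoc]; rfl
        _ = _ := by rw [this, ← mul_assoc, p.e_sq, one_mul]; rfl
  · refine rot_ind' (i := 0) (fun j hj w v => ?_) fun w v => ?_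
    · rw [add_right_comm j 1 2, ← p.ρ_e j, ← p.ρ_o (j + 2), ← conj_comm, hj, p.ρ_e]
    · have h1 := congrArg (fun g => c.F.n * g * c.F.n⁻¹) (oe3 1 v w)
      have hn : c.F.n⁻¹ = c.F.n := inv_eq_of_mul_eq_one_right c.nn
      simp only [conj_comm] at h1
      rw [hn, p.n_o, p.n_e, p.n_e, mul_comm v w] at h1
      rw [← commutatorElement_inv]
      exact (congrArg (·⁻¹) h1).trans (p.e_inv _ _)

end AlgC

open AlgC in
theorem Mu.exists_sp {b x : K} {β : K × K → K × K → K × K} (h : Mu c W e o b x β) (hb : b = x + s.σ x)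
    (hβ : ∀ w v, β w v = mb b w (s.σ v.1 + x * s.σ v.2, s.σ v.2)) :
    ∃ e' o', Sp c (φP s) e' o' ∨ Sp c (φF s) e' o' := by
  have h2 : (2 : K) = 0 := CharTwo.two_eq_zero
  obtain ⟨y, hy | hy⟩ := exists_y s x
  · have h3 := congrArg s.σ hy
    rw [map_add, s.sq] at h3
    have hb' : b = y ^ 2 + y := by rw [hb]; linear_combination -hy - h3 + s.σ y * h2
    exact ⟨_, _, Or.inl (sp_of h hb' fun w v => by rw [hβ, io_P hy, io_mul hb'])⟩
  · have h3 := congrArg s.σ hy
    rw [map_add, s.sq, map_add, map_one] at h3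
    have hb' : b = y ^ 2 + y := by rw [hb]; linear_combination -hy - h3 + (s.σ y - 1) * h2
    exact ⟨_, _, Or.inr (sp_of h hb' fun w v => by rw [hβ, io_F hy, io_mul hb'])⟩

end Cfsg.Agent.DF
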