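import Mathlib
import Cfsg.Agent.Chev.F4TwCount
import Cfsg.Agent.Loc.MssSyl

/-! The graph-field involution of `F₄(K)` and the invariant Sylow subgroup. -/

set_option autoImplicit false

namespace Cfsg.Agent.DF

open Cfsg.Lie Cfsg.Agent.Chev Cfsg.Agent.Chev.Isog Cfsg.Agent.Chev.F4T

variable {K : Type*} [Field K] [CharP K 2]

/-- The graph-field automorphism. -/
noncomputable def gam (T : Tw K) : MulAut (chevF4.group K) := dataF4.sigma (matA_injective_F4 K) T.θ T.hθ

theorem gam_XG (T : Tw K) {r : ℕ} (hr : r < 48) (t : K) :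
    gam T (chevF4.XG K r t) = chevF4.XG K (barNF4 r) (T.θ t ^ lamNF4 r) :=
  dataF4.sigma_XG _ T.θ T.hθ ⟨r, hr⟩ t

theorem gam_gam (T : Tw K) (g : chevF4.group K) : gam T (gam T g) = g := dataF4.sigma_sigma _ T.θ T.hθ g

theorem coe_gam (T : Tw K) (g : chevF4.group K) : (gam T g : Γ K) = T.σ g := (T.σ_coe g).symm

variable (K) in
/-- The positive unipotent subgroup. -/
def U0 : Subgroup (chevF4.group K) := (chevF4.posUnipotent K).subgroupOf (chevF4.group K)

end Cfsg.Agent.DF
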