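import Mathlib
import Cfsg.Agent.DF.PK
import Cfsg.Agent.DF.DefsF
import Cfsg.Agent.Chev.CTChev
import Cfsg.Agent.Chev.StData
import Cfsg.Agent.Chev.TwGraph
import Cfsg.Agent.S1054

/-! The split system with the twisting map of `F₄` generates a copy of `F₄(K)`. -/

set_option autoImplicit false
set_option linter.unusedSectionVars false

namespace Cfsg.Agent.DF

open Cfsg.Agent.Og Cfsg.Agent.Og.SG Cfsg.Agent.Loc.Mss Subgroup
open Cfsg.Lie Cfsg.Agent.Chev Cfsg.Agent.Chev.Isog Cfsg.Agent.Chev.F4T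
open scoped commutatorElement

variable {K : Type*} [Field K] [CharP K 2] [Finite K] {s : Sg K} {G : Type*} [Group G] [Finite G]
  {c : Cfg s G}

variable {e o : Fin 8 → K × K → G}

namespace CT

/-- The root elements in the first factor. -/
def La (T : Tw K) (f : Fin 8 → K × K → G) (j : Fin 8) (r : K) : G := f j (T.θ r, 0)

/-- The root elements in the second factor. -/
def Lb (f : Fin 8 → K × K → G) (j : Fin 8) (r : K) : G := f j (0, r)

/-- The root elements of the rank two subsystems. -/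
def xx (T : Tw K) (e o : Fin 8 → K × K → G) : ℕ → K → G
  | 13 => Lb e 3
  | 14 => Lb o 4
  | 17 => La T e 1
  | 19 => Lb e 0
  | 20 => Lb e 2
  | 21 => La T e 6
  | 22 => La T e 7
  | 23 => La T o 4
  | 24 => La T o 0
  | 25 => La T e 3
  | 26 => La T e 2
  | 27 => Lb e 6
  | 28 => Lb e 4
  | 30 => La T e 5
  | 33 => Lb o 0
  | 34 => Lb e 7
  | _ => fun _ => 1

/-- The commutator terms with odd coefficient. -/
def red (l : List (ℕ × ℤ × ℕ × ℕ)) : List (ℕ × ℕ × ℕ) :=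
  (l.filter fun c => c.2.1 % 2 = 1).map fun c => (c.1, c.2.2)

/-- The table of commutator terms. -/
def TB : List (ℕ × ℕ × List (ℕ × ℕ × ℕ)) := [
  (13, 14, []), (13, 20, []), (13, 27, [(14, 1, 1)]), (13, 33, [(20, 1, 1)]), (14, 13, []),
  (14, 20, [(13, 1, 1)]), (14, 27, []), (14, 34, [(27, 1, 1)]), (20, 13, []), (20, 14, [(13, 1, 1)]),
  (20, 33, []), (20, 34, [(33, 1, 1)]), (27, 13, [(14, 1, 1)]), (27, 14, []), (27, 33, [(34, 1, 1)]),
  (27, 34, []), (33, 13, [(20, 1, 1)]), (33, 20, []), (33, 27, [(34, 1, 1)]), (33, 34, []),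
  (34, 14, [(27, 1, 1)]), (34, 20, [(33, 1, 1)]), (34, 27, []), (34, 33, []), (14, 22, []), (14, 25, []),
  (22, 14, []), (22, 33, []), (25, 14, []), (25, 33, []), (33, 22, []), (33, 25, []), (14, 23, []),
  (14, 24, []), (23, 14, []), (23, 33, []), (24, 14, []), (24, 33, []), (33, 23, []), (33, 24, []),
  (17, 19, []), (17, 20, []), (17, 22, []), (17, 25, []), (17, 27, [(19, 1, 1), (22, 1, 2)]),
  (17, 28, [(20, 1, 1), (25, 1, 2)]), (19, 17, []), (19, 20, []), (19, 22, []),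
  (19, 25, [(20, 1, 1), (17, 2, 1)]), (19, 27, []), (19, 30, [(27, 1, 1), (22, 2, 1)]), (20, 17, []),
  (20, 19, []), (20, 22, [(19, 1, 1), (17, 2, 1)]), (20, 25, []), (20, 28, []),
  (20, 30, [(28, 1, 1), (25, 2, 1)]), (22, 17, []), (22, 19, []), (22, 20, [(19, 1, 1), (17, 1, 2)]),
  (22, 27, []), (22, 28, [(27, 1, 1), (30, 1, 2)]), (22, 30, []), (25, 17, []),
  (25, 19, [(20, 1, 1), (17, 1, 2)]), (25, 20, []), (25, 27, [(28, 1, 1), (30, 1, 2)]), (25, 28, []),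
  (25, 30, []), (27, 17, [(19, 1, 1), (22, 2, 1)]), (27, 19, []), (27, 22, []),
  (27, 25, [(28, 1, 1), (30, 2, 1)]), (27, 28, []), (27, 30, []), (28, 17, [(20, 1, 1), (25, 2, 1)]),
  (28, 20, []), (28, 22, [(27, 1, 1), (30, 2, 1)]), (28, 25, []), (28, 27, []), (28, 30, []),
  (30, 19, [(27, 1, 1), (22, 1, 2)]), (30, 20, [(28, 1, 1), (25, 1, 2)]), (30, 22, []), (30, 25, []),
  (30, 27, []), (30, 28, []), (20, 23, []), (20, 24, []), (23, 20, []), (23, 27, []), (24, 20, []),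
  (24, 27, []), (27, 23, []), (27, 24, []), (21, 22, []), (21, 23, []), (21, 24, [(22, 1, 1)]),
  (21, 25, [(23, 1, 1)]), (22, 21, []), (22, 23, [(21, 1, 1)]), (22, 24, []), (22, 26, [(24, 1, 1)]),
  (23, 21, []), (23, 22, [(21, 1, 1)]), (23, 25, []), (23, 26, [(25, 1, 1)]), (24, 21, [(22, 1, 1)]),
  (24, 22, []), (24, 25, [(26, 1, 1)]), (24, 26, []), (25, 21, [(23, 1, 1)]), (25, 23, []),
  (25, 24, [(26, 1, 1)]), (25, 26, []), (26, 22, [(24, 1, 1)]), (26, 23, [(25, 1, 1)]), (26, 24, []),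
  (26, 25, [])]

/-- Membership in a rank two subsystem. -/
def In (i k r : ℕ) : Prop := ∀ m < 4, m ≠ i → m ≠ k → chevF4.co r m = 0

instance (i k r : ℕ) : Decidable (In i k r) := by unfold In; infer_instance

/-- The table covers the pair. -/
def Cov (r s : ℕ) : Prop := s ≠ r → s ≠ chevF4.neg r → (r, s, red (chevF4.commTerms r s)) ∈ TB

instance (r s : ℕ) : Decidable (Cov r s) := by unfold Cov; infer_instance

set_option synthInstance.maxHeartbeats 400000 in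
set_option synthInstance.maxSize 4096 in
theorem TB_spec : ∀ i < 4, ∀ k < 4, ∀ r < 48, In i k r → ∀ s < 48, In i k s → Cov r s := by decide +kernel

theorem c1 {a b : G} (h : Commute a b) : ⁅a, b⁆ = 1 := commutatorElement_eq_one_iff_commute.2 h

theorem c2 {a b : G} (h : Commute a b) : ⁅b, a⁆ = 1 := c1 h.symm

/-- A commutator formula with one term, in both orders. -/
def P1 (X Y Z : K → G) : Prop :=
  (∀ t u, ⁅Y u, X t⁆ = Z (t ^ 1 * u ^ 1) * 1) ∧ ∀ t u, ⁅X u, Y t⁆ = Z (t ^ 1 * u ^ 1) * 1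

/-- A commutator formula with two terms, in both orders. -/
def P2 (X Y Z W : K → G) (i j : ℕ) : Prop :=
  (∀ t u, ⁅Y u, X t⁆ = Z (t ^ 1 * u ^ 1) * (W (t ^ i * u ^ j) * 1)) ∧
    ∀ t u, ⁅X u, Y t⁆ = Z (t ^ 1 * u ^ 1) * (W (t ^ j * u ^ i) * 1)

theorem P1.of {X Y Z : K → G} (hZ : ∀ t, (Z t)⁻¹ = Z t) (h : ∀ t u, ⁅X t, Y u⁆ = Z (t * u)) : P1 X Y Z :=
  ⟨fun t u => by rw [← commutatorElement_inv, h, hZ, pow_one, pow_one, mul_one],
    fun t u => by rw [h, pow_one, pow_one, mul_one, mul_comm]⟩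

theorem P2.of {X Y Z W : K → G} {i j : ℕ} (hZ : ∀ t, (Z t)⁻¹ = Z t) (hW : ∀ t, (W t)⁻¹ = W t)
    (hc : ∀ t u, Commute (Z t) (W u)) (h : ∀ t u, ⁅X t, Y u⁆ = Z (t * u) * W (t ^ i * u ^ j)) :
    P2 X Y Z W i j :=
  ⟨fun t u => by rw [← commutatorElement_inv, h, mul_inv_rev, hZ, hW, ← (hc _ _).eq, pow_one, pow_one, mul_one],
    fun t u => by rw [h, pow_one, pow_one, mul_one, mul_comm u t, mul_comm (u ^ i)]⟩

variable (h : Sp c (φF s) e o)
include h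

theorem e0 (j : Fin 8) : e j (0, 0) = 1 := zero_of_add (h.e_add j)
theorem o0 (j : Fin 8) : o j (0, 0) = 1 := zero_of_add (h.o_add j)
theorem ei (j : Fin 8) (w : K × K) : (e j w)⁻¹ = e j w := inv_of_add (h.e_add j) w
theorem oi (j : Fin 8) (w : K × K) : (o j w)⁻¹ = o j w := inv_of_add (h.o_add j) w

theorem cbb (j : Fin 8) : P1 (Lb e j) (Lb e (j + 3)) (Lb o (j + 1)) :=
  .of (fun _ => oi h _ _) fun t u => by simp [Lb, h.ee3, φF, e0 h]

theorem obb (j : Fin 8) : P1 (Lb o j) (Lb e (j + 3)) (Lb e (j + 2)) :=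
  .of (fun _ => ei h _ _) fun t u => by simp [Lb, h.oe3]

theorem ebb (j : Fin 8) : P1 (Lb e j) (Lb o (j + 2)) (Lb e (j + 1)) :=
  .of (fun _ => ei h _ _) fun t u => by simp [Lb, h.eo2]

theorem oaa (T : Tw K) (j : Fin 8) : P1 (La T o j) (La T e (j + 3)) (La T e (j + 2)) :=
  .of (fun _ => ei h _ _) fun t u => by simp [La, h.oe3]

theorem eaa (T : Tw K) (j : Fin 8) : P1 (La T e j) (La T o (j + 2)) (La T e (j + 1)) :=
  .of (fun _ => ei h _ _) fun t u => by simp [La, h.eo2]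

theorem oba (j : Fin 8) (a b : K) : Commute (o j (0, a)) (e (j + 3) (b, 0)) :=
  commutatorElement_eq_one_iff_commute.1 (by simp [h.oe3, e0 h])

theorem oab (j : Fin 8) (a b : K) : Commute (o j (a, 0)) (e (j + 3) (0, b)) :=
  commutatorElement_eq_one_iff_commute.1 (by simp [h.oe3, e0 h])

theorem eba (j : Fin 8) (a b : K) : Commute (e j (0, a)) (o (j + 2) (b, 0)) :=
  commutatorElement_eq_one_iff_commute.1 (by simp [h.eo2, e0 h])

theorem oo4 (j : Fin 8) (a b : K) : Commute (o j (a, 0)) (o (j + 4) (0, b)) := by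
  have i : ∀ j : Fin 8, j + 3 + 1 = j + 4 ∧ j + 3 + 3 + 2 = j := by decide
  have h1 : ⁅e (j + 3) (0, 1), e (j + 3 + 3) (0, b)⁆ = o (j + 4) (0, b) := by
    simp [h.ee3, φF, e0 h, (i j).1]
  have h2 := oab h j a 1
  have h3 := (eba h (j + 3 + 3) b a).symm
  rw [(i j).2] at h3
  rw [← h1, commutatorElement_def]
  exact ((h2.mul_right h3).mul_right h2.inv_right).mul_right h3.inv_right

variable {T : Tw K} (hT : ∀ x, T.θ (s.σ x) = x)
include hT

omit h in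
theorem θ_sq (x : K) : T.θ x ^ 2 = s.σ x := by rw [← map_pow, ← s.sq, hT]

omit h in
theorem σ_θ (x : K) : s.σ (T.θ x) = x := by rw [← θ_sq hT, T.hθ]

theorem caa (j : Fin 8) : P1 (La T e j) (La T e (j + 3)) (La T o (j + 1)) :=
  .of (fun _ => oi h _ _) fun t u => by simp [La, h.ee3, φF, e0 h]

theorem cab (j : Fin 8) : P2 (La T e j) (Lb e (j + 3)) (Lb e (j + 1)) (La T e (j + 2)) 1 2 := by
  have i : ∀ j : Fin 8, j + 2 = j + 1 + 1 := by decide
  refine .of (fun _ => ei h _ _) (fun _ => ei h _ _) (fun _ _ => ?_) fun t u => ?_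
  · rw [i]; exact h.ee1 _ _ _
  · simp [La, Lb, h.ee3, φF, o0 h, θ_sq hT, σ_θ hT, mul_comm u t]

theorem cba (j : Fin 8) : P2 (Lb e j) (La T e (j + 3)) (Lb e (j + 2)) (La T e (j + 1)) 2 1 := by
  have i : ∀ j : Fin 8, j + 2 = j + 1 + 1 := by decide
  have hc : ∀ w v, Commute (e (j + 2) w) (e (j + 1) v) := fun _ _ => by rw [i]; exact (h.ee1 _ _ _).symm
  refine .of (fun _ => ei h _ _) (fun _ => ei h _ _) (fun _ _ => hc _ _) fun t u => ?_
  rw [Lb, Lb, La, La, (hc _ _).eq]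
  simp [h.ee3, φF, o0 h, θ_sq hT, σ_θ hT, mul_comm (T.θ u)]

theorem tab : ∀ p ∈ TB, ∀ t u : K, ⁅xx T e o p.2.1 u, xx T e o p.1 t⁆ =
    (p.2.2.map fun c => xx T e o c.1 (t ^ c.2.1 * u ^ c.2.2)).prod :=
  List.forall_iff_forall_mem.1 ⟨
    fun _ _ => c1 (h.oe7 4 _ _), fun _ _ => c1 (h.ee1 2 _ _), (cbb h 3).1, (obb h 0).2,
    fun _ _ => c2 (h.oe7 4 _ _), (ebb h 2).2, fun _ _ => c2 (h.oe2 4 _ _), (obb h 4).1,
    fun _ _ => c2 (h.ee1 2 _ _), (ebb h 2).1, fun _ _ => c1 (h.oe2 0 _ _), (cbb h 7).2, (cbb h 3).2,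
    fun _ _ => c1 (h.oe2 4 _ _), (ebb h 6).1, fun _ _ => c2 (h.ee1 6 _ _), (obb h 0).1,
    fun _ _ => c2 (h.oe2 0 _ _), (ebb h 6).2, fun _ _ => c2 (h.oe7 0 _ _), (obb h 4).2, (cbb h 7).1,
    fun _ _ => c1 (h.ee1 6 _ _), fun _ _ => c1 (h.oe7 0 _ _), fun _ _ => c2 (oba h 4 _ _),
    fun _ _ => c2 (h.oe7 4 _ _), fun _ _ => c1 (oba h 4 _ _), fun _ _ => c1 (h.oe7 0 _ _),
    fun _ _ => c1 (h.oe7 4 _ _), fun _ _ => c1 (oba h 0 _ _), fun _ _ => c2 (h.oe7 0 _ _),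
    fun _ _ => c2 (oba h 0 _ _), fun _ _ => c2 (comm_of_add (h.o_add 4) _ _), fun _ _ => c1 (oo4 h 0 _ _),
    fun _ _ => c2 (comm_of_add (h.o_add 4) _ _), fun _ _ => c2 (oo4 h 4 _ _), fun _ _ => c2 (oo4 h 0 _ _),
    fun _ _ => c2 (comm_of_add (h.o_add 0) _ _), fun _ _ => c1 (oo4 h 4 _ _),
    fun _ _ => c2 (comm_of_add (h.o_add 0) _ _), fun _ _ => c1 (h.ee1 0 _ _), fun _ _ => c2 (h.ee1 1 _ _),
    fun _ _ => c1 (h.ee2 7 _ _), fun _ _ => c2 (h.ee2 1 _ _), (cba h hT 6).2, (cab h hT 1).1,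
    fun _ _ => c2 (h.ee1 0 _ _), fun _ _ => c2 (h.ee2 0 _ _), fun _ _ => c1 (h.ee1 7 _ _), (cba h hT 0).1,
    fun _ _ => c1 (h.ee2 6 _ _), (cab h hT 5).2, fun _ _ => c1 (h.ee1 1 _ _), fun _ _ => c1 (h.ee2 0 _ _),
    (cab h hT 7).2, fun _ _ => c2 (h.ee1 2 _ _), fun _ _ => c2 (h.ee2 2 _ _), (cba h hT 2).1,
    fun _ _ => c2 (h.ee2 7 _ _), fun _ _ => c2 (h.ee1 7 _ _), (cab h hT 7).1, fun _ _ => c1 (h.ee1 6 _ _),
    (cba h hT 4).2, fun _ _ => c1 (h.ee2 5 _ _), fun _ _ => c1 (h.ee2 1 _ _), (cba h hT 0).2,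
    fun _ _ => c1 (h.ee1 2 _ _), (cab h hT 3).1, fun _ _ => c2 (h.ee1 3 _ _), fun _ _ => c2 (h.ee2 3 _ _),
    (cba h hT 6).1, fun _ _ => c2 (h.ee2 6 _ _), fun _ _ => c2 (h.ee1 6 _ _), (cab h hT 3).2,
    fun _ _ => c1 (h.ee2 4 _ _), fun _ _ => c1 (h.ee1 5 _ _), (cab h hT 1).2, fun _ _ => c1 (h.ee2 2 _ _),
    (cba h hT 4).1, fun _ _ => c1 (h.ee1 3 _ _), fun _ _ => c2 (h.ee2 4 _ _), fun _ _ => c2 (h.ee1 4 _ _),
    (cab h hT 5).1, (cba h hT 2).2, fun _ _ => c2 (h.ee2 5 _ _), fun _ _ => c1 (h.ee2 3 _ _),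
    fun _ _ => c2 (h.ee1 5 _ _), fun _ _ => c1 (h.ee1 4 _ _), fun _ _ => c2 (eba h 2 _ _),
    fun _ _ => c1 (h.oe2 0 _ _), fun _ _ => c1 (eba h 2 _ _), fun _ _ => c2 (h.oe2 4 _ _),
    fun _ _ => c2 (h.oe2 0 _ _), fun _ _ => c1 (eba h 6 _ _), fun _ _ => c1 (h.oe2 4 _ _),
    fun _ _ => c2 (eba h 6 _ _), fun _ _ => c2 (h.ee1 6 _ _), fun _ _ => c1 (h.oe2 4 _ _), (eaa h T 6).1,
    (caa h hT 3).2, fun _ _ => c1 (h.ee1 6 _ _), (oaa h T 4).2, fun _ _ => c1 (h.oe7 0 _ _), (caa h hT 7).1,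
    fun _ _ => c2 (h.oe2 4 _ _), (oaa h T 4).1, fun _ _ => c2 (h.oe7 4 _ _), (eaa h T 2).2, (eaa h T 6).2,
    fun _ _ => c2 (h.oe7 0 _ _), (oaa h T 0).1, fun _ _ => c2 (h.oe2 0 _ _), (caa h hT 3).1,
    fun _ _ => c1 (h.oe7 4 _ _), (oaa h T 0).2, fun _ _ => c1 (h.ee1 2 _ _), (caa h hT 7).2, (eaa h T 2).1,
    fun _ _ => c1 (h.oe2 0 _ _), fun _ _ => c2 (h.ee1 2 _ _)⟩

omit hT in
theorem xx_add (T : Tw K) (r : ℕ) (t u : K) : xx T e o r (t + u) = xx T e o r t * xx T e o r u := by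
  unfold xx
  split <;> simp [La, Lb, ← h.e_add, ← h.o_add]

omit h hT in
theorem word_red {x : ℕ → K → G} (h0 : ∀ r, x r 0 = 1) (r : chevF4.Rt) (t u : K) (l : List (ℕ × ℤ × ℕ × ℕ))
    (hl : ∀ c ∈ l, c.1 < chevF4.nroots) :
    stWord (fun r : chevF4.Rt => x r) ((l.map fun c => (chevF4.toRt r c.1, c.2)).map
      fun c => (c.1, (c.2.1 : K) * (-t) ^ c.2.2.1 * u ^ c.2.2.2)) =
    ((red l).map fun c => x c.1 (t ^ c.2.1 * u ^ c.2.2)).prod := by
  induction l with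
  | nil => rfl
  | cons a l ih =>
    have ih' := ih fun c hc => hl c (List.mem_cons_of_mem _ hc)
    rw [List.map_cons, List.map_cons, stWord_cons, ih', chevF4.toRt_val r (hl a List.mem_cons_self), red, red,
      List.filter_cons, CharTwo.neg_eq]
    rcases Int.emod_two_eq_zero_or_one a.2.1 with h2 | h2
    · have : (a.2.1 : K) = 0 := (CharP.intCast_eq_zero_iff K 2 _).2 (Int.dvd_of_emod_eq_zero h2)
      simp [h2, this, h0]
    · have : (a.2.1 : K) = 1 := by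
        rw [← Int.cast_one]; exact (CharP.intCast_eq_intCast K 2).2 (by simpa [Int.ModEq] using h2)
      simp [h2, this]

theorem isComm (i k : chevF4.Nd) {r r' : chevF4.Rt} (hr : r ∈ chevF4.stRoot.supp {i, k})
    (hs : r' ∈ chevF4.stRoot.supp {i, k}) (h1 : r' ≠ r) (h2 : r' ≠ chevF4.stRoot.ng r) :
    chevF4.stRoot.IsComm (fun r : chevF4.Rt => xx T e o r) r r' := fun t u => by
  have h0 : ∀ r, xx T e o r 0 = 1 := fun r => by simpa using xx_add h T r 0 0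
  have hi : ∀ r t, (xx T e o r t)⁻¹ = xx T e o r t := fun r t =>
    inv_eq_of_mul_eq_one_right (by rw [← xx_add h, CharTwo.add_self_eq_zero, h0])
  have := tab h hT _ (TB_spec i i.2 k k.2 r r.2 ((chevF4.inRankTwoSub_iff i k r).2 hr).2.2.2 r' r'.2
    ((chevF4.inRankTwoSub_iff i k r').2 hs).2.2.2 (fun e => h1 (Fin.ext e)) fun e => h2 (Fin.ext e)) t u
  rw [← word_red h0 r t u _ fun c hc => chevF4.commTerms_lt r r' hc, commutatorElement_def, hi, hi] at this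
  simp only [hi]
  exact this

theorem exists_hom : ∃ ψ : chevF4.group K →* G, ∀ (i k : chevF4.Nd), ∀ r ∈ chevF4.stRoot.supp {i, k}, ∀ t,
    ψ (chevF4.XG K r t) = xx T e o r t := by
  have hm := chevF4.isModel_XG K
  have ct : chevF4.stRoot.CTRel (fun (r : chevF4.Rt) t => (xx T e o r t, chevF4.XG K r t)) := by
    refine StRoot.ctRel_of_map hm chevF4.locDec chevF4.st_adj (MonoidHom.snd _ _) (fun _ _ _ _ _ => rfl)
      (fun _ _ r _ t u => Prod.ext (xx_add h T r t u) (hm.add r t u)) fun i k r hr r' hs h1 h2 t u => Prod.ext ?_ ?_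
    · exact (isComm h hT i k hr hs h1 h2 t u).trans (map_stWord (x := fun (r : chevF4.Rt) t =>
        (xx T e o r t, chevF4.XG K r t)) (MonoidHom.fst _ _) _).symm
    · exact (hm.comm r r' h1 h2 t u).trans (map_stWord (x := fun (r : chevF4.Rt) t =>
        (xx T e o r t, chevF4.XG K r t)) (MonoidHom.snd _ _) _).symm
  obtain ⟨y, hy, hs⟩ := ct.exists_isSt hm
  refine ⟨((MonoidHom.fst _ _).comp (chevF4.stLift' hs.toIsAB hs.hmul_of_finite)).comp
    (chevF4.stEquiv K (center_stF4 K)).symm.toMonoidHom, fun i k r hr t => ?_⟩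
  rw [← chevF4.stEquiv_stGen K (center_stF4 K)]
  simp only [MonoidHom.comp_apply, MulEquiv.coe_toMonoidHom, MulEquiv.symm_apply_apply,
    ChevalleyDatum.stLift'_stGen, hy i k r hr]
  rfl

omit h hT in
theorem hom_ext {α β : chevF4.group K →* G}
    (H : ∀ r ∈ [33, 27, 25, 24, 14, 20, 22, 23], ∀ t, α (chevF4.XG K r t) = β (chevF4.XG K r t)) : α = β := by
  have key : ∀ i : chevF4.Nd, (chevF4.sr i : ℕ) ∈ [33, 27, 25, 24, 14, 20, 22, 23] ∧
      (chevF4.ng (chevF4.sr i) : ℕ) ∈ [33, 27, 25, 24, 14, 20, 22, 23] := by decide +kernel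
  have := chevF4.st_hom_ext_simple (α := α.comp (chevF4.stEquiv K (center_stF4 K)).toMonoidHom)
    (β := β.comp (chevF4.stEquiv K (center_stF4 K)).toMonoidHom)
    (fun i t => by simpa [chevF4.stEquiv_stGen] using H _ (key i).1 t)
    (fun i t => by simpa [chevF4.stEquiv_stGen] using H _ (key i).2 t)
  ext1 g
  simpa using DFunLike.congr_fun this ((chevF4.stEquiv K (center_stF4 K)).symm g)

/-- The Weyl word. -/
def lw : List chevF4.Nd := [1, 2, 0, 1, 2, 3, 2, 1, 2, 0, 1].map nd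

omit h hT in
theorem lw_spec : ∀ p ∈ [(24, 24), (33, 33), (47, 26), (44, 20), (46, 25), (40, 13), (23, 23), (14, 14), (0, 21),
    (3, 27), (1, 22), (7, 34)], p.1 < 48 ∧ chevF4.actN lw p.1 = p.2 ∧ ∃ i < 4, ∃ k < 4, p.2 < 48 ∧
      ∀ m < 4, m ≠ i → m ≠ k → chevF4.co p.2 m = 0 := by decide +kernel

end CT

open CT in
theorem Sp.exists_psi (h : Sp c (φF s) e o) (T : Tw K) (hT : ∀ x, T.θ (s.σ x) = x) :
    ∃ ψ : chevF4.group K →* G, Function.Injective ψ ∧ ∀ g, c.t * ψ g * c.t = ψ (gam T g) := by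
  obtain ⟨ψ, hψ⟩ := exists_hom h hT
  let n : chevF4.group K := ⟨chevF4.nWordS K lw, ChevalleyDatum.SymAut.N_le_group (chevF4.nWordS_mem K lw)⟩
  have hn : ∀ p ∈ [(24, 24), (33, 33), (47, 26), (44, 20), (46, 25), (40, 13), (23, 23), (14, 14), (0, 21),
      (3, 27), (1, 22), (7, 34)], ∀ t, n * chevF4.XG K p.1 t * n⁻¹ = chevF4.XG K p.2 t ∧
        ψ (chevF4.XG K p.2 t) = xx T e o p.2 t := fun p hp t => by
    obtain ⟨h1, h2, i, hi, k, hk, h3, h4⟩ := lw_spec p hp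
    refine ⟨Subtype.ext ?_, hψ ⟨i, hi⟩ ⟨k, hk⟩ ⟨p.2, h3⟩
      ((chevF4.inRankTwoSub_iff ⟨i, hi⟩ ⟨k, hk⟩ ⟨p.2, h3⟩).1 ⟨h3, hi, hk, h4⟩) t⟩
    rw [← h2]
    exact ChevalleyDatum.nWordS_conj_X2' lw h1 t
  simp only [List.forall_mem_cons] at hn
  obtain ⟨a1, b1, a4, b4, a6, b6, a9, b9, a12, b12, a14, b14, -⟩ := hn
  have ti : c.t⁻¹ = c.t := c.t_inv
  have inj : Function.Injective ψ := by
    have := (S1054.result (F := K) chevF4 (by simp)).1
    rcases ψ.normal_ker.eq_bot_or_eq_top with hk | hk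
    · exact (MonoidHom.ker_eq_bot_iff ψ).1 hk
    · have h1 : ψ (chevF4.XG K 20 1) = 1 := by rw [← MonoidHom.mem_ker, hk]; trivial
      rw [(b4 1).2] at h1
      simpa using h.e_inj 2 _ h1
  have key : (MulAut.conj c.t).toMonoidHom.comp ψ =
      ψ.comp ((MulAut.conj n).toMonoidHom.comp ((gam T).toMonoidHom.comp (MulAut.conj n⁻¹).toMonoidHom)) := by
    have A : ∀ {r r' q q' : ℕ}, (∀ t, n * chevF4.XG K r t * n⁻¹ = chevF4.XG K r' t ∧
        ψ (chevF4.XG K r' t) = xx T e o r' t) → (∀ t, n * chevF4.XG K q t * n⁻¹ = chevF4.XG K q' t ∧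
        ψ (chevF4.XG K q' t) = xx T e o q' t) → r < 48 → barNF4 r = q →
        (∀ t, c.t * xx T e o r' t * c.t = xx T e o q' (T.θ t ^ lamNF4 r)) → ∀ t,
        ((MulAut.conj c.t).toMonoidHom.comp ψ) (chevF4.XG K r' t) = (ψ.comp ((MulAut.conj n).toMonoidHom.comp
          ((gam T).toMonoidHom.comp (MulAut.conj n⁻¹).toMonoidHom))) (chevF4.XG K r' t) := by
      intro r r' q q' h1 h2 hr hq h3 t
      have e1 : n⁻¹ * chevF4.XG K r' t * n = chevF4.XG K r t := by rw [← (h1 t).1]; group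
      simp only [MonoidHom.comp_apply, MulEquiv.coe_toMonoidHom, MulAut.conj_apply, inv_inv, ti, e1,
        gam_XG T hr, hq, (h1 t).2, (h2 _).1, (h2 _).2, h3]
    have ta : ∀ {f : Fin 8 → K × K → G}, (∀ j w, c.t * f j w * c.t = f j w.swap) → ∀ j t,
        c.t * La T f j t * c.t = Lb f j (T.θ t ^ 1) := fun hf j t => by simp [La, Lb, hf]
    have tb : ∀ {f : Fin 8 → K × K → G}, (∀ j w, c.t * f j w * c.t = f j w.swap) → ∀ j t,
        c.t * Lb f j t * c.t = La T f j (T.θ t ^ 2) := fun hf j t => by simp [La, Lb, hf, T.hθ]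
    refine hom_ext ?_
    simp only [List.forall_mem_cons]
    exact ⟨A b1 a1 (by decide) rfl (tb h.t_o 0), A b12 a12 (by decide) rfl (tb h.t_e 6),
      A a6 b6 (by decide) rfl (ta h.t_e 3), A a1 b1 (by decide) rfl (ta h.t_o 0),
      A b9 a9 (by decide) rfl (tb h.t_o 4), A b4 a4 (by decide) rfl (tb h.t_e 2),
      A a14 b14 (by decide) rfl (ta h.t_e 7), A a9 b9 (by decide) rfl (ta h.t_o 4), by simp⟩
  refine ⟨ψ.comp (MulAut.conj n).toMonoidHom, inj.comp (MulAut.conj n).injective, fun g => ?_⟩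
  have := DFunLike.congr_fun key (n * g * n⁻¹)
  simpa [ti, mul_assoc] using this

end Cfsg.Agent.DF
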