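import Mathlib
import Cfsg.Agent.DF.Kit
import Cfsg.Agent.DF.PK

/-! The hat of `V₄` is elementary abelian; coordinates. -/

set_option autoImplicit false
set_option linter.unusedSectionVars false

namespace Cfsg.Agent.DF

open Cfsg.Agent.Og Cfsg.Agent.Og.SG Cfsg.Agent.Loc.Mss Subgroup
open scoped commutatorElement

variable {K : Type*} [Field K] [CharP K 2] [Finite K] {s : Sg K} {G : Type*} [Group G] [Finite G]
  {c : Cfg s G}

namespace Elem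

theorem m4 (a : K) : c.F.m * c.F.u (w4 0 a) * c.F.m = c.F.u (w6 0 a) := by
  rw [c.m_u (by simp)]; congr 1; ext <;> simp

theorem mmm (g : G) : c.F.m * (c.F.m * g * c.F.m) * c.F.m = g := by
  rw [show c.F.m * (c.F.m * g * c.F.m) * c.F.m = c.F.m * c.F.m * g * (c.F.m * c.F.m) by group, c.mm]; group

theorem x4_add (a b : K) : c.F.u (w4 0 (a + b)) = c.F.u (w4 0 a) * c.F.u (w4 0 b) := by
  rw [← map_mul]; congr 1; ext <;> simp

theorem x1_add (a b : K) : c.F.u (x1 (a + b)) = c.F.u (x1 a) * c.F.u (x1 b) := by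
  rw [← map_mul]; congr 1; ext <;> simp

theorem x1_zero : c.F.u (x1 0) = 1 := by
  rw [← map_one c.F.u]; congr 1

theorem x1_sq (a : K) : c.F.u (x1 a) * c.F.u (x1 a) = 1 := by
  rw [← x1_add, CharTwo.add_self_eq_zero, x1_zero]

theorem x1_inv (a : K) : (c.F.u (x1 a))⁻¹ = c.F.u (x1 a) := inv_eq_of_mul_eq_one_right (x1_sq a)

theorem x4_sq (a : K) : c.F.u (w4 0 a) * c.F.u (w4 0 a) = 1 := by rw [← map_mul, w4_sq, map_one]

theorem x6_sq (a : K) : c.F.u (w6 0 a) * c.F.u (w6 0 a) = 1 := by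
  rw [← m4, ← inv_mul_conj c.mm, x4_sq, mul_one, c.mm]

theorem x4_inj {a b : K} (e : c.F.u (w4 0 a) = c.F.u (w4 0 b)) : a = b := congrArg SG.u4 (c.inj e)

theorem x46 {a b : K} (e : c.F.u (w4 0 a) = c.F.u (w6 0 b)) : a = 0 ∧ b = 0 :=
  ⟨congrArg SG.u4 (c.inj e), (congrArg SG.u6 (c.inj e)).symm⟩

theorem x16 (a b : K) :
    c.F.u (x1 a) * c.F.u (w6 0 b) * (c.F.u (x1 a))⁻¹ = c.F.u (w4 0 (b * a)) * c.F.u (w6 0 b) := by
  rw [← map_inv, ← map_mul, ← map_mul, conj_w6, map_mul]; rfl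

theorem mem_X {g : G} : g ∈ c.F.lt.X ↔ ∃ a, g = c.F.u (w4 0 a) :=
  ⟨fun ⟨_, hp, e⟩ => (mem_Xs_iff.1 hp).imp fun _ e' => e.symm.trans (congrArg _ e'),
    fun ⟨_, e⟩ => e ▸ Lt.u_mem_im (by simp)⟩

theorem mxm : c.F.m * c.F.u (x1 1) * c.F.m = c.F.u (x1 1) * c.F.m * c.F.u (x1 1) := by
  have h := c.rf.m3
  rw [show (c.F.m * c.F.u (x1 1)) ^ 3 = c.F.m * c.F.u (x1 1) * c.F.m * (c.F.u (x1 1) * c.F.m * c.F.u (x1 1)) by
    simp only [pow_succ, pow_zero, one_mul, mul_assoc], mul_eq_one_iff_eq_inv] at h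
  rw [h, mul_inv_rev, mul_inv_rev, x1_inv, c.rf.toRF0.m_inv, mul_assoc]

theorem δ_u (p : SG s) : c.δ (c.F.u p) = 1 := c.δ_eq_one.2 (c.L_le (c.F.u_mem_G0 p))

theorem δ_m (g : G) : c.δ (c.F.m * g * c.F.m) = c.F.m * c.δ g * c.F.m := by
  have := c.δ_conj (c.L_le c.F.m_mem_G0) g
  rwa [c.rf.toRF0.m_inv] at this

theorem mem_of_δ {g g' : G} (e : c.δ g = c.δ g') : g⁻¹ * g' ∈ 𝐂₁[c.t] := by
  have e1 : g * c.t * g⁻¹ = g' * c.t * g'⁻¹ := by rw [c.conj_t, c.conj_t, e]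
  rw [mem_c1]
  calc g⁻¹ * g' * c.t = g⁻¹ * (g' * c.t * g'⁻¹) * g' := by group
    _ = _ := by rw [← e1]; group

theorem t1 (a : Kˣ) : c.F.t (a, 1) * c.F.u (x1 1) * (c.F.t (a, 1))⁻¹ = c.F.u (x1 a) := by
  rw [c.rf.tu]; congr 1; ext <;> simp

theorem t6 (a : Kˣ) (g : G) : c.F.t (a, 1) * (c.F.m * g * c.F.m) * (c.F.t (a, 1))⁻¹ =
    c.F.m * (c.F.t (a⁻¹, a) * g * (c.F.t (a⁻¹, a))⁻¹) * c.F.m := by
  have e := c.rf.mt a 1
  rw [mul_one] at e
  rw [← e, mul_inv_rev, mul_inv_rev, c.rf.toRF0.m_inv,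
    show c.F.m * (c.F.m * c.F.t (a, 1) * c.F.m * g * (c.F.m * ((c.F.t (a, 1))⁻¹ * c.F.m))) * c.F.m =
      c.F.m * c.F.m * c.F.t (a, 1) * c.F.m * g * c.F.m * (c.F.t (a, 1))⁻¹ * (c.F.m * c.F.m) by group, c.mm]
  group

theorem cj3 (g a b : G) : g * (a * b * a⁻¹) * g⁻¹ = g * a * g⁻¹ * (g * b * g⁻¹) * (g * a * g⁻¹)⁻¹ := by group

variable {A : Subgroup G} (h : HA c A)
include h

theorem x4_mem (a : K) : c.F.u (w4 0 a) ∈ A := h.X_le (mem_X.2 ⟨a, rfl⟩)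

theorem cu {e : G} (he : e ∈ A) (p : SG s) : Commute (c.F.u p) e := mem_cent.1 (h.cent he) _ (c.F.lt.u_mem_C p)

theorem cab {e e' : G} (he : e ∈ A) (he' : e' ∈ A) : Commute e e' := mem_cent.1 (h.ab he') _ he

theorem c46 {e e' : G} (he : e ∈ A) (he' : e' ∈ A) : Commute e (c.F.m * e' * c.F.m) := by
  have := mem_cent.1 (h.c6 he) _ (conj_mem_cj he')
  rw [c.rf.toRF0.m_inv] at this
  exact this.symm

theorem cR {e : G} (he : e ∈ A) {p : SG s} (hp : p ∈ Rs s) : Commute (c.F.u p) (c.F.m * e * c.F.m) := by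
  have := commute_conj c.mm (cu h he (mu p))
  rwa [c.m_u (mu_mem p), mu_mu hp] at this

theorem δ_mul {e e' : G} (he : e ∈ A) (he' : e' ∈ A) : c.δ (e * e') = c.δ e' * c.δ e := by
  rw [c.δ_mul, (cab h he (h.X_le (h.del _ he'))).mul_inv_cancel]

theorem sq_mem {e : G} (he : e ∈ A) : ∃ l, e * e = c.F.u (w4 0 l) := by
  obtain ⟨p, hp⟩ := mem_X.1 (h.del _ he)
  exact mem_X.1 (h.ker _ (mul_mem he he) (by rw [δ_mul h he he, hp, x4_sq]))

theorem pow4 {e : G} (he : e ∈ A) : e ^ 2 ^ 2 = 1 := by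
  obtain ⟨l, hl⟩ := sq_mem h he
  rw [show 2 ^ 2 = 2 * 2 from rfl, pow_mul, sq e, hl, sq, x4_sq]

theorem c66 {a : K} (ha : a ≠ 0) {e e' : G} (he : e ∈ A) (he' : e' ∈ A) :
    Commute (c.F.m * e * c.F.m) (c.F.u (x1 a) * (c.F.m * e' * c.F.m) * (c.F.u (x1 a))⁻¹) := by
  have key : ∀ e ∈ A, ∀ e' ∈ A,
      Commute (c.F.m * e * c.F.m) (c.F.u (x1 1) * (c.F.m * e' * c.F.m) * (c.F.u (x1 1))⁻¹) := fun e he e' he' => by
    have h1 := commute_conj c.mm ((c46 h he he').conj (c.F.u (x1 1)))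
    rw [(cu h he _).mul_inv_cancel, x1_inv,
      show c.F.m * (c.F.u (x1 1) * (c.F.m * e' * c.F.m) * c.F.u (x1 1)) * c.F.m =
        c.F.m * c.F.u (x1 1) * c.F.m * e' * (c.F.m * c.F.u (x1 1) * c.F.m) by group, mxm,
      show c.F.u (x1 1) * c.F.m * c.F.u (x1 1) * e' * (c.F.u (x1 1) * c.F.m * c.F.u (x1 1)) =
        c.F.u (x1 1) * (c.F.m * (c.F.u (x1 1) * e' * c.F.u (x1 1)) * c.F.m) * c.F.u (x1 1) by group,
      (cu h he' _).eq, mul_assoc e', x1_sq, mul_one] at h1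
    rwa [x1_inv]
  lift a to Kˣ using ha.isUnit
  have hn := h.nH (c.F.t_mem_H (a⁻¹, a))
  have h1 := (key _ (conj_mem_of_norm' hn he) _ (conj_mem_of_norm' hn he')).conj (c.F.t (a, 1))
  rw [t6, cj3, t1, t6] at h1
  simpa only [mul_assoc, mul_inv_cancel_left, mul_inv_cancel, mul_one] using h1

theorem step2 {a : K} (ha : a ≠ 0) {d : G} (hd : d ∈ A) : ∃ z, ∃ e ∈ A,
    c.F.u (x1 a) * (c.F.m * d * c.F.m) * (c.F.u (x1 a))⁻¹ = c.F.m * d * c.F.m * c.F.u (w6 0 z) * e := by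
  obtain ⟨p, hp⟩ := mem_X.1 (h.del _ hd)
  obtain ⟨e, he, ee⟩ := h.onto _ (mem_X.2 ⟨p * a, rfl⟩)
  have c1 := c66 h ha hd hd
  have c2 : ∀ e ∈ A, Commute e (c.F.u (x1 a) * (c.F.m * d * c.F.m) * (c.F.u (x1 a))⁻¹) := fun e he =>
    ((cu h he _).symm.mul_right (c46 h he hd)).mul_right (cu h he _).symm.inv_right
  have c3 : ∀ q ∈ Rs s, Commute (c.F.u q) (c.F.u (x1 a) * (c.F.m * d * c.F.m) * (c.F.u (x1 a))⁻¹) := fun q hq => by
    have := (cR h hd (Rs_conj (x1 a)⁻¹ q hq)).conj (c.F.u (x1 a))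
    simpa only [map_mul, map_inv, inv_inv, mul_assoc, mul_inv_cancel_left, inv_mul_cancel, mul_inv_cancel,
      mul_one] using this
  have d4 : (c.F.m * d * c.F.m) ^ 2 ^ 2 = 1 := by
    have := conj_pow (i := 2 ^ 2) (a := c.F.m) (b := d)
    rwa [pow4 h hd, mul_one, mul_inv_cancel, c.rf.toRF0.m_inv] at this
  have hδ : c.δ (c.F.m * d * c.F.m * e) = c.δ (c.F.u (x1 a) * (c.F.m * d * c.F.m) * (c.F.u (x1 a))⁻¹) := by
    rw [c.δ_conj (c.L_le (c.F.u_mem_G0 _)), c.δ_mul, δ_m, hp, m4, x16, ee,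
      (c46 h (x4_mem h _) hd).symm.mul_inv_cancel]
  have d4' : (c.F.u (x1 a) * (c.F.m * d * c.F.m) * (c.F.u (x1 a))⁻¹) ^ 2 ^ 2 = 1 := by
    rw [conj_pow, d4, mul_one, mul_inv_cancel]
  have cR' := fun q hq => cR h hd (p := q) hq
  have c46' := fun e he => c46 h (e := e) he hd
  generalize c.F.u (x1 a) * (c.F.m * d * c.F.m) * (c.F.u (x1 a))⁻¹ = d' at *
  generalize c.F.m * d * c.F.m = d6 at *
  obtain ⟨l, hl, e1, hc⟩ := c.two' (mem_of_δ hδ) (k := 2) (by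
    rw [((c1.mul_left (c2 e he)).inv_left).mul_pow, inv_pow, (c46' e he).symm.mul_pow, d4, d4', pow4 h he]
    simp)
  have c4 : ∀ q ∈ Rs s, Commute l (c.F.u q) := fun q hq => hc _ (c.F.u_mem_G0 q)
    (((cR' q hq).mul_right (cu h he q)).inv_right.mul_right (c3 q hq)).symm
  obtain ⟨q, hq, rfl⟩ := c.mem_R hl (c4 _ (by simp)) (c4 _ (by simp))
  obtain ⟨y, z, rfl⟩ := mem_Zs_iff.1 (mem_Zs_of_comm hq fun r hr => (c.u_comm.1 (c4 r hr)).symm)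
  rcases e1 with e1 | e1
  · refine ⟨z, c.F.u (w4 0 y) * e, mul_mem (x4_mem h y) he, ?_⟩
    rw [inv_mul_eq_iff_eq_mul.1 e1, mul_assoc d6, ← (cu h he _).eq, ← w4_comm, map_mul]
    group
  · exfalso
    obtain ⟨f, hf, ef⟩ := h.onto _ (mem_X.2 ⟨1, rfl⟩)
    have c5 : Commute f ((d6 * e)⁻¹ * d') := ((c46' f hf).mul_right (cab h hf he)).inv_right.mul_right (c2 f hf)
    rw [e1] at c5
    have c6 := (cu h hf (w4 0 y * w6 0 z)).symm.inv_right.mul_right c5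
    rw [inv_mul_cancel_left] at c6
    rw [c.δ_eq_one.2 (mem_c1.2 c6), ← map_one c.F.u] at ef
    exact zero_ne_one (congrArg SG.u4 (c.inj ef))

theorem step3 {a : K} (ha : a ≠ 0) {d : G} (hd : d ∈ A) {l : K} (hl : d * d = c.F.u (w4 0 l)) : ∃ e ∈ A,
    c.F.u (x1 a) * (c.F.m * d * c.F.m) * (c.F.u (x1 a))⁻¹ = c.F.m * d * c.F.m * c.F.u (w6 0 l) * e := by
  obtain ⟨z, e, he, e1⟩ := step2 h ha hd
  have e2 : c.F.m * d * c.F.m * (c.F.m * d * c.F.m) = c.F.u (w6 0 l) := by rw [← inv_mul_conj c.mm, hl, m4]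
  have c1 := cR h hd (p := w6 0 z) (by simp)
  have c2 := c46 h he hd
  generalize c.F.m * d * c.F.m = d6 at *
  have e3 : e * e = c.F.u (w4 0 (l * a)) := by
    have e4 := x16 (c := c) a l
    rw [← e2, ← conj_mul, e1, ← sq, (c2.symm.mul_left (cu h he _)).mul_pow, c1.symm.mul_pow, sq, sq, sq, x6_sq,
      mul_one, e2, ← map_mul, ← w4_comm, map_mul] at e4
    exact mul_left_cancel e4
  have e5 : e * e = c.F.u (w4 0 (z * a)) := by
    have e4 := congrArg (fun g => c.F.u (x1 a) * g * (c.F.u (x1 a))⁻¹) e1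
    rw [show c.F.u (x1 a) * (c.F.u (x1 a) * d6 * (c.F.u (x1 a))⁻¹) * (c.F.u (x1 a))⁻¹ =
        c.F.u (x1 a) * c.F.u (x1 a) * d6 * (c.F.u (x1 a) * c.F.u (x1 a))⁻¹ by group, x1_sq, one_mul, inv_one, mul_one,
      ← conj_mul, ← conj_mul, e1, x16, (cu h he _).mul_inv_cancel, ← map_mul, mul_assoc _ e, ← (cu h he _).eq,
      ← w4_comm, map_mul,
      show d6 * c.F.u (w6 0 z) * (c.F.u (w6 0 z) * c.F.u (w4 0 (z * a)) * e) * e =
        d6 * (c.F.u (w6 0 z) * c.F.u (w6 0 z) * (c.F.u (w4 0 (z * a)) * (e * e))) by group, x6_sq, one_mul,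
      left_eq_mul, mul_eq_one_iff_inv_eq, ← map_inv, w4_inv] at e4
    exact e4.symm
  exact ⟨e, he, mul_right_cancel₀ ha (x4_inj (e5.symm.trans e3)) ▸ e1⟩

theorem el {d : G} (hd : d ∈ A) : d * d = 1 := by
  obtain ⟨l, hl⟩ := sq_mem h hd
  obtain ⟨a, h0, -, h1, -⟩ := exists_ne (s := s) c.big
  obtain ⟨e, he, e1⟩ := step3 h h0 hd hl
  obtain ⟨e', he', e2⟩ := step3 h one_ne_zero hd hl
  obtain ⟨e'', he'', e3⟩ := step3 h h1 hd hl
  generalize c.F.m * d * c.F.m = d6 at *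
  rw [x1_add, show c.F.u (x1 a) * c.F.u (x1 1) * d6 * (c.F.u (x1 a) * c.F.u (x1 1))⁻¹ =
      c.F.u (x1 a) * (c.F.u (x1 1) * d6 * (c.F.u (x1 1))⁻¹) * (c.F.u (x1 a))⁻¹ by group, e2, ← conj_mul, ← conj_mul,
    e1, x16, (cu h he' _).mul_inv_cancel, mul_assoc, mul_assoc, mul_right_inj] at e3
  have e4 : c.F.u (w6 0 l) ∈ A := by
    have := e3 ▸ he''
    rwa [mul_mem_cancel_left he, mul_mem_cancel_right he', mul_mem_cancel_left (x4_mem h _)] at this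
  obtain ⟨b, hb⟩ := mem_X.1 (h.ker _ e4 (δ_u _))
  rw [hl, (x46 hb.symm).2, ← map_one c.F.u]
  congr 1

end Elem

open Elem in
theorem HA.exists_HE {A : Subgroup G} (h : HA c A) : ∃ E, HE c E := by
  have tc : ∀ d ∈ A, ∀ a, c.δ d = c.F.u (w4 0 a) → c.t * d * c.t = d * c.F.u (w4 0 a) := fun d hd a e => by
    rw [c.t_conj, e, ← map_inv, w4_inv, (cu h hd _).eq]
  obtain ⟨E, add, inj, zero, tw, tor, mem⟩ := coord (A := A) (t := c.t) (x := fun a => c.F.u (w4 0 a)) (τ := c.F.t)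
    (χ := fun x => (x.1 : K) ^ 2 * s.σ x.1 * x.2 ^ 3 * s.σ x.2 ^ 2) (fun _ => el h) x4_add
    (fun a e => congrArg SG.u4 (c.inj (e.trans (map_one _).symm))) (x4_mem h) c.tt
    (fun a => by rw [c.t_u, mul_assoc, c.tt, mul_one])
    (fun d hd => (mem_X.1 (h.del d hd)).imp (tc d hd))
    (fun d hd e => mem_X.1 (h.ker d hd (by rw [c.t_conj, mul_eq_right, inv_eq_one] at e; exact e)))
    (fun a => (h.onto _ (mem_X.2 ⟨a, rfl⟩)).imp fun d hd => ⟨hd.1, tc d hd.1 a hd.2⟩)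
    (fun x => h.nH (c.F.t_mem_H x)) (fun x => c.cen _ (c.F.t_mem_G0 x))
    (fun x a => by rw [c.rf.tu x.1 x.2]; congr 1; ext <;> simp)
  have EA : ∀ w, E w ∈ A := fun w => (mem _).2 ⟨w, rfl⟩
  have δE : ∀ w, c.δ (E w) = c.F.u (w4 0 w.2) := fun w => by
    rw [Cfg.δ, inv_of_add add, mul_assoc, mul_assoc, ← mul_assoc c.t, tw w.1 w.2, ← add, ← zero]
    congr 1
    ext
    · simp [← add_assoc, CharTwo.add_self_eq_zero]
    · simp [CharTwo.add_self_eq_zero]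
  have ind : ∀ w v, E w = c.F.m * E v * c.F.m → v = 0 := fun w v e => by
    have e1 := congrArg c.δ e
    rw [δ_m, δE, δE, m4] at e1
    rw [show w = (w.1, 0) from Prod.ext rfl (x46 e1).1, show v = (v.1, 0) from Prod.ext rfl (x46 e1).2, zero, zero,
      m4] at e
    exact Prod.ext (x46 e).2 (x46 e1).2
  have ex : ∀ w, ∃ v, c.F.u (x1 1) * (c.F.m * E w * c.F.m) * c.F.u (x1 1) = c.F.m * E w * c.F.m * E v := fun w => by
    obtain ⟨e, he, e1⟩ := step3 h one_ne_zero (EA w) (l := 0) (by rw [sq_of_add add, ← zero]; exact (zero_of_add add).symm)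
    obtain ⟨v, rfl⟩ := (mem e).1 he
    rw [x1_inv, ← m4, ← zero, show ((0 : K), (0 : K)) = 0 from rfl, zero_of_add add, mul_one, c.mm, mul_one] at e1
    exact ⟨v, e1⟩
  have cx : ∀ w, c.F.u (x1 1) * E w * c.F.u (x1 1) = E w := fun w => by
    rw [(cu h (EA w) _).eq, mul_assoc, x1_sq, mul_one]
  have one : ∀ w, c.F.u (x1 1) * (c.F.m * E w * c.F.m) * (c.F.u (x1 1))⁻¹ = c.F.m * E w * c.F.m * E w := fun w => by
    obtain ⟨v, e1⟩ := ex w
    have e3 := congrArg (fun g => c.F.m * g * c.F.m) e1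
    rw [show c.F.m * (c.F.u (x1 1) * (c.F.m * E w * c.F.m) * c.F.u (x1 1)) * c.F.m =
        c.F.m * c.F.u (x1 1) * c.F.m * E w * (c.F.m * c.F.u (x1 1) * c.F.m) by group, mxm,
      show c.F.u (x1 1) * c.F.m * c.F.u (x1 1) * E w * (c.F.u (x1 1) * c.F.m * c.F.u (x1 1)) =
        c.F.u (x1 1) * (c.F.m * (c.F.u (x1 1) * E w * c.F.u (x1 1)) * c.F.m) * c.F.u (x1 1) by group, cx, e1,
      inv_mul_conj c.mm, mmm] at e3
    have e4 : E (w + v) = c.F.m * E (w + v) * c.F.m := by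
      rw [add, inv_mul_conj c.mm]
      calc E w * E v = E w * (c.F.m * E w * c.F.m) * (c.F.m * E w * c.F.m * E v) := by
            rw [mul_assoc (E w), ← mul_assoc (c.F.m * E w * c.F.m), ← inv_mul_conj c.mm, sq_of_add add, mul_one,
              c.mm, one_mul]
        _ = _ := by
            rw [e3, (c46 h (EA w) (EA w)).eq, mul_assoc (c.F.m * E w * c.F.m), ← mul_assoc (E w), sq_of_add add,
              one_mul]
    rw [x1_inv, e1, eq_of_add (ind _ _ e4)]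
  refine ⟨E, add, inj, zero, tw, fun α β => tor (α, β), fun g hg w => mem_cent.1 (h.cent (EA w)) g hg,
    fun k hk ho hx w => (mem_cent.1 (h.odd k hk ho hx) _ (EA w)).symm, fun w v => c46 h (EA w) (EA v), fun a w => ?_⟩
  rcases eq_or_ne a 0 with rfl | ha
  · rw [x1_zero, zero_smul, zero_of_add add]; group
  lift a to Kˣ using ha.isUnit
  have hs := σ_ne_zero (s := s) a.ne_zero
  have e := congrArg (fun g => c.F.t (a, 1) * g * (c.F.t (a, 1))⁻¹) (one (((a : K) * s.σ a)⁻¹ • w))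
  rw [cj3, t1, ← conj_mul (c := E _), t6, tor, tor, smul_smul, smul_smul] at e
  have k1 : ((a⁻¹ : Kˣ) : K) ^ 2 * s.σ (a⁻¹ : Kˣ) * a ^ 3 * s.σ a ^ 2 * ((a : K) * s.σ a)⁻¹ = 1 := by
    simp; field_simp
  have k2 : (a : K) ^ 2 * s.σ a * (1 : Kˣ) ^ 3 * s.σ (1 : Kˣ) ^ 2 * ((a : K) * s.σ a)⁻¹ = a := by
    simp; field_simp
  rwa [k1, k2, one_smul] at e

end Cfsg.Agent.DF
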