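import Mathlib
import Cfsg.Agent.DF.DefsF

/-! Cocycles of the graph-field involution on the unipotent subgroup are coboundaries. -/

set_option autoImplicit false
set_option linter.unusedSectionVars false

namespace Cfsg.Agent.DF

open Cfsg.Lie Cfsg.Agent.Chev Cfsg.Agent.Chev.Isog Cfsg.Agent.Chev.F4T Cfsg.Agent.Loc.Mss Subgroup

namespace ModA

open Cfsg.Lie.ChevalleyDatum

theorem step {G K : Type*} [Group G] [Field K] [CharP K 2] {N : Subgroup G} {A B : K → G} {γ : MulAut G}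
    {θ : K → K} (hA : ∀ a a', A (a + a') = A a * A a') (hB : ∀ a a', B (a + a') = B a * B a')
    (nA : ∀ a, A a ∈ 𝐍[N]) (nB : ∀ a, B a ∈ 𝐍[N]) (c : ∀ a b, ∃ z ∈ N, B b * A a = A a * B b * z)
    (gA : ∀ a, γ (A a) = B (θ a)) (gB : ∀ b, ∃ a, γ (B b) = A a) (gN : ∀ z ∈ N, γ z ∈ N)
    (uq : ∀ a b, A a * B b ∈ N → b = 0) {a b : K} {z : G} (hz : z ∈ N)
    (h : γ (A a * B b * z) * (A a * B b * z) = 1) : (γ (A a))⁻¹ * (A a * B b * z) * A a ∈ N := by
  let π := QuotientGroup.mk' (N.subgroupOf 𝐍[N])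
  have hπ : ∀ x : 𝐍[N], π x = 1 ↔ x.1 ∈ N := fun x => QuotientGroup.eq_one_iff x
  let A' : K → _ := fun a => π ⟨A a, nA a⟩
  let B' : K → _ := fun a => π ⟨B a, nB a⟩
  have hA' : ∀ a a', A' (a + a') = A' a * A' a' := fun a a' => by
    rw [← map_mul]; exact congrArg π (Subtype.ext (hA a a'))
  have hB' : ∀ a a', B' (a + a') = B' a * B' a' := fun a a' => by
    rw [← map_mul]; exact congrArg π (Subtype.ext (hB a a'))
  have hN : ∀ z (hz : z ∈ N), π ⟨z, le_normalizer hz⟩ = 1 := fun z hz => (hπ _).2 hz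
  have c' : ∀ a b, B' b * A' a = A' a * B' b := fun a b => by
    obtain ⟨w, hw, e⟩ := c a b
    rw [← mul_one (A' a * B' b), ← hN w hw, ← map_mul, ← map_mul, ← map_mul]
    exact congrArg π (Subtype.ext e)
  have A0 : A' 0 = 1 := by simpa using hA' 0 0
  obtain ⟨a', ga⟩ := gB b
  rw [map_mul, map_mul, gA, ga] at h
  have h1 : B' (θ a) * A' a' * π ⟨_, le_normalizer (gN z hz)⟩ * (A' a * B' b * π ⟨z, le_normalizer hz⟩) = 1 := by
    simp only [A', B', ← map_mul]
    exact (congrArg π (Subtype.ext h)).trans (map_one π)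
  have h2 : A' (a' + a) * B' (θ a + b) = 1 := by
    rw [hN _ (gN z hz), hN z hz, mul_one, mul_one, ← mul_assoc, mul_assoc (B' _), ← hA', c', mul_assoc, ← hB'] at h1
    exact h1
  have h3 : θ a = b := by
    have h4 := uq _ _ ((hπ (⟨A _, nA _⟩ * ⟨B _, nB _⟩)).1 ((map_mul π _ _).trans h2))
    rwa [CharTwo.add_eq_zero] at h4
  rw [gA, h3]
  refine (hπ ((⟨B b, nB b⟩ : 𝐍[N])⁻¹ * (⟨A a, nA a⟩ * ⟨B b, nB b⟩ * ⟨z, le_normalizer hz⟩) * ⟨A a, nA a⟩)).1 ?_
  simp only [map_mul, map_inv]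
  change (B' b)⁻¹ * (A' a * B' b * _) * A' a = 1
  rw [hN z hz, mul_one, ← c', inv_mul_cancel_left, ← hA', CharTwo.add_self_eq_zero, A0]

variable {K : Type*} [Field K] [CharP K 2]

variable (K) in
/-- The subgroup generated by the root groups of a list. -/
def UL (l : List ℕ) : Subgroup (chevF4.group K) := (chevF4.XS K (chevF4.lset l)).subgroupOf (chevF4.group K)

theorem mem_UL {l : List ℕ} {g : chevF4.group K} : g ∈ UL K l ↔ g.1 ∈ chevF4.XS K (chevF4.lset l) := Iff.rfl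

theorem gam_mem (T : Tw K) {l : List ℕ} (hl : ∀ x ∈ l, barNF4 x ∈ l) {g : chevF4.group K} (hg : g ∈ UL K l) :
    gam T g ∈ UL K l := by
  have := XS_induction (D := chevF4) (F := K) (S := chevF4.lset l)
    (P := fun g => ∀ h : g ∈ chevF4.group K, gam T ⟨g, h⟩ ∈ UL K l) (fun h => by
      rw [show (⟨1, h⟩ : chevF4.group K) = 1 from rfl, map_one]; exact one_mem _)
    (fun r hr t g _ ih h => by
      have h' : g ∈ chevF4.group K := by simpa using mul_mem (inv_mem (chevF4.X_mem_group K r t)) h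
      rw [show (⟨_, h⟩ : chevF4.group K) = chevF4.XG K r t * ⟨g, h'⟩ from rfl, map_mul, gam_XG T r.2]
      exact mul_mem (X_mem_lset (hl _ hr) _) (ih h')) hg
  exact this g.2

theorem XG_norm {r : ℕ} (hr : r < 48) {l : List ℕ} (h : ∀ s ∈ l, chevF4.Cm2 s r l) (t : K) :
    chevF4.XG K r t ∈ 𝐍[UL K l] := by
  have e : (chevF4.XG K r t)⁻¹ = chevF4.XG K r t := Subtype.ext (X_inv r t)
  have key : ∀ y ∈ UL K l, (chevF4.XG K r t)⁻¹ * y * chevF4.XG K r t ∈ UL K l := fun y hy =>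
    X_conj_lset (r := ⟨r, hr⟩) h t hy
  refine mem_normalizer_iff.2 fun y => ⟨fun hy => ?_, fun hy => ?_⟩
  · have := key y hy
    rw [e] at this ⊢
    exact this
  · simpa [mul_assoc] using key _ hy

/-- The functional used for the uniqueness of coordinates. -/
def fv (r : ℕ) : ℤ := chevF4.dotF ![46, 87, 123, 65] (chevF4.wt r)

/-- The roots of a list of pairs. -/
def flat (l : List (ℕ × ℕ)) : List ℕ := l.flatMap fun p => [p.1, p.2]

/-- The conditions on the first pair. -/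
def Ok1 (r s : ℕ) (l : List ℕ) : Prop :=
  r < 48 ∧ s < 48 ∧ barNF4 r = s ∧ lamNF4 r = 1 ∧ barNF4 s = r ∧ (∀ x ∈ l, barNF4 x ∈ l) ∧
    (∀ x ∈ s :: l, chevF4.Cm2 x r (s :: l)) ∧ (∀ x ∈ l, chevF4.Cm2 x r l) ∧ (∀ x ∈ l, chevF4.Cm2 x s l) ∧
    chevF4.Cm2 r s l ∧ s ∉ r :: l ∧ 0 ≤ fv s ∧ ∀ x ∈ r :: l, fv s < 2 * fv x

instance (r s : ℕ) (l : List ℕ) : Decidable (Ok1 r s l) := by unfold Ok1; infer_instance

/-- The conditions on all pairs. -/
def Ok : List (ℕ × ℕ) → Prop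
  | [] => True
  | p :: l => Ok1 p.1 p.2 (flat l) ∧ Ok l

theorem cob (T : Tw K) {l : List (ℕ × ℕ)} (hl : Ok l) {u : chevF4.group K} (hu : u ∈ UL K (flat l))
    (h : gam T u * u = 1) : ∃ r ∈ UL K (flat l), u = gam T r * r⁻¹ := by
  induction l generalizing u with
  | nil =>
    have : u.1 = 1 := by
      have h1 : u.1 ∈ chevF4.XS K (chevF4.lset []) := hu
      rwa [XS_lset_nil, mem_bot] at h1
    exact ⟨1, one_mem _, by simpa using Subtype.ext this⟩
  | cons p l ih =>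
    obtain ⟨r, s⟩ := p
    obtain ⟨⟨hr, hs, b1, l1, b2, hb, c1, c2, c3, c4, sn, f0, f1⟩, hl⟩ := hl
    dsimp only at hr hs b1 l1 b2 c1 c2 c3 c4 sn f0 f1
    have hu' : u.1 ∈ chevF4.XS K (chevF4.lset (r :: s :: flat l)) := hu
    obtain ⟨a, y, hy, e1⟩ := peel (r := ⟨r, hr⟩) (S' := chevF4.lset (s :: flat l))
      (fun x hx => (List.mem_cons.1 hx).imp Fin.ext id)
      (fun t y hy => by simpa only [X_inv] using X_conj_lset (r := ⟨r, hr⟩) c1 t hy) hu'
    obtain ⟨b, z, hz, e2⟩ := peel (r := ⟨s, hs⟩) (S' := chevF4.lset (flat l))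
      (fun x hx => (List.mem_cons.1 hx).imp Fin.ext id)
      (fun t y hy => by simpa only [X_inv] using X_conj_lset (r := ⟨s, hs⟩) c3 t hy) hy
    have hzG : z ∈ chevF4.group K := XS_le_iff.2 (fun x _ t => chevF4.X_mem_group K x t) hz
    have e : u = chevF4.XG K r a * chevF4.XG K s b * ⟨z, hzG⟩ := Subtype.ext (by rw [e1, e2, ← mul_assoc]; rfl)
    have mono : UL K (flat l) ≤ UL K (r :: s :: flat l) := fun x hx =>
      XS_mono' (fun x hx => List.mem_cons_of_mem _ (List.mem_cons_of_mem _ hx)) hx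
    have key := step (N := UL K (flat l)) (A := chevF4.XG K r) (B := chevF4.XG K s) (γ := gam T) (θ := T.θ)
      (fun a a' => Subtype.ext (chevF4.X_add K r a a')) (fun a a' => Subtype.ext (chevF4.X_add K s a a'))
      (XG_norm hr c2) (XG_norm hs c3)
      (fun a b => by
        obtain ⟨w, hw, e⟩ := X_comm2 (r := ⟨r, hr⟩) (s := ⟨s, hs⟩) c4 a b
        exact ⟨⟨w, XS_le_iff.2 (fun x _ t => chevF4.X_mem_group K x t) hw⟩, hw, Subtype.ext e⟩)
      (fun a => by rw [gam_XG T hr, b1, l1, pow_one]) (fun b => ⟨_, by rw [gam_XG T hs, b2]⟩)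
      (fun z hz => gam_mem T hb hz)
      (fun a b hab => by
        refine eq_zero_of_X_mem (D := chevF4) (F := K) (S := chevF4.lset (r :: flat l)) (r := ⟨s, hs⟩)
          (fun hc => sn (chevF4.mem_of_wt_mem_cone (chevF4.dotF ![46, 87, 123, 65]) (m := fv s / 2 + 1) (by omega)
            (fun x hx => ?_) ?_ hc)) ?_
        · have := f1 x hx
          change _ ≤ fv x
          omega
        · change fv s < _
          omega
        · have h1 := mul_mem (inv_mem (X_mem_lset (D := chevF4) (F := K) (T := r :: flat l) List.mem_cons_self a))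
            (XS_mono' (fun x hx => List.mem_cons_of_mem _ hx) (mem_UL.1 hab))
          simpa [coe_XG] using h1)
      (z := ⟨z, hzG⟩) hz (e ▸ h)
    rw [← e] at key
    obtain ⟨ρ, hρ, e3⟩ := ih hl key (by
      rw [map_mul, map_mul, map_inv, gam_gam]
      calc _ = (chevF4.XG K r a)⁻¹ * (gam T u * u) * chevF4.XG K r a := by group
        _ = 1 := by rw [h]; group)
    refine ⟨chevF4.XG K r a * ρ, mul_mem (X_mem_lset List.mem_cons_self a) (mono hρ), ?_⟩
    rw [map_mul]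
    calc u = gam T (chevF4.XG K r a) * ((gam T (chevF4.XG K r a))⁻¹ * u * chevF4.XG K r a) * (chevF4.XG K r a)⁻¹ := by
          group
      _ = _ := by rw [e3]; group

/-- The pairs of positive roots. -/
def prs : List (ℕ × ℕ) := [(24, 33), (25, 27), (26, 34), (30, 28), (41, 29), (31, 35), (32, 37), (42, 36), (43, 38),
  (45, 39), (46, 40), (47, 44)]

theorem ok_prs : Ok prs := by
  refine ⟨?_, ?_, ?_, ?_, ?_, ?_, ?_, ?_, ?_, ?_, ?_, ?_, trivial⟩ <;> decide +kernel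

theorem U0_eq : U0 K = UL K (flat prs) := by
  have : ∀ r : chevF4.Rt, chevF4.IsPosRoot r ↔ (r : ℕ) ∈ flat prs := by decide +kernel
  rw [U0, UL, posUnipotent_eq_XS]
  congr 2
  exact Set.ext this

end ModA

variable {K : Type*} [Field K] [CharP K 2] [Finite K]

theorem cob_U0 (T : Tw K) {u : chevF4.group K} (hu : u ∈ U0 K) (h : gam T u * u = 1) :
    ∃ r ∈ U0 K, u = gam T r * r⁻¹ := by
  rw [ModA.U0_eq] at hu ⊢
  exact ModA.cob T ModA.ok_prs hu h

end Cfsg.Agent.DF
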