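import Mathlib
import Cfsg.Agent.DF.PK

/-! The hat of `V₈` normalizes the hat of `V`. -/

set_option autoImplicit false
set_option linter.unusedSectionVars false

namespace Cfsg.Agent.DF

open Cfsg.Agent.Og Cfsg.Agent.Og.SG Cfsg.Agent.Loc.Mss Subgroup
open scoped commutatorElement

variable {K : Type*} [Field K] [CharP K 2] [Finite K] {s : Sg K} {G : Type*} [Group G] [Finite G]
  {c : Cfg s G}

variable {W : Subgroup G} {e o : Fin 8 → K × K → G}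

namespace N8

/-- Membership in the hat of `V₄ U₅ V₆`. -/
def InM (e o : Fin 8 → K × K → G) (g : G) : Prop := ∃ d f k, g = Φ e o 0 0 d f k

theorem exists_N (c : Cfg s G) : ∃ α : Kˣ, (α : K) * s.σ α ≠ 1 := by
  obtain ⟨d, h0, h1, -⟩ := exists_ne (s := s) c.big
  obtain ⟨a, ha, e⟩ := exists_nrm s h0
  exact ⟨Units.mk0 a ha, by rw [Units.val_mk0, e]; exact h1⟩

theorem t_δ (c : Cfg s G) (g : G) : c.t * c.δ g * c.t = (c.δ g)⁻¹ := by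
  rw [Cfg.δ, mul_assoc c.t, mul_assoc _ c.t c.t, c.tt]
  simp only [mul_inv_rev, inv_inv, c.t_inv]
  group

variable (h : Pre c W e o)
include h

theorem mul {g g' : G} (a : InM e o g) (b : InM e o g') : InM e o (g * g') := by
  obtain ⟨d, f, k, rfl⟩ := a
  obtain ⟨d', f', k', rfl⟩ := b
  exact ⟨_, _, _, by rw [← h.Φ_add, add_zero]⟩

theorem mem {g : G} (a : InM e o g) : g ∈ W := by
  obtain ⟨d, f, k, rfl⟩ := a
  exact h.Φ_mem ..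

theorem cm {g : G} (a : InM e o g) (v : K × K) : Commute (e 4 v) g := by
  obtain ⟨d, f, k, rfl⟩ := a
  exact h.e4_M ..

theorem fix {g : G} (a : InM e o g) (v : K × K) : e 4 v * g * e 4 v = g := by
  rw [(cm h a v).eq, mul_assoc, h.e_sq, mul_one]

theorem x8_norm (y : K) : e 4 (y, 0) ∈ 𝐍[W] := h.e4 y ▸ h.nC (c.F.lt.u_mem_C _)

theorem x8_t (y : K) : e 4 (y, 0) ∈ 𝐂₁[c.t] := h.e4 y ▸ c.L_le (c.F.u_mem_G0 _)

theorem real {g : G} (hm : InM e o (c.δ g)) :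
    ∃ d f k : K, c.δ g = Φ e o (0, 0) (0, 0) (d, 0) (f, 0) (k, 0) := by
  have h1 := t_δ c g
  rw [inv_eq_of_mul_eq_one_right (h.el (mem h hm))] at h1
  obtain ⟨⟨d, d'⟩, ⟨f, f'⟩, ⟨k, k'⟩, e1⟩ := hm
  have h2 : c.δ g ∈ 𝐂₁[c.t] := mem_c1.2 (by
    calc c.δ g * c.t = c.t * c.δ g * (c.t * c.t) := by rw [← mul_assoc, h1]
      _ = c.t * c.δ g := by rw [c.tt, mul_one])
  rw [e1] at h2
  obtain ⟨-, -, rfl, rfl, rfl⟩ := h.real_of_comm h2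
  exact ⟨d, f, k, e1⟩

theorem lemL (v : K × K) {a : G} (ha : a ∈ W) (hm : InM e o (c.δ (e 4 v * a * e 4 v * a))) :
    ∃ g ∈ W, ∃ y : K, e 4 v * a * e 4 v = g * e 4 (y, 0) := by
  obtain ⟨d, f, k, e1⟩ := real h hm
  obtain ⟨b, hb⟩ : ∃ b, b = Φ e o 0 0 (0, d) (0, f) (0, k) := ⟨_, rfl⟩
  have bM : InM e o b := ⟨_, _, _, hb⟩
  have bW := mem h bM
  have e2 : c.δ b = c.δ (e 4 v * a * e 4 v * a) := by rw [e1, hb, h.δ_Φ]; rfl
  have cg : ∀ g, Commute (e 4 v) g → Commute a g → Commute (e 4 v * a * e 4 v * a) g :=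
    fun g h1 h2 => ((h1.mul_left h2).mul_left h1).mul_left h2
  obtain ⟨κ, hκ⟩ : ∃ κ, κ = e 4 v * a * e 4 v * a * b := ⟨_, rfl⟩
  have cM : ∀ g, InM e o g → Commute κ g := fun g hg =>
    hκ ▸ (cg g (cm h hg v) (h.comm ha (mem h hg))).mul_left (h.comm bW (mem h hg))
  have κt : κ ∈ 𝐂₁[c.t] := c.δ_eq_one.1 (by
    rw [hκ, c.δ_mul, e2, (cg _ (cm h hm v) (h.comm ha (mem h hm))).mul_inv_cancel, h.el (mem h hm)])
  have ai : a⁻¹ = a := inv_eq_of_mul_eq_one_right (h.el ha)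
  have κi : a * κ * a⁻¹ = κ⁻¹ := by
    have c1 : Commute b (a * e 4 v * a * e 4 v) :=
      (((h.comm bW ha).mul_right (cm h bM v).symm).mul_right (h.comm bW ha)).mul_right (cm h bM v).symm
    calc a * κ * a⁻¹ = a * e 4 v * a * e 4 v * (a * b * a⁻¹) := by rw [hκ]; group
      _ = b * (a * e 4 v * a * e 4 v) := by rw [(h.comm ha bW).mul_inv_cancel, c1.eq]
      _ = κ⁻¹ := by
        simp only [hκ, mul_inv_rev, ai, h.e_inv, inv_eq_of_mul_eq_one_right (h.el bW), mul_assoc]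
  have cV : ∀ p ∈ Vs s, p.u2 = 0 → p.a3 = 0 → Commute κ (c.F.u p) := fun p hp h2 h3 =>
    cM _ ⟨_, _, _, by rw [h.u_V hp, h2, h3]; rfl⟩
  have cZ : κ ∈ 𝐂[c.F.lt.Z] := mem_cent.2 (by
    rintro _ ⟨p, hp, rfl⟩
    have hp' := mem_Zs.1 hp
    exact (cV p (by simp [hp']) hp'.2.2.1 hp'.2.2.2.1).symm)
  have c4 : ∀ x : K, Commute κ (c.F.u (w4 x 0)) := fun x => by
    have cy : ∀ g ∈ W, Commute g (c.F.u (w4 x 0)) := fun g hg =>
      mem_cent.1 (h.cY (Lt.u_mem_im (A := Ys s) (p := w4 x 0) (by simp))) g hg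
    exact hκ ▸ (cg _ (h.c8 (by simp) v).symm (cy a ha)).mul_left (cy b bW)
  obtain ⟨j, hj⟩ := two_of_inv κi fun j hj => ⟨1, by
    have := mul_mem (conj_mem_of_norm (h.odd _ (pow_mem κt j) hj (pow_mem cZ j)) ha) (inv_mem ha)
    rw [pow_one, sq, h.el this]⟩
  obtain ⟨l, hl, e3, cl⟩ := c.two' κt hj
  obtain ⟨p, p1, rfl⟩ := c.mem_R hl (cl _ (c.F.u_mem_G0 _) (cV _ (by simp) rfl rfl))
    (cl _ (c.F.u_mem_G0 _) (cV _ (by simp) rfl rfl))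
  obtain ⟨p2, p4, p6, p7⟩ := c.cent_U4 p1 fun x => c.u_comm.1 (cl _ (c.F.u_mem_G0 _) (c4 x))
  have p8 : p.a8 = 0 := by
    have := congrArg SG.u6 (c.u_comm.1 (cl _ (c.F.u_mem_G0 _) (cV (x5 1) (by simp) rfl rfl)))
    simp [p1, p2, p4, p6, p7] at this
    grind
  rcases e3 with e3 | e3
  · obtain ⟨q, hq, e4⟩ : ∃ q ∈ Vs s, p = q * w8 0 p.u8 :=
      ⟨⟨0, 0, p.u2, p.a3, 0, p.u4, p.a5, 0, p.u6, 0, 0, 0⟩, by simp, by ext <;> simp [*]⟩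
    rw [e4, map_mul, ← h.e4] at e3
    refine ⟨_, mul_mem (h.V_le (Lt.u_mem_im hq)) (conj_mem_of_norm (x8_norm h p.u8)
      (mul_mem (inv_mem bW) (inv_mem ha))), p.u8, ?_⟩
    calc e 4 v * a * e 4 v = κ * (b⁻¹ * a⁻¹) := by rw [hκ]; group
      _ = _ := by rw [e3]; simp only [Ft.lt_u]; group
  · exfalso
    have c1 : Commute κ (e 2 (0, 1)) := cM _ ⟨_, _, _, h.e2_eq _⟩
    have c2 := (h.c4 p (0, 1)).inv_left.mul_left c1
    rw [e3, inv_mul_cancel_left] at c2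
    have c3 := c.δ_eq_one.2 (mem_c1.2 c2.symm)
    rw [h.δ_e] at c3
    simpa using h.e_inj 2 c3

theorem lemL' (v : K × K) {x : K × K → G} (xa : ∀ w w', x (w + w') = x w * x w')
    (xh : ∀ (α : Kˣ) w, c.F.t (α, 1) * x w * (c.F.t (α, 1))⁻¹ = x (((α : K) * s.σ α) • w)) {w : K × K}
    (H : ∀ a : K, ∃ g ∈ W, ∃ y : K, e 4 v * x (a • w) * e 4 v = g * e 4 (y, 0)) :
    e 4 v * x w * e 4 v ∈ W := by
  obtain ⟨α, hα⟩ := exists_N c
  have h1 : 1 + (α : K) * s.σ α ≠ 0 := fun e => hα (CharTwo.add_eq_zero.1 e).symm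
  obtain ⟨g, hg, y, e1⟩ := H (1 + (α : K) * s.σ α)⁻¹
  have f4 : ∀ w, c.F.t (α, 1) * e 4 w * (c.F.t (α, 1))⁻¹ = e 4 w := fun w => by
    rw [h.h_e]; simp [χe]
  have e2 := congrArg (fun g => c.F.t (α, 1) * g * (c.F.t (α, 1))⁻¹) e1
  simp only [← conj_mul, f4, xh] at e2
  have e3 : w = (1 + (α : K) * s.σ α)⁻¹ • w + ((α : K) * s.σ α) • (1 + (α : K) * s.σ α)⁻¹ • w := by
    rw [smul_smul, ← add_smul, ← one_add_mul, mul_inv_cancel₀ h1, one_smul]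
  rw [e3, xa, inv_mul_conj (h.e_sq 4 v), e1, e2]
  have := mul_mem hg (conj_mem_of_norm (x8_norm h y)
    (conj_mem_of_norm (h.nH (c.F.t_mem_H (α, 1))) hg))
  rw [h.e_inv] at this
  simpa only [mul_assoc] using this

theorem lemL2 (v : K × K) {a : G} (ha : a ∈ W) (hW : e 4 v * a * e 4 v ∈ W)
    (hm : InM e o (c.δ (e 4 v * a * e 4 v * a))) :
    ∃ (x y : K) (d f k : K × K), e 4 v * a * e 4 v = a * Φ e o (x, 0) (y, 0) d f k := by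
  obtain ⟨⟨x, x'⟩, ⟨y, y'⟩, d, f, k, e1⟩ := (h.mem_W _).1 (mul_mem hW ha)
  obtain ⟨d', f', k', e2⟩ := hm
  rw [e1, h.δ_Φ] at e2
  obtain ⟨e3, e4, -⟩ := h.Φ_inj e2
  obtain rfl : x' = 0 := congrArg Prod.fst e3
  obtain rfl : y' = 0 := congrArg Prod.fst e4
  exact ⟨x, y, d, f, k, by rw [← e1, (h.comm hW ha).eq, ← mul_assoc, h.el ha, one_mul]⟩

theorem h1 (α : Kˣ) (w : K × K) :
    c.F.t (α, 1) * e 1 w * (c.F.t (α, 1))⁻¹ = e 1 (((α : K) * s.σ α) • w) := by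
  rw [h.h_e]; simp [χe]

theorem h3 (α : Kˣ) (w : K × K) :
    c.F.t (α, 1) * o 1 w * (c.F.t (α, 1))⁻¹ = o 1 (((α : K) * s.σ α) • w) := by
  rw [h.h_o]; simp [χo]

theorem a3 (v : K × K) (a : K) : e 4 v * o 1 (a, 0) * e 4 v = Φ e o 0 (a, 0) 0 0 (a • v) := by
  have e1 := h.c38 a v
  rw [← h.o1, h.o_inv] at e1
  calc e 4 v * o 1 (a, 0) * e 4 v
      = o 1 (a, 0) * (o 1 (a, 0) * e 4 v * o 1 (a, 0)) * e 4 v := by
        rw [← mul_assoc, ← mul_assoc, h.o_sq, one_mul]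
    _ = o 1 (a, 0) * (e 4 v * e 3 (a • v) * e 4 v) := by rw [e1]; group
    _ = _ := by
      rw [fix h ⟨_, _, _, h.e3_eq _⟩, h.o1_eq, h.e3_eq, ← h.Φ_add]; simp

theorem a2m (v : K × K) (u : K) : InM e o (c.δ (e 4 v * e 1 (u, 0) * e 4 v * e 1 (u, 0))) := by
  have e1 : e 1 (u, 0) * e 4 (v.2, 0) * (e 1 (u, 0))⁻¹ =
      Φ e o (0, 0) (0, 0) (v.2 * s.σ u, 0) (v.2 * u, 0) (s.σ v.2 * u, 0) * e 4 (v.2, 0) := by
    rw [h.e1, h.e4, h.Φ_real, ← map_inv, ← map_mul, ← map_mul, ← map_mul]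
    congr 1
    ext <;> simp [CharTwo.add_self_eq_zero]
  have hM : InM e o (Φ e o (0, 0) (0, 0) (v.2 * s.σ u, 0) (v.2 * u, 0) (s.σ v.2 * u, 0)) := ⟨_, _, _, rfl⟩
  have ht : e 1 (u, 0) ∈ 𝐂₁[c.t] := h.e1 u ▸ c.L_le (c.F.u_mem_G0 _)
  rw [show e 4 v * e 1 (u, 0) * e 4 v * e 1 (u, 0) = e 4 v * (e 1 (u, 0) * e 4 v * (e 1 (u, 0))⁻¹) by
    rw [h.e_inv]; group, c.δ_mul, c.δ_conj ht, h.δ_e, e1,
    ((cm h hM v).mul_right (h.ee0 4 v _)).mul_inv_cancel, mul_assoc, h.e_sq, mul_one]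
  exact hM

theorem a2' (v : K × K) (u : K) :
    ∃ (b : K) (d f k : K × K), e 4 v * e 1 (u, 0) * e 4 v = Φ e o (u, 0) (b, 0) d f k := by
  have m1 : ∀ w, e 1 w ∈ W := fun w => h.e1_eq w ▸ h.Φ_mem ..
  have hW := lemL' h v (h.e_add 1) (h1 h) (w := (u, 0)) fun a => by
    rw [Prod.smul_mk, smul_zero]
    exact lemL h v (m1 _) (a2m h v _)
  obtain ⟨x, y, d, f, k, e1⟩ := lemL2 h v (m1 _) hW (a2m h v u)
  rw [h.e1_eq, ← h.Φ_add, ← h.e1_eq] at e1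
  have c7 : Commute (c.F.u (x7 1)) (e 4 v) := h.c8 (by simp) v
  have e2 := congrArg (fun g => c.F.u (x7 1) * g * (c.F.u (x7 1))⁻¹) e1
  simp only [← conj_mul, c7.mul_inv_cancel, h.c72] at e2
  rw [inv_mul_conj (h.e_sq 4 v), e1, fix h ⟨_, _, _, h.e2_eq _⟩, h.e2_eq, ← h.Φ_add, h.x7_Φ] at e2
  have e3 := congrArg Prod.fst (h.Φ_inj e2).2.2.1
  simp only [Prod.fst_add, one_smul, add_right_inj, left_eq_add] at e3
  subst e3
  exact ⟨y, d, f, k, by simpa using e1⟩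

theorem split (a b d f k : K × K) : Φ e o a b d f k = e 1 a * o 1 b * Φ e o 0 0 d f k := by
  rw [h.Φ_eq, h.M_eq]

theorem a2 (v : K × K) (u : K) : ∃ g, InM e o g ∧ e 4 v * e 1 (u, 0) * e 4 v = e 1 (u, 0) * g := by
  choose b d f k H using a2' h
  have ad : ∀ v v', b (v + v') u = b v u + b v' u := fun v v' => by
    have e1 := H (v + v') u
    nth_rw 2 [add_comm v v'] at e1
    rw [h.e_add, h.e_add, show e 4 v * e 4 v' * e 1 (u, 0) * (e 4 v' * e 4 v) =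
      e 4 v * (e 4 v' * e 1 (u, 0) * e 4 v') * e 4 v by group, H, split h, inv_mul_conj (h.e_sq 4 v),
      inv_mul_conj (h.e_sq 4 v), H, a3 h, fix h ⟨_, _, _, rfl⟩, ← h.Φ_add, ← h.Φ_add] at e1
    simpa using (congrArg Prod.fst (h.Φ_inj e1).2.1).symm
  have eq : ∀ a : K, a ≠ 0 → b ((a * s.σ a) • v) u = b v u * a := fun a ha => by
    have hs := σ_ne_zero (s := s) ha
    have e1 := congrArg (fun g => c.F.t ((Units.mk0 a ha)⁻¹, Units.mk0 a ha) * g *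
      (c.F.t ((Units.mk0 a ha)⁻¹, Units.mk0 a ha))⁻¹) (H v u)
    simp only [← conj_mul, h.h_e, h.h_Φ] at e1
    have x1 : χe s (((Units.mk0 a ha)⁻¹ : Kˣ) : K) (Units.mk0 a ha) 1 = 1 := by
      simp [χe]; field_simp
    have x3 : χo s (((Units.mk0 a ha)⁻¹ : Kˣ) : K) (Units.mk0 a ha) 1 = a := by
      simp [χo]; field_simp
    have x4 : χe s (((Units.mk0 a ha)⁻¹ : Kˣ) : K) (Units.mk0 a ha) 4 = a * s.σ a := by simp [χe]
    rw [x1, x3, x4, one_smul, H] at e1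
    simpa [mul_comm] using congrArg Prod.fst (h.Φ_inj e1).2.1
  have b0 : b v u = 0 := na (s := s) c.big (f := fun a => b (a • v) u) (ψ := id)
    (fun a a' => by rw [add_smul, ad]) (fun _ _ => rfl) (fun _ h => h) eq
  refine ⟨_, ⟨d v u, f v u, k v u, rfl⟩, ?_⟩
  rw [H, b0, split h, show ((0 : K), (0 : K)) = 0 from rfl, h.o_zero, mul_one]

/-- An involution centralizing `M̂` whose commutators with the first two factors lie in `M̂`. -/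
theorem prod (v a b d f k : K × K) (h1 : ∃ g, InM e o g ∧ e 4 v * e 1 a * e 4 v = e 1 a * g)
    (h2 : ∃ g, InM e o g ∧ e 4 v * o 1 b * e 4 v = o 1 b * g) :
    ∃ g, InM e o g ∧ e 4 v * Φ e o a b d f k * e 4 v = Φ e o a b d f k * g := by
  obtain ⟨g1, ⟨d1, f1, k1, rfl⟩, e1⟩ := h1
  obtain ⟨g2, ⟨d2, f2, k2, rfl⟩, e2⟩ := h2
  refine ⟨_, ⟨d1 + d2, f1 + f2, k1 + k2, rfl⟩, ?_⟩
  nth_rw 1 [split h]
  rw [inv_mul_conj (h.e_sq 4 v), inv_mul_conj (h.e_sq 4 v), e1, e2, fix h ⟨_, _, _, rfl⟩, h.e1_eq,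
    h.o1_eq]
  simp only [← h.Φ_add, add_zero, zero_add]
  congr 1 <;> abel

theorem partA (v : K × K) {g : G} (hg : g ∈ W) :
    ∃ g', InM e o g' ∧ e 4 v * c.δ g * e 4 v = c.δ g * g' := by
  obtain ⟨a, b, d, f, k, rfl⟩ := (h.mem_W g).1 hg
  rw [h.δ_Φ]
  refine prod h _ _ _ _ _ _ (a2 h v _) ⟨_, ⟨0, 0, b.2 • v, rfl⟩, ?_⟩
  rw [a3 h, h.o1_eq, ← h.Φ_add]; simp

theorem b2 (u : K) (w : K × K) : ∃ g, InM e o g ∧ e 4 (u, 0) * e 1 w * e 4 (u, 0) = e 1 w * g := by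
  obtain ⟨g, ⟨d, f, k, rfl⟩, e1⟩ := a2 h w u
  have e2 := congrArg (fun g => c.F.m * g * c.F.m) e1
  rw [← h.M_eq] at e2
  simp only [inv_mul_conj c.mm, h.m_e, h.m_o] at e2
  have e3 : e 1 w * e 4 (u, 0) * e 1 w = e 4 (u, 0) * (e 3 d * o 2 f * e 2 k) := e2
  have hM : InM e o (e 3 d * o 2 f * e 2 k) :=
    mul h (mul h ⟨_, _, _, h.e3_eq _⟩ ⟨_, _, _, h.o2_eq _⟩) ⟨_, _, _, h.e2_eq _⟩
  refine ⟨_, hM, ?_⟩
  calc e 4 (u, 0) * e 1 w * e 4 (u, 0) = e 1 w * (e 1 w * e 4 (u, 0) * e 1 w * e 4 (u, 0)) := by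
        rw [← mul_assoc, ← mul_assoc, ← mul_assoc, h.e_sq, one_mul]
    _ = _ := by rw [e3, fix h hM]

theorem b3' (u : K) (w : K × K) : ∃ (z : K) (d f k : K × K),
    e 4 (u, 0) * o 1 w * e 4 (u, 0) = o 1 w * Φ e o 0 (z, 0) d f k := by
  obtain ⟨b, d, f, k, e1⟩ := h.y_Φ 0 u 0 w 0 0 0
  rw [← h.e4, ← h.o1_eq] at e1
  have e2 := congrArg c.δ e1
  rw [c.δ_conj (x8_t h u), h.δ_Φ, h.o1_eq, h.δ_Φ, h.e_inv] at e2
  have e3 : e 4 (u, 0) * Φ e o 0 (w.2, 0) 0 0 0 * e 4 (u, 0) = _ := e2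
  rw [← h.o1_eq, a3 h] at e3
  have e4 : w.2 = b.2 := congrArg Prod.fst (h.Φ_inj e3).2.1
  refine ⟨w.1 + b.1, d, f, k, ?_⟩
  rw [h.e_inv] at e1
  rw [e1, h.o1_eq, ← h.Φ_add]
  simp only [zero_add]
  congr 1
  ext
  · simp [← add_assoc, CharTwo.add_self_eq_zero]
  · simp [e4]

theorem b3 (u : K) (w : K × K) : ∃ g, InM e o g ∧ e 4 (u, 0) * o 1 w * e 4 (u, 0) = o 1 w * g := by
  choose z d f k H using b3' h
  have ad : ∀ u u', z (u + u') w = z u w + z u' w := fun u u' => by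
    have e1 := H (u + u') w
    have e0 : ∀ a b : K, e 4 (a + b, 0) = e 4 (a, 0) * e 4 (b, 0) := fun a b => by
      rw [← h.e_add]; simp
    nth_rw 2 [add_comm u u'] at e1
    rw [e0, e0, show e 4 (u, 0) * e 4 (u', 0) * o 1 w * (e 4 (u', 0) * e 4 (u, 0)) =
      e 4 (u, 0) * (e 4 (u', 0) * o 1 w * e 4 (u', 0)) * e 4 (u, 0) by group, H, split h, h.e_zero,
      one_mul, inv_mul_conj (h.e_sq 4 _), inv_mul_conj (h.e_sq 4 _), H, a3 h, fix h ⟨_, _, _, rfl⟩,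
      mul_assoc, mul_right_inj, ← h.Φ_add, ← h.Φ_add] at e1
    simpa using (congrArg Prod.fst (h.Φ_inj e1).2.1).symm
  obtain ⟨β, hβ⟩ := exists_N c
  have eq : ∀ u : K, z (((β : K) * s.σ β) • u) w = z u w := fun u => by
    have hs := σ_ne_zero (s := s) β.ne_zero
    have hb := β.ne_zero
    have e1 := congrArg (fun g => c.F.t ((s.σu β)⁻¹, β) * g * (c.F.t ((s.σu β)⁻¹, β))⁻¹) (H u w)
    simp only [← conj_mul, h.h_e, h.h_o, h.h_Φ] at e1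
    have x3 : χo s (((s.σu β)⁻¹ : Kˣ) : K) β 1 = 1 := by
      simp [χo, hs]
    have x4 : χe s (((s.σu β)⁻¹ : Kˣ) : K) β 4 = β * s.σ β := by simp [χe]
    rw [x3, x4, one_smul, one_smul, Prod.smul_mk, smul_zero, H, mul_right_inj] at e1
    exact congrArg Prod.fst (h.Φ_inj e1).2.1
  have z0 : z u w = 0 := inv_zero (K := K) (f := fun u => z u w) ad hβ eq u
  exact ⟨_, ⟨d u w, f u w, k u w, rfl⟩, by rw [H, z0]; rfl⟩

theorem partB (u : K) {g : G} (hg : g ∈ W) :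
    ∃ g', InM e o g' ∧ e 4 (u, 0) * g * e 4 (u, 0) = g * g' := by
  obtain ⟨a, b, d, f, k, rfl⟩ := (h.mem_W g).1 hg
  exact prod h _ _ _ _ _ _ (b2 h u a) (b3 h u b)

theorem partC (v : K × K) {a : G} (ha : a ∈ W) : InM e o (c.δ (e 4 v * a * e 4 v * a)) := by
  have dW : c.δ a ∈ W := by
    obtain ⟨a, b, d, f, k, rfl⟩ := (h.mem_W a).1 ha
    rw [h.δ_Φ]; exact h.Φ_mem ..
  obtain ⟨g1, m1, e1⟩ := partB h v.2 ha
  obtain ⟨g2, m2, e2⟩ := partA h v ha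
  obtain ⟨g3, m3, e3⟩ := partB h v.2 dW
  have e4 : c.δ (e 4 v * a) = c.δ a * g2 * e 4 (v.2, 0) := by rw [c.δ_mul, h.e_inv, e2, h.δ_e]
  have ai : a⁻¹ = a := inv_eq_of_mul_eq_one_right (h.el ha)
  have e5 : a * e 4 (v.2, 0) * a = g1 * e 4 (v.2, 0) := by
    calc a * e 4 (v.2, 0) * a = a * (e 4 (v.2, 0) * a * e 4 (v.2, 0)) * e 4 (v.2, 0) := by
          rw [mul_assoc a _ (e 4 _), mul_assoc _ (e 4 _) (e 4 _), h.e_sq, mul_one, mul_assoc]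
      _ = _ := by rw [e1, ← mul_assoc, h.el ha, one_mul]
  have e6 : e 4 v * a * (c.δ a * g2 * e 4 (v.2, 0)) * (e 4 v * a)⁻¹ = c.δ a * g1 * e 4 (v.2, 0) := by
    calc e 4 v * a * (c.δ a * g2 * e 4 (v.2, 0)) * (e 4 v * a)⁻¹
        = e 4 v * (a * (c.δ a * g2) * e 4 (v.2, 0) * a) * e 4 v := by
          rw [mul_inv_rev, ai, h.e_inv]; group
      _ = e 4 v * (c.δ a * (g2 * g1) * e 4 (v.2, 0)) * e 4 v := by
          rw [(h.comm ha (mul_mem dW (mem h m2))).eq, mul_assoc (c.δ a * g2), mul_assoc (c.δ a * g2), e5]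
          group
      _ = c.δ a * (g2 * g2) * g1 * e 4 (v.2, 0) := by
          rw [inv_mul_conj (h.e_sq 4 v), inv_mul_conj (h.e_sq 4 v), e2, fix h (mul h m2 m1),
            (h.ee0 4 v _).eq, mul_assoc _ (e 4 v) (e 4 v), h.e_sq]
          group
      _ = _ := by rw [h.el (mem h m2), mul_one]
  have e7 : c.δ a * g1 * e 4 (v.2, 0) * (c.δ a * g2 * e 4 (v.2, 0)) = g1 * g3 * g2 := by
    calc c.δ a * g1 * e 4 (v.2, 0) * (c.δ a * g2 * e 4 (v.2, 0))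
        = c.δ a * g1 * (e 4 (v.2, 0) * (c.δ a * g2) * e 4 (v.2, 0)) := by group
      _ = g1 * (c.δ a * c.δ a) * g3 * g2 := by
          rw [inv_mul_conj (h.e_sq 4 _), e3, fix h m2, (h.comm dW (mem h m1)).eq]; group
      _ = _ := by rw [h.el dW, mul_one]
  rw [mul_assoc (e 4 v * a), c.δ_mul, e4, e6, e7]
  exact mul h (mul h m1 m3) m2

theorem conj_mem (v : K × K) {g : G} (hg : g ∈ W) : e 4 v * g * e 4 v ∈ W := by
  obtain ⟨a, b, d, f, k, rfl⟩ := (h.mem_W g).1 hg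
  have m1 : ∀ w, e 1 w ∈ W := fun w => h.e1_eq w ▸ h.Φ_mem ..
  have m3 : ∀ w, o 1 w ∈ W := fun w => h.o1_eq w ▸ h.Φ_mem ..
  rw [split h, inv_mul_conj (h.e_sq 4 v), inv_mul_conj (h.e_sq 4 v), fix h ⟨_, _, _, rfl⟩]
  exact mul_mem (mul_mem
    (lemL' h v (h.e_add 1) (h1 h) fun _ => lemL h v (m1 _) (partC h v (m1 _)))
    (lemL' h v (h.o_add 1) (h3 h) fun _ => lemL h v (m3 _) (partC h v (m3 _)))) (h.Φ_mem ..)

end N8

theorem Pre.norm8 (h : Pre c W e o) (v : K × K) {a : G} (ha : a ∈ W) :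
    ∃ p ∈ Vs s, ∃ d f k, e 4 v * a * e 4 v = a * (c.F.u p * (e 2 d * o 2 f * e 3 k)) := by
  obtain ⟨x, y, d, f, k, e1⟩ := N8.lemL2 h v ha (N8.conj_mem h v ha) (N8.partC h v ha)
  refine ⟨⟨0, 0, x, y, 0, 0, 0, 0, 0, 0, 0, 0⟩, by simp, d, f, k, ?_⟩
  rw [e1, ← h.Φ_real, h.M_eq, ← h.Φ_add]
  simp only [add_zero, show ((0 : K), (0 : K)) = 0 from rfl, zero_add]

end Cfsg.Agent.DF
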