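import Mathlib
import Cfsg.Agent.DF.PK
import Cfsg.Agent.DF.N8

/-! The shape of the commutators with the hat of `V₈`. -/

set_option autoImplicit false
set_option linter.unusedSectionVars false

namespace Cfsg.Agent.DF

open Cfsg.Agent.Og Cfsg.Agent.Og.SG Cfsg.Agent.Loc.Mss Subgroup
open scoped commutatorElement

variable {K : Type*} [Field K] [CharP K 2] [Finite K] {s : Sg K} {G : Type*} [Group G] [Finite G]
  {c : Cfg s G}

variable {W : Subgroup G} {e o : Fin 8 → K × K → G}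

namespace Pre

variable (h : Pre c W e o)
include h

theorem n8b_norm (v : K × K) : e 4 v ∈ 𝐍[W] := mem_norm_of_cj_le (cj_le_iff.2 fun g hg => by
  obtain ⟨p, hp, d, f, k, e1⟩ := h.norm8 v hg
  rw [h.e_inv, e1, h.M_eq, h.u_V hp]
  exact mul_mem hg (mul_mem (h.Φ_mem ..) (h.Φ_mem ..)))

theorem n8b_real (v : K × K) (a : K) (d f k : K × K) :
    e 4 v * Φ e o 0 (a, 0) d f k * e 4 v = Φ e o 0 (a, 0) d f (k + a • v) := by
  have e1 : Φ e o 0 (a, 0) d f k = o 1 (a, 0) * Φ e o 0 0 d f k := by rw [h.o1_eq, ← h.Φ_add]; simp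
  have e2 := h.c38 a v
  rw [← h.o1, h.o_inv] at e2
  have e3 : e 4 v * o 1 (a, 0) * e 4 v = e 3 (a • v) * o 1 (a, 0) := by
    calc _ = e 4 v * (o 1 (a, 0) * e 4 v * o 1 (a, 0)) * o 1 (a, 0) := by
          rw [mul_assoc, mul_assoc, mul_assoc, mul_assoc, h.o_sq, mul_one]
      _ = _ := by rw [e2, ← mul_assoc, h.e_sq, one_mul]
  rw [e1, inv_mul_conj (h.e_sq 4 v), e3, (h.e4_M v d f k).eq, mul_assoc (Φ e o 0 0 d f k), h.e_sq,
    mul_one, h.e3_eq, h.o1_eq, ← h.Φ_add, ← h.Φ_add]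
  simp [add_comm]

theorem n8b_ex (a b v : K × K) : ∃ z : K, ∃ d f k,
    e 4 v * Φ e o a b 0 0 0 * e 4 v = Φ e o a (b + (z, 0)) d f k := by
  obtain ⟨p, hp, d, f, k, e1⟩ := h.norm8 v (h.Φ_mem a b 0 0 0)
  obtain ⟨b', d', f', k', e2⟩ := h.tri (h.n8b_norm v) (h.c8 (p := x7 1) (by simp) v).symm
    (fun w => (h.ee2 2 w v).symm) a b 0 0 0
  rw [h.M_eq, h.u_V hp, ← h.Φ_add, ← h.Φ_add] at e1
  rw [h.e_inv] at e2
  obtain ⟨-, hb, -⟩ := h.Φ_inj (e2.symm.trans e1)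
  exact ⟨p.a3, d', f', k', by rw [e2, hb, add_zero]⟩

theorem n8b_fun (a b : K × K) : ∃ (z : K × K → K) (d f k : K × K → K × K),
    (∀ v, e 4 v * Φ e o a b 0 0 0 * e 4 v = Φ e o a (b + (z v, 0)) (d v) (f v) (k v)) ∧
    (∀ v v', z (v + v') = z v + z v') ∧ (∀ v v', d (v + v') = d v + d v') ∧
    (∀ v v', f (v + v') = f v + f v') ∧
    ∀ α β : Kˣ, χe s α β 1 • a = a → χo s α β 1 • b = b → ∀ v,
      z (((β : K) * s.σ β) • v) = χo s α β 1 * z v ∧ d (((β : K) * s.σ β) • v) = χe s α β 2 • d v ∧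
        f (((β : K) * s.σ β) • v) = χo s α β 2 • f v := by
  choose z d f k H using h.n8b_ex a b
  have ad : ∀ v v', z (v + v') = z v + z v' ∧ d (v + v') = d v + d v' ∧ f (v + v') = f v + f v' := by
    intro v v'
    have e1 : Φ e o a (b + (z v', 0)) (d v') (f v') (k v') =
        Φ e o a b 0 0 0 * Φ e o 0 (z v', 0) (d v') (f v') (k v') := by rw [← h.Φ_add]; simp
    have e2 := H (v + v')
    rw [h.e_add, show e 4 v * e 4 v' * Φ e o a b 0 0 0 * (e 4 v * e 4 v') =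
      e 4 v * (e 4 v' * Φ e o a b 0 0 0 * e 4 v') * e 4 v by
        nth_rewrite 2 [(h.ee0 4 v v').eq]; group, H v', e1,
      inv_mul_conj (h.e_sq 4 v), H v, h.n8b_real, ← h.Φ_add] at e2
    obtain ⟨-, h1, h2, h3, -⟩ := h.Φ_inj e2
    refine ⟨?_, h2.symm, h3.symm⟩
    rw [add_assoc, add_right_inj] at h1
    exact (congrArg Prod.fst h1).symm
  refine ⟨z, d, f, k, H, fun v v' => (ad v v').1, fun v v' => (ad v v').2.1, fun v v' => (ad v v').2.2,
    fun α β ha hb v => ?_⟩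
  have e1 := congrArg (fun g => c.F.t (α, β) * g * (c.F.t (α, β))⁻¹) (H v)
  simp only [← conj_mul, h.h_e, h.h_Φ, ha, hb, smul_zero, smul_add] at e1
  have e2 := H (((β : K) * s.σ β) • v)
  rw [show χe s α β 4 = (β : K) * s.σ β from rfl, e2] at e1
  obtain ⟨-, h1, h2, h3, -⟩ := h.Φ_inj e1
  rw [add_right_inj] at h1
  exact ⟨congrArg Prod.fst h1, h2, h3⟩

omit h in
theorem n8b_na (hq : ∃ a : Kˣ, a ≠ 1) {d : K × K → K × K} {ψ : K → K}
    (hd : ∀ v v', d (v + v') = d v + d v') (hψ : ∀ a b, ψ (a + b) = ψ a + ψ b) (hi : ∀ a, ψ a = 0 → a = 0)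
    (H : ∀ a : K, a ≠ 0 → ∀ v, d ((a * s.σ a) • v) = ψ a • d v) (v : K × K) : d v = 0 :=
  Prod.ext
    (na (s := s) hq (f := fun a => (d (a • v)).1) (fun a b => by rw [add_smul, hd, Prod.fst_add]) hψ hi
      fun a ha => by rw [H a ha, Prod.smul_fst, smul_eq_mul, mul_comm])
    (na (s := s) hq (f := fun a => (d (a • v)).2) (fun a b => by rw [add_smul, hd, Prod.snd_add]) hψ hi
      fun a ha => by rw [H a ha, Prod.smul_snd, smul_eq_mul, mul_comm])

theorem n8b_r28 (w v : K × K) : ∃ d f k, e 4 v * e 1 w * e 4 v = e 1 w * (e 2 d * o 2 f * e 3 k) := by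
  obtain ⟨z, d, f, k, H, za, -, -, eqv⟩ := h.n8b_fun w 0
  have hz : z v = 0 := na (s := s) c.big (f := fun a => z (a • v)) (ψ := id)
    (fun a b => by rw [add_smul, za]) (fun _ _ => rfl) (fun _ h => h) fun a ha => by
      have hs := σ_ne_zero (s := s) ha
      have x1 : χe s ((Units.mk0 a ha)⁻¹ : Kˣ) (Units.mk0 a ha) 1 = 1 := by
        simp [χe]; field_simp
      have x2 : χo s ((Units.mk0 a ha)⁻¹ : Kˣ) (Units.mk0 a ha) 1 = a := by
        simp [χo]; field_simp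
      have := (eqv (Units.mk0 a ha)⁻¹ (Units.mk0 a ha) (by rw [x1, one_smul]) (smul_zero _) v).1
      rw [x2] at this
      simpa [mul_comm] using this
  refine ⟨d v, f v, k v, ?_⟩
  rw [h.e1_eq, H, hz, h.M_eq, ← h.Φ_add]
  simp [Prod.mk_zero_zero]

theorem n8b_r38 (w v : K × K) : ∃ k, e 4 v * o 1 w * e 4 v = o 1 w * e 3 k := by
  obtain ⟨z, d, f, k, H, za, da, fa, eqv⟩ := h.n8b_fun 0 w
  have key : ∀ a : K, a ≠ 0 → ∀ v, z ((a * s.σ a) • v) = z v ∧ d ((a * s.σ a) • v) = a • d v ∧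
      f ((a * s.σ a) • v) = s.σ a • f v := by
    intro a ha v
    have hs := σ_ne_zero (s := s) ha
    have x1 : χo s ((Units.mk0 _ hs)⁻¹ : Kˣ) (Units.mk0 a ha) 1 = 1 := by
      simp [χo]; field_simp
    have x2 : χe s ((Units.mk0 _ hs)⁻¹ : Kˣ) (Units.mk0 a ha) 2 = a := by
      simp [χe]; field_simp
    have x3 : χo s ((Units.mk0 _ hs)⁻¹ : Kˣ) (Units.mk0 a ha) 2 = s.σ a := by
      simp [χo]; field_simp
    have := eqv (Units.mk0 _ hs)⁻¹ (Units.mk0 a ha) (smul_zero _) (by rw [x1, one_smul]) v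
    rwa [x1, x2, x3, one_mul] at this
  obtain ⟨l, l0, l1, -⟩ := exists_ne (s := s) c.big
  obtain ⟨a, a0, rfl⟩ := exists_nrm s l0
  have hz : z v = 0 := inv_zero za l1 (fun v => (key a a0 v).1) v
  have hd : d v = 0 := n8b_na (s := s) c.big (ψ := id) da (fun _ _ => rfl) (fun _ h => h)
    (fun a ha v => (key a ha v).2.1) v
  have hf : f v = 0 := n8b_na (s := s) c.big (ψ := s.σ) fa (map_add _)
    (fun a h => by_contra fun a0 => σ_ne_zero a0 h) (fun a ha v => (key a ha v).2.2) v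
  refine ⟨k v, ?_⟩
  rw [h.o1_eq, H, hz, hd, hf, h.e3_eq, ← h.Φ_add]
  simp [Prod.mk_zero_zero]

end Pre

theorem Pre.pre2 (h : Pre c W e o) : Pre2 c W e o := ⟨h, h.n8b_r28, h.n8b_r38⟩

end Cfsg.Agent.DF
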