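import Mathlib
import Cfsg.Agent.DF.Defs

/-! Transport of the final data along an embedding of a model. -/

set_option autoImplicit false
set_option linter.unusedSectionVars false

namespace Cfsg.Agent.DF

open Cfsg.Agent.Og Cfsg.Agent.Og.SG Cfsg.Agent.Loc.Mss Subgroup
open scoped commutatorElement

variable {K : Type*} [Field K] [CharP K 2] [Finite K] {s : Sg K} {G : Type*} [Group G] [Finite G]
  {c : Cfg s G}

theorem Last.of_hom {J : Type*} [Group J] [Finite J] {ψ : J →* G} (hi : Function.Injective ψ) {γ : J → J}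
    (hγ : ∀ g, c.t * ψ g * c.t = ψ (γ g)) {U : Subgroup J} (syl : Syl 2 U ⊤) (perf : commutator J = ⊤)
    (inv : ∀ u ∈ U, γ u ∈ U) (card : Nat.card {u : J // u ∈ U ∧ γ u = u} = Nat.card K ^ 12)
    (cob : ∀ u ∈ U, γ u * u = 1 → ∃ r ∈ U, u = γ r * r⁻¹)
    (big : ∀ x : J, x * x = 1 → x ≠ 1 →
      ∃ P : Subgroup J, IsPGroup 2 P ∧ P ≤ centralizer {x} ∧ Nat.card K ^ 13 ≤ Nat.card P) :
    Last c ψ.range (U.map ψ) where
  syl := by simpa only [← MonoidHom.range_eq_map] using syl.map ψ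
  perf := by
    rw [MonoidHom.range_eq_map, ← Subgroup.map_commutator]
    exact map_mono (by rw [← commutator_def, perf])
  tU := by
    have key : ∀ g ∈ U.map ψ, c.t * g * c.t ∈ U.map ψ := by
      rintro _ ⟨u, hu, rfl⟩
      exact ⟨γ u, inv u hu, (hγ u).symm⟩
    have ti : c.t⁻¹ = c.t := inv_eq_of_mul_eq_one_right c.tt
    refine mem_normalizer_iff.2 fun g => ⟨fun h => by rw [ti]; exact key g h, fun h => ?_⟩
    have := key _ h
    rwa [ti, show c.t * (c.t * g * c.t) * c.t = (c.t * c.t) * g * (c.t * c.t) by group, c.tt, one_mul, mul_one] at this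
  card := by
    rw [← card]
    have fx : ∀ u, γ u = u ↔ ψ u ∈ 𝐂₁[c.t] := fun u => by
      rw [mem_c1, ← hi.eq_iff, ← hγ]
      constructor
      · intro e
        rw [← e, mul_assoc, c.tt, mul_one, e]
      · intro e
        rw [← e, mul_assoc, c.tt, mul_one]
    refine (Nat.card_congr (Equiv.ofBijective
      (fun u : {u : J // u ∈ U ∧ γ u = u} => (⟨ψ u.1, ⟨u.1, u.2.1, rfl⟩, (fx _).1 u.2.2⟩ : ↥(U.map ψ ⊓ 𝐂₁[c.t])))
      ⟨fun u v e => Subtype.ext (hi (congrArg Subtype.val e)), ?_⟩)).symm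
    rintro ⟨_, ⟨u, hu, rfl⟩, h⟩
    exact ⟨⟨u, hu, (fx u).2 h⟩, rfl⟩
  cob := by
    rintro _ ⟨u, hu, rfl⟩ h
    obtain ⟨r, hr, e⟩ := cob u hu (hi (by rw [map_mul, ← hγ, map_one, h]))
    refine ⟨ψ r, ⟨r, hr, rfl⟩, ?_⟩
    rw [e, map_mul, map_inv, ← hγ, ← mul_assoc, ← mul_assoc, ← mul_assoc, c.tt, one_mul]
  big := by
    rintro _ ⟨x, -, rfl⟩ h2 h1
    obtain ⟨P, hP, hc, hn⟩ := big x (hi (by rw [map_mul, h2, map_one])) (fun e => h1 (by rw [e, map_one]))
    refine ⟨P.map ψ, hP.map ψ, ?_, by rwa [Subgroup.card_map_of_injective hi]⟩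
    rintro _ ⟨g, hg, rfl⟩
    rw [mem_c1, ← map_mul, ← map_mul, (mem_centralizer_singleton_iff.1 (hc hg))]

end Cfsg.Agent.DF
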