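import Mathlib
import Cfsg.Agent.DF.PK

/-! The rotated system of hats. -/

set_option autoImplicit false
set_option linter.unusedSectionVars false

namespace Cfsg.Agent.DF

open Cfsg.Agent.Og Cfsg.Agent.Og.SG Cfsg.Agent.Loc.Mss Subgroup
open scoped commutatorElement

variable {K : Type*} [Field K] [CharP K 2] [Finite K] {s : Sg K} {G : Type*} [Group G] [Finite G]
  {c : Cfg s G}

namespace Cfg

variable (c)

theorem ρ_inv : c.ρ⁻¹ = c.F.n * c.F.m := by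
  rw [Cfg.ρ, mul_inv_rev, c.rf.toRF0.n_inv, c.rf.toRF0.m_inv]

theorem ρ_pow : c.ρ ^ 8 = 1 := by rw [← inv_eq_one, ← inv_pow, c.ρ_inv, c.rf.br]

theorem ρ_mod (k : ℕ) : c.ρ ^ (k % 8) = c.ρ ^ k := by
  conv_rhs => rw [← Nat.mod_add_div k 8, pow_add, pow_mul, c.ρ_pow, one_pow, mul_one]

theorem sh_zero (g : G) : c.sh 0 g = g := by simp [sh]

theorem sh_one (g : G) : c.sh 1 g = c.ρ * g * c.ρ⁻¹ := by simp [sh]

theorem sh_add (i j : Fin 8) (g : G) : c.sh (i + j) g = c.sh i (c.sh j g) := by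
  simp only [sh, Fin.val_add, c.ρ_mod, pow_add]; group

theorem sh_mul (j : Fin 8) (g g' : G) : c.sh j (g * g') = c.sh j g * c.sh j g' := by simp only [sh]; group

theorem sh_neg_one (g : G) : c.sh (-1) g = c.ρ⁻¹ * g * c.ρ := by
  have := c.sh_add (-1) 1 (c.ρ⁻¹ * g * c.ρ)
  rw [neg_add_cancel, c.sh_zero, c.sh_one] at this
  rw [this]; congr 1; group

theorem sh_flip {r : G} (hr : r * r = 1) (h : r * c.ρ * r = c.ρ⁻¹) (j : Fin 8) (g : G) :
    r * c.sh j g * r = c.sh (-j) (r * g * r) := by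
  refine rot_ind' (P := fun j => r * c.sh j g * r = c.sh (-j) (r * g * r)) (fun j ih => ?_) (i := 0) ?_ j
  · have h' : r * c.ρ⁻¹ * r = c.ρ := by
      rw [← h, show r * (r * c.ρ * r) * r = (r * r) * c.ρ * (r * r) by group, hr, one_mul, mul_one]
    rw [add_comm, c.sh_add, neg_add, c.sh_add, ← ih, c.sh_one, c.sh_neg_one, inv_mul_conj hr, inv_mul_conj hr, h, h']
  · simp only [neg_zero, sh_zero]

theorem n_sh (j : Fin 8) (g : G) : c.F.n * c.sh j g * c.F.n = c.sh (-j) (c.F.n * g * c.F.n) :=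
  c.sh_flip c.nn (by rw [c.ρ_inv, ρ, ← mul_assoc, mul_assoc, c.nn, mul_one]) j g

theorem m_sh (j : Fin 8) (g : G) : c.F.m * c.sh j g * c.F.m = c.sh (-j) (c.F.m * g * c.F.m) :=
  c.sh_flip c.mm (by rw [c.ρ_inv, ρ, ← mul_assoc, c.mm, one_mul]) j g

theorem t_sh (j : Fin 8) (g : G) : c.t * c.sh j g * c.t = c.sh j (c.t * g * c.t) := by
  have h : Commute c.t (c.ρ ^ j.val) :=
    Commute.pow_right (c.cen _ (mul_mem c.F.m_mem_G0 c.F.n_mem_G0)) _
  simp only [sh]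
  rw [← mul_assoc, ← mul_assoc, h.eq, mul_assoc _ _ c.t, ← h.inv_right.eq]; group

variable (X : K × K → G)

theorem rot_two (w : K × K) : c.rot X 2 w = X w := by simp only [rot, sub_self, sh_zero]

theorem ρ_rot (j : Fin 8) (w : K × K) : c.ρ * c.rot X j w * c.ρ⁻¹ = c.rot X (j + 1) w := by
  simp only [rot]; rw [← c.sh_one, ← c.sh_add]; congr 1; abel

theorem rot_comm (Y : K × K → G) {i k : Fin 8} (h : ∀ w v, Commute (c.rot X i w) (c.rot Y (i + k) v)) (j : Fin 8)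
    (w v : K × K) : Commute (c.rot X j w) (c.rot Y (j + k) v) := by
  refine rot_ind' (P := fun j => Commute (c.rot X j w) (c.rot Y (j + k) v)) (fun j ih => ?_) (h w v) j
  have := ih.conj c.ρ
  rwa [c.ρ_rot, c.ρ_rot, add_right_comm] at this

theorem rot_tor {χ : K → K → Fin 8 → K}
    (hχ : ∀ (α β : Kˣ) j, χ (α * β ^ 2 * s.σ α * s.σ β) ((α : K)⁻¹ * (β : K)⁻¹) j = χ α β (j + 1))
    (h : ∀ (α β : Kˣ) w, c.F.t (α, β) * X w * (c.F.t (α, β))⁻¹ = X (χ α β 2 • w)) (α β : Kˣ) (j : Fin 8) (w : K × K) :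
    c.F.t (α, β) * c.rot X j w * (c.F.t (α, β))⁻¹ = c.rot X j (χ α β j • w) := by
  refine rot_ind' (P := fun j => ∀ α β : Kˣ, c.F.t (α, β) * c.rot X j w * (c.F.t (α, β))⁻¹ = c.rot X j (χ α β j • w))
    (fun j ih α β => ?_) (i := 2) (fun α β => by simp only [rot_two, h]) j α β
  have e : c.F.t (α, β) = c.ρ * c.F.t (α⁻¹ * (α * β) ^ 2 * s.σu (α * β), (α * β)⁻¹) * c.ρ⁻¹ := by
    rw [← c.rf.nt, ← c.rf.mt, show c.F.n * (c.F.m * c.F.t (α, β) * c.F.m) * c.F.n =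
      c.F.n * c.F.m * c.F.t (α, β) * (c.F.m * c.F.n) by group, ← c.ρ_inv, ← ρ]
    group
  rw [← c.ρ_rot, ← c.ρ_rot, ← hχ, e]
  have := ih (α⁻¹ * (α * β) ^ 2 * s.σu (α * β)) (α * β)⁻¹
  have e1 : ((α⁻¹ * (α * β) ^ 2 * s.σu (α * β) : Kˣ) : K) = α * β ^ 2 * s.σ α * s.σ β := by
    simp; field_simp
  have e2 : (((α * β)⁻¹ : Kˣ) : K) = (α : K)⁻¹ * (β : K)⁻¹ := by simp [mul_comm]
  rw [e1, e2] at this
  rw [← this]; group

end Cfg

theorem χe_rot (α β : Kˣ) (j : Fin 8) :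
    χe s (α * β ^ 2 * s.σ α * s.σ β) ((α : K)⁻¹ * (β : K)⁻¹) j = χe s α β (j + 1) := by
  have h1 := α.ne_zero; have h2 := β.ne_zero
  have h3 : s.σ α ≠ 0 := σ_ne_zero h1; have h4 : s.σ β ≠ 0 := σ_ne_zero h2
  fin_cases j <;> simp [χe] <;> field_simp

theorem χo_rot (α β : Kˣ) (j : Fin 8) :
    χo s (α * β ^ 2 * s.σ α * s.σ β) ((α : K)⁻¹ * (β : K)⁻¹) j = χo s α β (j + 1) := by
  have h1 := α.ne_zero; have h2 := β.ne_zero
  have h3 : s.σ α ≠ 0 := σ_ne_zero h1; have h4 : s.σ β ≠ 0 := σ_ne_zero h2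
  fin_cases j <;> simp [χo] <;> field_simp

theorem eq_of_mem_Vs (p : SG s) (hp : p ∈ Vs s) : p = ⟨0, 0, p.u2, p.a3, 0, p.u4, p.a5, 0, p.u6, 0, 0, 0⟩ := by
  ext <;> simp_all

theorem HO.pre {E O : K × K → G} {W : Subgroup G} (hO : HO c W O) (hE : HE c E) (hV : HV c E W) :
    Pre c W (c.rot E) (c.rot O) := by
  have nE : ∀ w, c.F.n * E w * c.F.n = E w := fun w => by
    rw [show c.F.n * E w = E w * c.F.n from hE.cent _ c.F.lt.n_mem_C w, mul_assoc, c.nn, mul_one]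
  have mO : ∀ w, c.F.m * O w * c.F.m = O w := fun w => by rw [hO.cm, mul_assoc, c.mm, mul_one]
  have mE : ∀ w, c.F.m * E w * c.F.m = c.sh 1 (E w) := fun w => by rw [c.sh_one, c.ρ_conj, nE]
  have nO : ∀ w, c.F.n * O w * c.F.n = c.sh (-1) (O w) := fun w => by
    rw [c.sh_neg_one, c.ρ_inv, Cfg.ρ, ← mO w, mO (w), show c.F.n * c.F.m * O w * (c.F.m * c.F.n) =
      c.F.n * (c.F.m * O w * c.F.m) * c.F.n by group, mO]
  have n_e : ∀ j w, c.F.n * c.rot E j w * c.F.n = c.rot E (4 - j) w := fun j w => by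
    simp only [Cfg.rot]; rw [c.n_sh, nE]; congr 1; revert j; decide
  have n_o : ∀ j w, c.F.n * c.rot O j w * c.F.n = c.rot O (3 - j) w := fun j w => by
    simp only [Cfg.rot]; rw [c.n_sh, nO, ← c.sh_add]; congr 1; revert j; decide
  have m_e : ∀ j w, c.F.m * c.rot E j w * c.F.m = c.rot E (5 - j) w := fun j w => by
    simp only [Cfg.rot]; rw [c.m_sh, mE, ← c.sh_add]; congr 1; revert j; decide
  have m_o : ∀ j w, c.F.m * c.rot O j w * c.F.m = c.rot O (4 - j) w := fun j w => by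
    simp only [Cfg.rot]; rw [c.m_sh, mO]; congr 1; revert j; decide
  have E3 : ∀ w, c.rot E 3 w = c.F.m * E w * c.F.m := fun w => by rw [← c.rot_two E w, m_e]; rfl
  have e_add : ∀ j w v, c.rot E j (w + v) = c.rot E j w * c.rot E j v := fun j w v => by
    simp only [Cfg.rot, hE.add, c.sh_mul]
  have o_add : ∀ j w v, c.rot O j (w + v) = c.rot O j w * c.rot O j v := fun j w v => by
    simp only [Cfg.rot, hO.add, c.sh_mul]
  have t_e : ∀ j a b, c.t * c.rot E j (a, b) * c.t = c.rot E j (a + b, b) := fun j a b => by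
    simp only [Cfg.rot, c.t_sh, hE.tw]
  have t_o : ∀ j a b, c.t * c.rot O j (a, b) * c.t = c.rot O j (a + b, b) := fun j a b => by
    simp only [Cfg.rot, c.t_sh, hO.tw]
  have e2 : ∀ a, c.rot E 2 (a, 0) = c.F.u (w4 0 a) := fun a => by rw [c.rot_two, hE.zero]
  have o2 : ∀ a, c.rot O 2 (a, 0) = c.F.u (x5 a) := fun a => by rw [c.rot_two, hO.zero]
  have e3 : ∀ a, c.rot E 3 (a, 0) = c.F.u (w6 0 a) := fun a => by
    rw [show (3 : Fin 8) = 5 - 2 from rfl, ← m_e, e2, c.m_u (by simp)]; congr 1; ext <;> simp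
  have e1 : ∀ a, c.rot E 1 (a, 0) = c.F.u (w2 0 a) := fun a => by
    rw [show (1 : Fin 8) = 4 - 3 from rfl, ← n_e, e3, c.n_u (by simp)]; congr 1; ext <;> simp
  have e4 : ∀ a, c.rot E 4 (a, 0) = c.F.u (w8 0 a) := fun a => by
    rw [show (4 : Fin 8) = 5 - 1 from rfl, ← m_e, e1, c.m_u (by simp)]; congr 1; ext <;> simp
  have o1 : ∀ a, c.rot O 1 (a, 0) = c.F.u (x3 a) := fun a => by
    rw [show (1 : Fin 8) = 3 - 2 from rfl, ← n_o, o2, c.n_u (by simp)]; congr 1; ext <;> simp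
  have o3 : ∀ a, c.rot O 3 (a, 0) = c.F.u (x7 a) := fun a => by
    rw [show (3 : Fin 8) = 4 - 1 from rfl, ← m_o, o1, c.m_u (by simp)]; congr 1; ext <;> simp
  have o0 : ∀ a, c.rot O 0 (a, 0) = c.F.u (x1 a) := fun a => by
    rw [show (0 : Fin 8) = 3 - 3 from rfl, ← n_o, o3, c.n_u (by simp)]; congr 1; ext <;> simp
  have nW : ∀ g ∈ W, c.F.n * g * c.F.n ∈ W := fun g hg => by
    have := (mem_normalizer_iff.1 (hV.nC c.F.lt.n_mem_C) g).1 hg
    rwa [show c.F.lt.n = c.F.n from rfl, c.rf.toRF0.n_inv] at this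
  have W2 : ∀ w, c.rot E 2 w ∈ W := fun w => by rw [c.rot_two]; exact hV.mem4 w
  have W3 : ∀ w, c.rot E 3 w ∈ W := fun w => by rw [E3]; exact hV.mem6 w
  have W1 : ∀ w, c.rot E 1 w ∈ W := fun w => by
    rw [show (1 : Fin 8) = 4 - 3 from rfl, ← n_e]; exact nW _ (W3 w)
  have V2 : ∀ w, c.rot O 2 w ∈ W := fun w => by rw [c.rot_two]; exact hO.mem w
  have V1 : ∀ w, c.rot O 1 w ∈ W := fun w => by
    rw [show (1 : Fin 8) = 3 - 2 from rfl, ← n_o]; exact nW _ (V2 w)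
  have cm : ∀ {g g'}, g ∈ W → g' ∈ W → Commute g g' := fun {g g'} hg hg' => by
    have h1 := inv_eq_of_mul_eq_one_right (hV.el _ (mul_mem hg hg'))
    rw [mul_inv_rev, inv_eq_of_mul_eq_one_right (hV.el _ hg), inv_eq_of_mul_eq_one_right (hV.el _ hg')] at h1
    exact h1.symm
  have ΦW : ∀ a b d f k, Φ (c.rot E) (c.rot O) a b d f k ∈ W := fun a b d f k =>
    mul_mem (mul_mem (mul_mem (mul_mem (W1 a) (V1 b)) (W2 d)) (V2 f)) (W3 k)
  have real : ∀ a b d f k : K, Φ (c.rot E) (c.rot O) (a, 0) (b, 0) (d, 0) (f, 0) (k, 0) =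
      c.F.u ⟨0, 0, a, b, 0, d, f, 0, k, 0, 0, 0⟩ := fun a b d f k => by
    simp only [Φ, e1, o1, e2, o2, e3, ← map_mul]; congr 1; ext <;> simp
  have Φa : ∀ a b d f k a' b' d' f' k', Φ (c.rot E) (c.rot O) (a + a') (b + b') (d + d') (f + f') (k + k') =
      Φ (c.rot E) (c.rot O) a b d f k * Φ (c.rot E) (c.rot O) a' b' d' f' k' := fun a b d f k a' b' d' f' k' => by
    simp only [Φ, e_add, o_add]
    rw [(cm (mul_mem (mul_mem (mul_mem (W1 a') (V1 b')) (W2 d')) (V2 f')) (W3 k)).symm.mul_mul_mul_comm,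
      (cm (mul_mem (mul_mem (W1 a') (V1 b')) (W2 d')) (V2 f)).symm.mul_mul_mul_comm,
      (cm (mul_mem (W1 a') (V1 b')) (W2 d)).symm.mul_mul_mul_comm, (cm (W1 a') (V1 b)).symm.mul_mul_mul_comm]
  have tΦ : ∀ a b d f k : K × K, c.t * Φ (c.rot E) (c.rot O) a b d f k * c.t =
      c.F.u ⟨0, 0, a.2, b.2, 0, d.2, f.2, 0, k.2, 0, 0, 0⟩ * Φ (c.rot E) (c.rot O) a b d f k := by
    rintro ⟨a, a'⟩ ⟨b, b'⟩ ⟨d, d'⟩ ⟨f, f'⟩ ⟨k, k'⟩
    rw [← real, ← Φa]
    simp only [Φ, inv_mul_conj c.tt, t_e, t_o, Prod.mk_add_mk, add_zero, add_comm]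
  refine
    { e_add := e_add, o_add := o_add, n_e := n_e, n_o := n_o, m_e := m_e, m_o := m_o, t_e := t_e, t_o := t_o
      e1 := e1, e2 := e2, e3 := e3, e4 := e4, o0 := o0, o1 := o1, o2 := o2, o3 := o3
      h_e := c.rot_tor E χe_rot hE.tor
      h_o := c.rot_tor O χo_rot hO.tor
      ee1 := c.rot_comm E E (i := 1) fun w v => cm (W1 w) (W2 v)
      ee2 := c.rot_comm E E (i := 1) fun w v => cm (W1 w) (W3 v)
      oe0 := fun j => by
        simpa only [add_zero] using c.rot_comm O E (i := 1) (k := 0) (fun w v => cm (V1 w) (W1 v)) j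
      oe1 := c.rot_comm O E (i := 1) fun w v => cm (V1 w) (W2 v)
      oe2 := c.rot_comm O E (i := 1) fun w v => cm (V1 w) (W3 v)
      oe7 := c.rot_comm O E (i := 2) fun w v => cm (V2 w) (W1 v)
      oo1 := c.rot_comm O O (i := 1) fun w v => cm (V1 w) (V2 v)
      ind := ?_, mem_W := fun g => ⟨fun hg => ?_, ?_⟩, nC := hV.nC, cY := hV.cY, odd := hV.odd
      cC := fun g hg w => by rw [c.rot_two]; exact hE.cent g hg w
      c15 := fun a w => by rw [c.rot_two]; exact hO.c1 a w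
      c16 := fun a w => by rw [E3, c.rot_two]; exact hE.c16 a w }
  · rintro ⟨a, a'⟩ ⟨b, b'⟩ ⟨d, d'⟩ ⟨f, f'⟩ ⟨k, k'⟩ h
    have h1 := tΦ (a, a') (b, b') (d, d') (f, f') (k, k')
    rw [h, mul_one, c.tt, mul_one, eq_comm, ← map_one c.F.u, c.inj.eq_iff] at h1
    obtain rfl : a' = 0 := congrArg SG.u2 h1
    obtain rfl : b' = 0 := congrArg SG.a3 h1
    obtain rfl : d' = 0 := congrArg SG.u4 h1
    obtain rfl : f' = 0 := congrArg SG.a5 h1
    obtain rfl : k' = 0 := congrArg SG.u6 h1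
    rw [real, ← map_one c.F.u, c.inj.eq_iff] at h
    obtain rfl : a = 0 := congrArg SG.u2 h
    obtain rfl : b = 0 := congrArg SG.a3 h
    obtain rfl : d = 0 := congrArg SG.u4 h
    obtain rfl : f = 0 := congrArg SG.a5 h
    obtain rfl : k = 0 := congrArg SG.u6 h
    exact ⟨rfl, rfl, rfl, rfl, rfl⟩
  · obtain ⟨p, hp, e⟩ := hV.del g hg
    set x := Φ (c.rot E) (c.rot O) (0, p.u2) (0, p.a3) (0, p.u4) (0, p.a5) (0, p.u6) with hx
    have hxW : x ∈ W := ΦW ..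
    have pp : c.F.u p * c.F.u p = 1 := by rw [← map_mul, V_sq hp, map_one]
    have pW : c.F.u p ∈ W := hV.V_le ⟨p, hp, rfl⟩
    have tx : c.t * x * c.t = c.F.u p * x := by rw [hx, tΦ, ← eq_of_mem_Vs p hp]
    have tg : c.t * g * c.t = c.F.u p * g := by
      rw [c.t_conj, ← e]; exact congrArg (· * g) (inv_eq_of_mul_eq_one_right pp)
    obtain ⟨r, hr, e'⟩ := hV.ker (g * x) (mul_mem hg hxW) (by
      rw [c.δ_eq_one, mem_c1]
      have : c.t * (g * x) * c.t = g * x := by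
        rw [inv_mul_conj c.tt, tx, tg, (cm pW hg).eq, mul_assoc, ← mul_assoc _ _ x, pp, one_mul]
      rw [← this, mul_assoc, c.tt, mul_one, this])
    refine ⟨(r.u2, 0) + (0, p.u2), (r.a3, 0) + (0, p.a3), (r.u4, 0) + (0, p.u4), (r.a5, 0) + (0, p.a5),
      (r.u6, 0) + (0, p.u6), ?_⟩
    rw [Φa, real, ← eq_of_mem_Vs r hr, ← hx, show c.F.u r = g * x from e', mul_assoc, hV.el x hxW, mul_one]
  · rintro ⟨a, b, d, f, k, rfl⟩
    exact ΦW ..

end Cfsg.Agent.DF
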