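import Mathlib
import Cfsg.Agent.DF.Kit
import Cfsg.Agent.DF.PK

set_option autoImplicit false
set_option linter.unusedSectionVars false

namespace Cfsg.Agent.DF

open Cfsg.Agent.Og Cfsg.Agent.Og.SG Cfsg.Agent.Loc.Mss Subgroup
open scoped commutatorElement

variable {K : Type*} [Field K] [CharP K 2] [Finite K] {s : Sg K} {G : Type*} [Group G] [Finite G]
  {c : Cfg s G}

variable {e o : Fin 8 → K × K → G}

/-- The subgroup generated by the first components of the even hats. -/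
def L1 (e : Fin 8 → K × K → G) : Subgroup G := closure {g | ∃ j a, g = e j (a, 0)}

namespace ProdA

theorem e_mem (j : Fin 8) (a : K) : e j (a, 0) ∈ L1 e := subset_closure ⟨j, a, rfl⟩

variable (h : Sp c (φP s) e o)
include h

theorem ee3_zero (j : Fin 8) {w v : K × K} (h1 : v * φP s w = 0) (h2 : w * v = 0) (h3 : w * φP s v = 0) :
    Commute (e j w) (e (j + 3) v) := by
  rw [← commutatorElement_eq_one_iff_commute, h.ee3, h1, h2, h3, zero_of_add (h.e_add _), zero_of_add (h.e_add _),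
    zero_of_add (h.o_add _)]
  simp

theorem ab3 (j : Fin 8) (a b : K) : Commute (e j (a, 0)) (e (j + 3) (0, b)) :=
  ee3_zero h j (by simp [φP]) (by simp) (by simp [φP])

theorem ba3 (j : Fin 8) (a b : K) : Commute (e j (0, b)) (e (j + 3) (a, 0)) :=
  ee3_zero h j (by simp [φP]) (by simp) (by simp [φP])

theorem ab4 (j : Fin 8) (a b : K) : Commute (e (j + 2) (a, 0)) (e (j + 6) (0, b)) := by
  have e1 := h.oe3 j (a, 0) (1, 0)
  have e2 := h.eo2 (j + 6) (0, b) (a, 0)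
  have e3 := ab3 h (j + 3) 1 b
  rw [(by decide : ∀ j : Fin 8, j + 6 + 2 = j) j, show ((0, b) * (a, 0) : K × K) = 0 by simp,
    zero_of_add (h.e_add _), commutatorElement_eq_one_iff_commute] at e2
  rw [(by decide : ∀ j : Fin 8, j + 3 + 3 = j + 6) j] at e3
  rw [show ((a, 0) * (1, 0) : K × K) = (a, 0) by simp] at e1
  rw [← e1, commutatorElement_def]
  exact ((e2.symm.mul_left e3).mul_left e2.symm.inv_left).mul_left e3.inv_left

theorem ab (i j : Fin 8) (a b : K) : Commute (e i (a, 0)) (e j (0, b)) := by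
  have : j = i ∨ j = i + 1 ∨ j = i + 2 ∨ j = i + 3 ∨ (i = i + 6 + 2 ∧ j = i + 6 + 6) ∨ i = j + 3 ∨ i = j + 2 ∨
      i = j + 1 := by revert i j; decide
  rcases this with rfl | rfl | rfl | rfl | ⟨h1, h2⟩ | rfl | rfl | rfl
  · exact comm_of_add (h.e_add _) _ _
  · exact h.ee1 _ _ _
  · exact h.ee2 _ _ _
  · exact ab3 h _ _ _
  · have := ab4 h (i + 6) a b
    rwa [← h1, ← h2] at this
  · exact (ba3 h _ _ _).symm
  · exact (h.ee2 _ _ _).symm
  · exact (h.ee1 _ _ _).symm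

theorem o_mem (j : Fin 8) (a : K) : o j (a, 0) ∈ L1 e := by
  have e1 := h.ee3 (j + 7) (a, 0) (1, 0)
  rw [(by decide : ∀ j : Fin 8, j + 7 + 1 = j) j, show ((1, 0) * φP s (a, 0) : K × K) = (s.σ a, 0) by simp [φP],
    show ((a, 0) * (1, 0) : K × K) = (a, 0) by simp,
    show ((a, 0) * φP s (1, 0) : K × K) = (a, 0) by simp [φP]] at e1
  have m : ⁅e (j + 7) (a, 0), e (j + 7 + 3) (1, 0)⁆ ∈ L1 e :=
    mul_mem (mul_mem (mul_mem (e_mem _ _) (e_mem _ _)) (inv_mem (e_mem _ _))) (inv_mem (e_mem _ _))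
  rw [e1] at m
  simpa [mul_assoc] using mul_mem (mul_mem (inv_mem (e_mem j (s.σ a))) m) (inv_mem (e_mem (j + 7 + 2) a))

end ProdA

open ProdA

theorem Sp.comm_L1 (h : Sp c (φP s) e o) : ∀ x ∈ L1 e, ∀ y ∈ L1 e, Commute x (c.t * y * c.t) := by
  intro x hx y hy
  induction hx using closure_induction with
  | mem x hx =>
    obtain ⟨i, a, rfl⟩ := hx
    induction hy using closure_induction with
    | mem y hy =>
      obtain ⟨j, b, rfl⟩ := hy
      rw [h.t_e]; exact ab h i j a b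
    | one => rw [mul_one, c.tt]; exact Commute.one_right _
    | mul y z _ _ h1 h2 => rw [inv_mul_conj c.tt]; exact h1.mul_right h2
    | inv y _ h1 =>
      have : c.t * y⁻¹ * c.t = (c.t * y * c.t)⁻¹ := by simp [mul_assoc, c.t_inv]
      rw [this]; exact h1.inv_right
  | one => exact Commute.one_left _
  | mul x z _ _ h1 h2 => exact h1.mul_left h2
  | inv x _ h1 => exact h1.inv_left

theorem Sp.perf_L1 (h : Sp c (φP s) e o) : L1 e ≤ ⁅L1 e, L1 e⁆ := by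
  refine (closure_le _).2 ?_
  rintro _ ⟨j, a, rfl⟩
  have e1 := h.oe3 (j + 6) (a, 0) (1, 0)
  rw [(by decide : ∀ j : Fin 8, j + 6 + 2 = j) j, show ((a, 0) * (1, 0) : K × K) = (a, 0) by simp] at e1
  rw [← e1]
  exact commutator_mem_commutator (o_mem h _ _) (e_mem _ _)

namespace ProdA

variable (h : Sp c (φP s) e o)
include h

theorem dg_mul {x y : G} (hx : x ∈ L1 e) (hy : y ∈ L1 e) :
    x * y * (c.t * (x * y) * c.t) = x * (c.t * x * c.t) * (y * (c.t * y * c.t)) := by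
  rw [inv_mul_conj c.tt]
  have := (h.comm_L1 y hy x hx).eq
  calc _ = x * (y * (c.t * x * c.t)) * (c.t * y * c.t) := by simp only [mul_assoc]
    _ = _ := by rw [this]; simp only [mul_assoc]

theorem dg_inv {x : G} (hx : x ∈ L1 e) : x⁻¹ * (c.t * x⁻¹ * c.t) = (x * (c.t * x * c.t))⁻¹ := by
  rw [(h.comm_L1 x hx x hx).eq]; simp [mul_assoc, c.t_inv]

/-- The diagonal subgroup. -/
def Dg : Subgroup G where
  carrier := {g | ∃ x ∈ L1 e, g = x * (c.t * x * c.t)}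
  one_mem' := ⟨1, one_mem _, by simp [c.tt]⟩
  mul_mem' := by
    rintro _ _ ⟨x, hx, rfl⟩ ⟨y, hy, rfl⟩
    exact ⟨x * y, mul_mem hx hy, (dg_mul h hx hy).symm⟩
  inv_mem' := by
    rintro _ ⟨x, hx, rfl⟩
    exact ⟨x⁻¹, inv_mem hx, (dg_inv h hx).symm⟩

theorem e_dg (j : Fin 8) (a : K) : e j (a, 0) * (c.t * e j (a, 0) * c.t) = e j (a, a) := by
  rw [h.t_e, ← h.e_add]; simp

theorem e_G0 (a : K) (j : Fin 8) : e j (a, a) ∈ c.F.G0 := by
  refine rot_ind' (P := fun j => e j (a, a) ∈ c.F.G0) (i := 2) (fun j hj => ?_) (h.e2 a ▸ c.F.u_mem_G0 _) j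
  have := mul_mem (mul_mem c.F.m_mem_G0 (mul_mem (mul_mem c.F.n_mem_G0 hj) c.F.n_mem_G0)) c.F.m_mem_G0
  rwa [h.n_e, h.m_e, (by decide : ∀ j : Fin 8, 5 - (4 - j) = j + 1) j] at this

theorem Dg_le : Dg h ≤ c.F.G0 := by
  rintro _ ⟨x, hx, rfl⟩
  induction hx using closure_induction with
  | mem x hx => obtain ⟨j, a, rfl⟩ := hx; rw [e_dg h]; exact e_G0 h a j
  | one => simp [c.tt]
  | mul x y hx hy h1 h2 => rw [dg_mul h hx hy]; exact mul_mem h1 h2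
  | inv x hx h1 => rw [dg_inv h hx]; exact inv_mem h1

theorem norm_Dg {g : G} (hg : g ∈ c.F.G0) (h2 : g * g = 1) {f : Fin 8 → Fin 8}
    (hf : ∀ j w, g * e j w * g = e (f j) w) : g ∈ 𝐍[Dg h] := by
  have gi : g⁻¹ = g := inv_eq_of_mul_eq_one_right h2
  have hL : cj(g, L1 e) ≤ L1 e := by
    rw [map_le_iff_le_comap]
    refine (closure_le _).2 ?_
    rintro _ ⟨j, a, rfl⟩
    show g * e j (a, 0) * g⁻¹ ∈ L1 e
    rw [gi, hf]; exact e_mem _ _
  refine mem_norm_of_cj_le (cj_le_iff.2 ?_)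
  rintro _ ⟨x, hx, rfl⟩
  refine ⟨g * x * g⁻¹, cj_le_iff.1 hL x hx, ?_⟩
  have e1 : c.t = g * c.t * g⁻¹ := by rw [← c.cen g hg, mul_inv_cancel_right]
  conv_rhs => rw [e1]
  group

theorem S_le : c.F.lt.S ≤ Dg h := by
  let M : Subgroup (SG s) := (Dg h).comap c.F.u
  have hn : ∀ p ∈ Qs s, p ∈ M → nu p ∈ M := fun p hp hm => by
    have := conj_mem_of_norm (norm_Dg h c.F.n_mem_G0 c.nn h.n_e) hm
    rwa [inv_eq_of_mul_eq_one_right c.nn, c.n_u hp] at this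
  have hm : ∀ p ∈ Rs s, p ∈ M → mu p ∈ M := fun p hp hm => by
    have := conj_mem_of_norm (norm_Dg h c.F.m_mem_G0 c.mm h.m_e) hm
    rwa [inv_eq_of_mul_eq_one_right c.mm, c.m_u hp] at this
  have v4 : ∀ a, (w4 0 a : SG s) ∈ M := fun a => ⟨_, e_mem 2 a, by rw [e_dg h, h.e2]⟩
  have h5 : ∀ a, (x5 a : SG s) ∈ M := fun a => ⟨_, o_mem h 2 a, by rw [h.t_o, ← h.o_add, ← h.o2]; simp⟩
  have v6 : ∀ a, (w6 0 a : SG s) ∈ M := fun a => by convert hm _ (by simp) (v4 a) using 1; ext <;> simp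
  have v2 : ∀ a, (w2 0 a : SG s) ∈ M := fun a => by convert hn _ (by simp) (v6 a) using 1; ext <;> simp
  have v8 : ∀ a, (w8 0 a : SG s) ∈ M := fun a => by convert hm _ (by simp) (v2 a) using 1; ext <;> simp
  have h3 : ∀ a, (x3 a : SG s) ∈ M := fun a => by convert hn _ (by simp) (h5 a) using 1; ext <;> simp
  have h7 : ∀ a, (x7 a : SG s) ∈ M := fun a => by convert hm _ (by simp) (h3 a) using 1; ext <;> simp
  have h1 : ∀ a, (x1 a : SG s) ∈ M := fun a => by convert hn _ (by simp) (h7 a) using 1; ext <;> simp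
  have all : ∀ p : SG s, w2 p.a2 p.u2 ∈ M → w4 p.a4 p.u4 ∈ M → w6 p.a6 p.u6 ∈ M → w8 p.a8 p.u8 ∈ M → p ∈ M :=
    fun p k2 k4 k6 k8 => by
      have : x1 p.a1 * w2 p.a2 p.u2 * x3 p.a3 * w4 p.a4 p.u4 * x5 p.a5 * w6 p.a6 p.u6 * x7 p.a7 * w8 p.a8 p.u8 ∈ M :=
        M.mul_mem (M.mul_mem (M.mul_mem (M.mul_mem (M.mul_mem (M.mul_mem (M.mul_mem (h1 _) k2)
        (h3 _)) k4) (h5 _)) k6) (h7 _)) k8
      rwa [← nf p] at this
  have low : ∀ p : SG s, p.a2 = 0 → p.a4 = 0 → p.a6 = 0 → p.a8 = 0 → p ∈ M := fun p k2 k4 k6 k8 =>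
    all p (k2 ▸ v2 _) (k4 ▸ v4 _) (k6 ▸ v6 _) (k8 ▸ v8 _)
  obtain ⟨a, -, -, -, ha⟩ := exists_ne (s := s) c.big
  have ha' : s.σ a + a ≠ 0 := fun e => ha (CharTwo.add_eq_zero.1 e)
  have kk : ∀ u a : K, ∃ p ∈ M, p.a1 = 0 ∧ p.a2 = 0 ∧ p.a8 = 0 ∧ p.a4 = u * s.σ a ∧ p.a6 = u * a := fun u a =>
    ⟨x1 a * (w8 0 u * x1 a), mul_mem (h1 _) (mul_mem (v8 _) (h1 _)), by simp [CharTwo.add_self_eq_zero], by simp,
      by simp, by simp, by simp⟩
  have h6 : ∀ d v, (w6 d v : SG s) ∈ M := fun d v => by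
    obtain ⟨u, rfl⟩ : ∃ u, d = u * (s.σ a + a) := ⟨d / (s.σ a + a), by field_simp⟩
    obtain ⟨p, hp, p1, p2, p8, p4, p6⟩ := kk (u * s.σ a) 1
    obtain ⟨r, hr, r1, r2, r8, r4, r6⟩ := kk u a
    have k2 := low (w6 (u * (s.σ a + a)) v * (p * r)⁻¹) (by simp [p1, p2, p8, r1, r2, r8])
      (by simp [p1, p2, p8, r1, r2, r8, p4, r4, CharTwo.add_self_eq_zero])
      (by simp only [mul_a6, inv_a6, mul_a1, mul_a2, p1, p2, p8, r1, r2, p6, r6]; simp; grind)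
      (by simp [p8, r8])
    have := mul_mem k2 (mul_mem hp hr)
    rwa [inv_mul_cancel_right] at this
  have h2 : ∀ a v, (w2 a v : SG s) ∈ M := fun a v => by convert hn _ (by simp) (h6 a v) using 1; ext <;> simp
  have h4 : ∀ a v, (w4 a v : SG s) ∈ M := fun a v => by convert hm _ (by simp) (h6 a v) using 1; ext <;> simp
  have h8 : ∀ a v, (w8 a v : SG s) ∈ M := fun a v => by convert hm _ (by simp) (h2 a v) using 1; ext <;> simp
  rintro _ ⟨p, rfl⟩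
  exact all p (h2 _ _) (h4 _ _) (h6 _ _) (h8 _ _)

end ProdA

theorem Sp.diag_L1 (h : Sp c (φP s) e o) (g : G) : g ∈ c.F.G0 ↔ ∃ x ∈ L1 e, g = x * (c.t * x * c.t) := by
  refine ⟨fun hg => (?_ : c.F.G0 ≤ Dg h) hg, fun hg => Dg_le h hg⟩
  have hC : c.F.lt.C ≤ Dg h := by
    rw [c.rf.rc.C_eq]
    exact sup_le (S_le h) (cj_le_of_norm (S_le h) (norm_Dg h c.F.n_mem_G0 c.nn h.n_e))
  rw [c.rf.toRF0.G0_eq]
  exact sup_le hC (cj_le_of_norm hC (norm_Dg h c.F.m_mem_G0 c.mm h.m_e))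

end Cfsg.Agent.DF
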