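import Mathlib
import Cfsg.Agent.DF.Kit
import Cfsg.Agent.DF.ProdA
import Cfsg.Agent.DF.OfHom

/-! The wreath case: the group generated by the hats is `L × L`, the factors being swapped by `t`. -/

set_option autoImplicit false
set_option linter.unusedSectionVars false

namespace Cfsg.Agent.DF

open Cfsg.Agent.Og Cfsg.Agent.Og.SG Cfsg.Agent.Loc.Mss Subgroup
open scoped commutatorElement

variable {K : Type*} [Field K] [CharP K 2] [Finite K] {s : Sg K} {G : Type*} [Group G] [Finite G]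
  {c : Cfg s G}

variable {e o : Fin 8 → K × K → G}

namespace ProdX

/-- A copy of `L` commuting with its conjugate under `t`. -/
theorem exists_iota (h : Sp c (φP s) e o)
    (hM : ∀ (M : Subgroup G) (ψ : M →* G), ψ.range = c.F.G0 → ψ.ker ≤ center M → ψ.ker ≤ commutator M →
      Function.Injective ψ) :
    ∃ ι : c.F.G0 →* G, Function.Injective ι ∧ ∀ a b, Commute (ι a) (c.t * ι b * c.t) := by
  have sp : ∀ x y : G, c.t * (x * y) * c.t = (c.t * x * c.t) * (c.t * y * c.t) := fun x y => by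
    rw [show c.t * x * c.t * (c.t * y * c.t) = c.t * x * (c.t * c.t) * y * c.t by group, c.tt]; group
  let π : L1 e →* G := MonoidHom.mk' (fun x => (x : G) * (c.t * x * c.t)) fun x y => by
    have := (h.comm_L1 _ y.2 _ x.2).eq
    rw [Subgroup.coe_mul, sp]
    calc (x : G) * y * (c.t * x * c.t * (c.t * y * c.t)) = x * (y * (c.t * x * c.t)) * (c.t * y * c.t) := by group
      _ = _ := by rw [this]; group
  have hr : π.range = c.F.G0 := by
    ext g
    rw [h.diag_L1]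
    exact ⟨fun ⟨x, hx⟩ => ⟨x, x.2, hx.symm⟩, fun ⟨x, hx, e⟩ => ⟨⟨x, hx⟩, e.symm⟩⟩
  have hz : π.ker ≤ center (L1 e) := fun x hx => mem_center_iff.2 fun y => Subtype.ext <| by
    have e1 : (x : G) * (c.t * x * c.t) = 1 := hx
    have e2 : Commute (y : G) (c.t * x * c.t)⁻¹ := (h.comm_L1 _ y.2 _ x.2).inv_right
    rw [← eq_inv_of_mul_eq_one_left e1] at e2
    exact e2.eq
  have hp : commutator (L1 e) = ⊤ := by
    rw [eq_top_iff]
    intro x _
    have := h.perf_L1 x.2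
    rw [← Subgroup.map_subtype_commutator] at this
    obtain ⟨y, hy, e⟩ := this
    rwa [← Subtype.ext e]
  have hi := hM _ π hr hz (hp ▸ le_top)
  let φ : L1 e ≃* c.F.G0 := (MonoidHom.ofInjective hi).trans (MulEquiv.subgroupCongr hr)
  exact ⟨(L1 e).subtype.comp φ.symm.toMonoidHom, Subtype.val_injective.comp φ.symm.injective,
    fun a b => h.comm_L1 _ (φ.symm a).2 _ (φ.symm b).2⟩

/-- Every involution of `L` is centralized by a `2`-subgroup of order `q ^ 10`. -/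
theorem big1 (c : Cfg s G) (a : c.F.G0) (h2 : a * a = 1) :
    ∃ P : Subgroup c.F.G0, IsPGroup 2 P ∧ (∀ y ∈ P, y * a = a * y) ∧ Nat.card P = Nat.card K ^ 10 := by
  have hT : c.F.lt.im (T3s s) ≤ c.F.G0 := (c.F.lt.im_le_C _).trans c.F.C_le_G0
  have key : ∃ g ∈ c.F.G0, ∀ y ∈ c.F.lt.im (T3s s), y * (g * a * g⁻¹) = g * a * g⁻¹ * y := by
    by_cases h1 : (a : G) = 1
    · exact ⟨1, one_mem _, fun y _ => by simp [h1]⟩
    obtain ⟨g, hg, e | e⟩ := c.rf.classes c.inj a.2 (congrArg Subtype.val h2) h1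
    · exact ⟨g, hg, fun y hy => by rw [e]; exact mem_c1.1 (c.rf.rc.C_le_cent_τ (c.F.lt.im_le_C _ hy))⟩
    · refine ⟨g, hg, fun y hy => ?_⟩
      rw [← c.oc.cent3] at hy
      rw [e]; exact mem_c1.1 hy.2
  obtain ⟨g, hg, e⟩ := key
  let g' : c.F.G0 := ⟨g, hg⟩
  refine ⟨((c.F.lt.im (T3s s)).subgroupOf c.F.G0).map (MulAut.conj g'⁻¹).toMonoidHom, IsPGroup.map ?_ _, ?_, ?_⟩
  · exact (c.rf.rc.pg_S.to_le (c.F.lt.im_le_S _)).comap_subtype
  · rintro _ ⟨y, hy, rfl⟩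
    apply Subtype.ext
    have := e y hy
    change g⁻¹ * y * g⁻¹⁻¹ * a = a * (g⁻¹ * y * g⁻¹⁻¹)
    calc g⁻¹ * y * g⁻¹⁻¹ * a = g⁻¹ * (y * (g * a * g⁻¹)) * g := by group
      _ = _ := by rw [this]; group
  · rw [Subgroup.card_map_of_injective (MulAut.conj g'⁻¹).injective,
      Nat.card_congr (subgroupOfEquivOfLe hT).toEquiv, c.oc.card_im, card_T3s]

theorem pg_prod {A B : Type*} [Group A] [Group B] {P : Subgroup A} {Q : Subgroup B} (hP : IsPGroup 2 P)
    (hQ : IsPGroup 2 Q) : IsPGroup 2 (P.prod Q) := fun x => by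
  obtain ⟨k, hk⟩ := hP ⟨x.1.1, x.2.1⟩
  obtain ⟨l, hl⟩ := hQ ⟨x.1.2, x.2.2⟩
  have hk' : x.1.1 ^ 2 ^ k = 1 := congrArg Subtype.val hk
  have hl' : x.1.2 ^ 2 ^ l = 1 := congrArg Subtype.val hl
  refine ⟨k + l, Subtype.ext (Prod.ext ?_ ?_)⟩
  · change x.1.1 ^ 2 ^ (k + l) = 1
    rw [pow_add, pow_mul, hk', one_pow]
  · change x.1.2 ^ 2 ^ (k + l) = 1
    rw [pow_add, mul_comm, pow_mul, hl', one_pow]

end ProdX

theorem Sp.prod (h : Sp c (φP s) e o) (hs : IsSimpleGroup c.F.G0) (hn : ¬ IsMulCommutative c.F.G0)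
    (hM : ∀ (M : Subgroup G) (ψ : M →* G), ψ.range = c.F.G0 → ψ.ker ≤ center M → ψ.ker ≤ commutator M →
      Function.Injective ψ) :
    ∃ G0 U : Subgroup G, Last c G0 U ∧ Nonempty (G0 ≃* c.F.G0 × c.F.G0) := by
  obtain ⟨ι, hi, hc⟩ := ProdX.exists_iota h hM
  have hz : center c.F.G0 = ⊥ := (hs.eq_bot_or_eq_top_of_normal _ inferInstance).resolve_right fun e =>
    hn ⟨⟨fun a b => (mem_center_iff.1 (e ▸ mem_top b) a)⟩⟩
  have hp : commutator c.F.G0 = ⊤ := (hs.eq_bot_or_eq_top_of_normal _ inferInstance).resolve_left fun e =>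
    hn ⟨⟨fun a b => commutatorElement_eq_one_iff_mul_comm.1
      (mem_bot.1 (e ▸ commutator_mem_commutator (mem_top a) (mem_top b)))⟩⟩
  let ι' : c.F.G0 →* G := (MulAut.conj c.t).toMonoidHom.comp ι
  have hι' : ∀ b, ι' b = c.t * ι b * c.t := fun b => by
    change c.t * ι b * c.t⁻¹ = _
    rw [c.t_inv]
  let Ψ : c.F.G0 × c.F.G0 →* G := ι.noncommCoprod ι' fun a b => by rw [hι']; exact hc a b
  have hΨ : ∀ g, Ψ g = ι g.1 * (c.t * ι g.2 * c.t) := fun g => by rw [← hι']; rfl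
  have hj : Function.Injective Ψ := (injective_iff_map_eq_one Ψ).2 fun g hg => by
    rw [hΨ] at hg
    have h1 : g.1 = 1 := by
      rw [← mem_bot, ← hz, mem_center_iff]
      intro y
      have e2 := (hc y g.2).inv_right
      rw [← eq_inv_of_mul_eq_one_left hg] at e2
      exact hi (by rw [map_mul, map_mul, e2.eq])
    rw [h1, map_one, one_mul, ← hι'] at hg
    exact Prod.ext h1 (hi ((MulAut.conj c.t).injective (by simpa [ι'] using hg)))
  have hγ : ∀ g, c.t * Ψ g * c.t = Ψ g.swap := fun g => by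
    rw [hΨ, hΨ, Prod.fst_swap, Prod.snd_swap, (hc g.2 g.1).eq]
    calc c.t * (ι g.1 * (c.t * ι g.2 * c.t)) * c.t = c.t * ι g.1 * c.t * ι g.2 * (c.t * c.t) := by group
      _ = _ := by rw [c.tt, mul_one]
  have hS := c.rf.syl c.inj
  have hS' : Syl 2 (c.F.lt.S.subgroupOf c.F.G0) ⊤ := by simpa using hS.subgroupOf le_rfl
  refine ⟨_, _, Last.of_hom hj hγ (U := (c.F.lt.S.subgroupOf c.F.G0).prod (c.F.lt.S.subgroupOf c.F.G0))
    ⟨le_top, ProdX.pg_prod hS'.pg hS'.pg, ?_⟩ ?_ (fun u hu => ⟨hu.2, hu.1⟩) ?_ ?_ ?_,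
    ⟨(MonoidHom.ofInjective hj).symm⟩⟩
  · have := hS'.nd
    rw [relIndex_top_right] at this ⊢
    rw [index_prod]
    exact fun hd => this ((Nat.prime_two.dvd_mul.1 hd).elim id id)
  · rw [commutator_def, ← top_prod_top, commutator_prod_prod, ← commutator_def, hp]
  · rw [← c.oc.card_S, ← Nat.card_congr (subgroupOfEquivOfLe hS.le).toEquiv]
    exact Nat.card_congr
      { toFun := fun u => ⟨u.1.1, u.2.1.1⟩
        invFun := fun x => ⟨(x.1, x.1), ⟨x.2, x.2⟩, rfl⟩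
        left_inv := fun u => Subtype.ext (Prod.ext rfl (congrArg Prod.snd u.2.2 : u.1.swap.2 = u.1.2))
        right_inv := fun x => rfl }
  · rintro ⟨x, y⟩ hu e
    have e1 : y * x = 1 := congrArg Prod.fst e
    refine ⟨(1, x), ⟨one_mem _, hu.1⟩, Prod.ext (by simp) ?_⟩
    simpa using eq_inv_of_mul_eq_one_left e1
  · rintro ⟨a, b⟩ h2 -
    obtain ⟨P, hP, cP, nP⟩ := ProdX.big1 c a (congrArg Prod.fst h2)
    obtain ⟨Q, hQ, cQ, nQ⟩ := ProdX.big1 c b (congrArg Prod.snd h2)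
    refine ⟨P.prod Q, ProdX.pg_prod hP hQ, fun y hy =>
      mem_centralizer_singleton_iff.2 (Prod.ext (cP _ hy.1) (cQ _ hy.2)), ?_⟩
    rw [Nat.card_congr (prodEquiv P Q).toEquiv, Nat.card_prod, nP, nQ, ← pow_add]
    exact Nat.pow_le_pow_right Nat.card_pos (by norm_num)

end Cfsg.Agent.DF
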