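import Mathlib
import Cfsg.Agent.DF.PK

/-! The hat of `U₅`: the centralizer of a torus element in the hat of `V`. -/

set_option autoImplicit false
set_option linter.unusedSectionVars false

namespace Cfsg.Agent.DF

open Cfsg.Agent.Og Cfsg.Agent.Og.SG Cfsg.Agent.Loc.Mss Subgroup
open scoped commutatorElement

variable {K : Type*} [Field K] [CharP K 2] [Finite K] {s : Sg K} {G : Type*} [Group G] [Finite G] {c : Cfg s G}

namespace U5

theorem zero_of {χ a : K} (h : χ ≠ 1) (e : χ * a = a) : a = 0 := by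
  have : (χ - 1) * a = 0 := by linear_combination e
  exact (mul_eq_zero.1 this).resolve_left (sub_ne_zero.2 h)

theorem solve {χ : K} (h : χ ≠ 1) (y : K) : ∃ x, y + χ * x = x :=
  ⟨y / (1 - χ), by have := sub_ne_zero.2 h.symm; field_simp; ring⟩

/-- The weights of the torus element `(β⁻², β)`. -/
structure Wt (s : Sg K) (α β : K) : Prop where
  a1 : α ≠ 1
  a2 : α * β ≠ 1
  u2 : α * s.σ α * β * s.σ β ≠ 1
  a3 : α * s.σ α * β ^ 2 * s.σ β ≠ 1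
  a4 : s.σ α * β * s.σ β ≠ 1
  u4 : α ^ 2 * s.σ α * β ^ 3 * s.σ β ^ 2 ≠ 1
  a5 : α * s.σ α * β ^ 2 * s.σ β ^ 2 = 1
  a6 : α * β * s.σ β ≠ 1
  u6 : α * s.σ α * β ^ 3 * s.σ β ^ 2 ≠ 1
  a7 : α * β ^ 2 * s.σ β ≠ 1
  a8 : β ≠ 1
  u8 : β * s.σ β ≠ 1

theorem wt {α β : Kˣ} (h : α * β ^ 2 = 1) (h1 : β ≠ 1) : Wt s (α : K) (β : K) := by
  have e : (α : K) * β ^ 2 = 1 := by simpa using congrArg Units.val h
  have e' : s.σ α * s.σ β ^ 2 = 1 := by simpa using congrArg s.σ e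
  have b1 : (β : K) ≠ 1 := fun e => h1 (Units.ext e)
  have b2 : s.σ β ≠ β := σ_ne h1
  have b3 : s.σ β ≠ 1 := fun e => b1 (s.σ_inj (by rw [e, map_one]))
  have b4 : (β : K) * s.σ β ≠ 1 := fun e => h1 (s.eq_one_of_wt' 1 1 (by norm_num) (by simpa using e))
  have b5 : (β : K) ^ 2 ≠ 1 := fun e => h1 (Sg.eq_one_of_sq (Units.ext (by simpa using e)))
  refine ⟨fun x => b5 ?_, fun x => b1 ?_, fun x => b4 ?_, fun x => b3 ?_, fun x => b2 ?_, fun x => b1 ?_, ?_,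
    fun x => b2 ?_, fun x => b1 ?_, fun x => b3 ?_, b1, b4⟩
  · linear_combination e - (β : K) ^ 2 * x
  · linear_combination e - (β : K) * x
  · linear_combination s.σ α * s.σ β ^ 2 * e + e' - (β : K) * s.σ β * x
  · linear_combination s.σ α * s.σ β ^ 2 * e + e' - s.σ β * x
  · linear_combination (β : K) * e' - s.σ β * x
  · linear_combination s.σ α * s.σ β ^ 2 * ((α : K) * β ^ 2 + 1) * e + e' - (β : K) * x
  · linear_combination s.σ α * s.σ β ^ 2 * e + e'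
  · linear_combination (β : K) * x - s.σ β * e
  · linear_combination x - (β : K) * (s.σ α * s.σ β ^ 2) * e - (β : K) * e'
  · linear_combination x - s.σ β * e

theorem fix5 {α β : K} (h : Wt s α β) {p : SG s} (hp : p.a1 = 0) (e : dl α β p = p) : p = x5 p.a5 := by
  have a2 := zero_of h.a2 (congrArg SG.a2 e)
  have u2 := zero_of h.u2 (congrArg SG.u2 e)
  have a3 := zero_of h.a3 (congrArg SG.a3 e)
  have a4 := zero_of h.a4 (congrArg SG.a4 e)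
  have u4 := zero_of h.u4 (congrArg SG.u4 e)
  have a6 := zero_of h.a6 (congrArg SG.a6 e)
  have u6 := zero_of h.u6 (congrArg SG.u6 e)
  have a7 := zero_of h.a7 (congrArg SG.a7 e)
  have a8 := zero_of h.a8 (congrArg SG.a8 e)
  have u8 := zero_of h.u8 (congrArg SG.u8 e)
  ext <;> simp [*]

theorem dl_x5 {α β : K} (h : Wt s α β) (a : K) : dl α β (x5 a : SG s) = x5 a := by
  ext <;> simp [h.a5]

theorem solveV {α β : K} (h : Wt s α β) {p : SG s} (hp : p ∈ Vs s) :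
    ∃ r ∈ Vs s, p * dl α β r = r * x5 p.a5 := by
  obtain ⟨x2, e2⟩ := solve h.u2 p.u2
  obtain ⟨x3, e3⟩ := solve h.a3 p.a3
  obtain ⟨x4, e4⟩ := solve h.u4 p.u4
  obtain ⟨x6, e6⟩ := solve h.u6 p.u6
  obtain ⟨h1, h2, h4, h6, h7, h8, h9⟩ := hp
  refine ⟨⟨0, 0, x2, x3, 0, x4, 0, 0, x6, 0, 0, 0⟩, by simp, ?_⟩
  ext <;> simp [*]

theorem x5_add (a b : K) : (x5 (a + b) : SG s) = x5 a * x5 b := by ext <;> simp

theorem x1_add (a b : K) : (x1 (a + b) : SG s) = x1 a * x1 b := by ext <;> simp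

theorem x1_x5 (a b : K) : (x1 a * x5 b : SG s) = x5 b * x1 a := by ext <;> simp

theorem x5_sq (a : K) : c.F.u (x5 a) * c.F.u (x5 a) = 1 := by
  rw [← map_mul, V_sq (by simp), map_one]

theorem m_x5 (a : K) : c.F.m * c.F.u (x5 a) * c.F.m = c.F.u (x5 a) := by
  rw [c.m_u (by simp)]; congr 1; ext <;> simp

theorem m_inv : c.F.m⁻¹ = c.F.m := inv_eq_of_mul_eq_one_right c.mm

theorem mmm (g : G) : c.F.m * (c.F.m * g * c.F.m) * c.F.m = g := by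
  rw [show c.F.m * (c.F.m * g * c.F.m) * c.F.m = (c.F.m * c.F.m) * g * (c.F.m * c.F.m) by group, c.mm]; group

theorem comm_m {a b : G} (h : Commute a (c.F.m * b * c.F.m)) : Commute (c.F.m * a * c.F.m) b := by
  have := commute_conj c.mm h
  rwa [mmm] at this

theorem odd_t (x : Kˣ × Kˣ) : Odd (orderOf (c.F.t x)) := by
  have h : Odd (Nat.card (Kˣ × Kˣ)) := by
    rw [Nat.card_prod]; exact (Sg.odd_card_units (K := K)).mul (Sg.odd_card_units (K := K))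
  exact h.of_dvd_nat ((orderOf_map_dvd _ x).trans (orderOf_dvd_natCard x))

variable {E : K × K → G} {W : Subgroup G}

theorem cmW (hV : HV c E W) {a b : G} (ha : a ∈ W) (hb : b ∈ W) : Commute a b := by
  have h1 := inv_eq_of_mul_eq_one_right (hV.el _ (mul_mem ha hb))
  rw [mul_inv_rev, inv_eq_of_mul_eq_one_right (hV.el a ha), inv_eq_of_mul_eq_one_right (hV.el b hb)] at h1
  exact h1.symm

theorem uW (hV : HV c E W) {p : SG s} (hp : p ∈ Vs s) : c.F.u p ∈ W := hV.V_le (Lt.u_mem_im hp)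

theorem δW (hV : HV c E W) {a : G} (ha : a ∈ W) (b : G) (hb : c.δ b ∈ W) : c.δ (a * b) = c.δ b * c.δ a := by
  rw [c.δ_mul, (cmW hV ha hb).eq, mul_inv_cancel_right]

theorem cYW (hV : HV c E W) {a : G} (ha : a ∈ W) {p : SG s} (hp : p ∈ Ys s) : Commute a (c.F.u p) :=
  mem_cent.1 (hV.cY (Lt.u_mem_im hp)) a ha

variable {α β : Kˣ}

theorem fixu (h : Wt s (α : K) (β : K)) {p : SG s} (hp : p.a1 = 0) (e : Commute (c.F.u p) (c.F.t (α, β))) :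
    c.F.u p = c.F.u (x5 p.a5) := by
  refine congrArg _ (fix5 h hp (c.inj ?_))
  rw [← c.rf.tu, ← e.eq, mul_inv_cancel_right]

theorem x5_t (h : Wt s (α : K) (β : K)) (a : K) : Commute (c.F.u (x5 a)) (c.F.t (α, β)) := by
  have := c.rf.tu α β (x5 a)
  rw [dl_x5 h] at this
  exact (mul_inv_eq_iff_eq_mul.1 this).symm

theorem δA (hV : HV c E W) (h : Wt s (α : K) (β : K)) {d : G} (hd : d ∈ W ⊓ 𝐂₁[c.F.t (α, β)]) :
    ∃ a, c.δ d = c.F.u (x5 a) := by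
  obtain ⟨hW, hc⟩ := mem_inf.1 hd
  obtain ⟨p, hp, e⟩ := hV.del d hW
  have e' : c.F.u p = c.δ d := e
  have h1 := c.δ_conj (c.L_le (c.F.t_mem_G0 (α, β))) d
  rw [← mem_c1.1 hc, mul_inv_cancel_right, ← e'] at h1
  exact ⟨p.a5, by rw [← e']; exact fixu h hp.1 (eq_mul_inv_iff_mul_eq.1 h1)⟩

theorem t_of_δ (hV : HV c E W) {d : G} (hd : d ∈ W) {a : K} (e : c.δ d = c.F.u (x5 a)) :
    c.t * d * c.t = d * c.F.u (x5 a) := by
  rw [c.t_conj, e, inv_eq_of_mul_eq_one_right (x5_sq a), (cmW hV hd (uW hV (by simp))).eq]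

theorem onto (hV : HV c E W) (h : Wt s (α : K) (β : K)) (a : K) :
    ∃ d ∈ W ⊓ 𝐂₁[c.F.t (α, β)], c.δ d = c.F.u (x5 a) := by
  obtain ⟨w, hw, e⟩ := hV.onto (c.F.u (x5 a)) (Lt.u_mem_im (by simp))
  have hw' : c.F.t (α, β) * w * (c.F.t (α, β))⁻¹ ∈ W := conj_mem_of_norm (hV.nH (c.F.t_mem_H _)) hw
  have e' : c.δ (c.F.t (α, β) * w * (c.F.t (α, β))⁻¹) = c.F.u (x5 a) := by
    rw [c.δ_conj (c.L_le (c.F.t_mem_G0 _)), e, ← (x5_t h a).eq, mul_inv_cancel_right]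
  obtain ⟨p, hp, ep⟩ := hV.ker _ (mul_mem hw hw')
    (by rw [δW hV hw _ (by rw [e']; exact uW hV (by simp)), e, e', x5_sq])
  have ep' : c.F.t (α, β) * w * (c.F.t (α, β))⁻¹ = w * c.F.u p := by
    rw [show c.F.u p = _ from ep, ← mul_assoc, hV.el w hw, one_mul]
  obtain ⟨r, hr, er⟩ := solveV h hp
  have hδ : c.δ (c.F.u r) = 1 := c.δ_eq_one.2 (c.L_le (c.F.u_mem_G0 r))
  refine ⟨w * c.F.u r, mem_inf.2 ⟨mul_mem hw (uW hV hr), mem_c1.2 ?_⟩, ?_⟩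
  · refine (fix_of_odd (odd_t (α, β)) (x := c.F.u (x5 p.a5)) ?_ (x5_t h _).symm.eq (x5_sq _)).symm
    rw [show c.F.t (α, β) * (w * c.F.u r) * (c.F.t (α, β))⁻¹ = c.F.t (α, β) * w * (c.F.t (α, β))⁻¹ *
      (c.F.t (α, β) * c.F.u r * (c.F.t (α, β))⁻¹) by group, ep', c.rf.tu, mul_assoc, mul_assoc, ← map_mul,
      ← map_mul, er]
  · rw [δW hV hw _ (by rw [hδ]; exact one_mem _), hδ, one_mul, e]

theorem exists_coord (hV : HV c E W) (h : Wt s (α : K) (β : K)) :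
    ∃ O : K × K → G, (∀ w v, O (w + v) = O w * O v) ∧ (∀ w, O w = 1 → w = 0) ∧ (∀ a, O (a, 0) = c.F.u (x5 a)) ∧
      (∀ a b, c.t * O (a, b) * c.t = O (a + b, b)) ∧
      (∀ (x : Kˣ × Kˣ) w, c.F.t x * O w * (c.F.t x)⁻¹ =
        O (((x.1 : K) * s.σ x.1 * x.2 ^ 2 * s.σ x.2 ^ 2) • w)) ∧
      ∀ d, d ∈ W ⊓ 𝐂₁[c.F.t (α, β)] ↔ ∃ w, O w = d := by
  refine coord (x := fun a => c.F.u (x5 a)) (fun a ha => hV.el a (mem_inf.1 ha).1)
    (fun a b => by rw [x5_add, map_mul]) (fun a e => ?_)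
    (fun a => mem_inf.2 ⟨uW hV (by simp), mem_c1.2 (x5_t h a).eq⟩) c.tt
    (fun a => by rw [c.t_u, mul_assoc, c.tt, mul_one]) (fun d hd => ?_) (fun d hd e => ?_) (fun a => ?_)
    (fun x => ?_) (fun x => c.cen _ (c.F.t_mem_G0 x)) (fun x a => ?_)
  · simpa using congrArg SG.a5 (c.inj (e.trans (map_one _).symm))
  · obtain ⟨a, e⟩ := δA hV h hd
    exact ⟨a, t_of_δ hV (mem_inf.1 hd).1 e⟩
  · rw [c.t_conj, mul_eq_right, inv_eq_one] at e
    obtain ⟨p, hp, rfl⟩ := hV.ker d (mem_inf.1 hd).1 e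
    exact ⟨p.a5, fixu h hp.1 (mem_c1.1 (mem_inf.1 hd).2)⟩
  · obtain ⟨d, hd, e⟩ := onto hV h a
    exact ⟨d, hd, t_of_δ hV (mem_inf.1 hd).1 e⟩
  · refine norm_inf (X := zpowers (c.F.t x)) (zpowers_le.2 (hV.nH (c.F.t_mem_H x))) (zpowers_le.2 ?_)
      (mem_zpowers _)
    rw [← cj_eq_iff, KitG.cj_c1, ← map_mul, mul_comm x, map_mul, mul_inv_cancel_right]
  · rw [c.rf.tu x.1 x.2]; congr 1; ext <;> simp

theorem m_mem (hV : HV c E W) (hE : HE c E) (hαβ : α * β ^ 2 = 1) (h : Wt s (α : K) (β : K)) {a : G}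
    (ha : a ∈ W ⊓ 𝐂₁[c.F.t (α, β)]) : c.F.m * a * c.F.m ∈ W ⊓ 𝐂₁[c.F.t (α, β)] := by
  obtain ⟨hW, hc⟩ := mem_inf.1 ha
  obtain ⟨y, e⟩ := δA hV h ha
  have hm : c.F.m ∈ 𝐂₁[c.t] := c.L_le c.F.m_mem_G0
  have e' : c.δ (c.F.m * a * c.F.m) = c.F.u (x5 y) := by
    have := c.δ_conj hm a
    rwa [m_inv, e, m_x5] at this
  have aa := hV.el a hW
  have aa' : c.F.m * a * c.F.m * (c.F.m * a * c.F.m) = 1 := by
    rw [← inv_mul_conj c.mm, aa, mul_one, c.mm]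
  have kΓ : a * (c.F.m * a * c.F.m) ∈ 𝐂₁[c.t] := by
    rw [← c.δ_eq_one, δW hV hW _ (by rw [e']; exact uW hV (by simp)), e, e', x5_sq]
  have kZ : ∀ p ∈ Zs s, Commute (a * (c.F.m * a * c.F.m)) (c.F.u p) := fun p hp => by
    refine (cYW hV hW (by simp_all)).mul_left (comm_m ?_)
    rw [c.m_u (by simp_all)]
    exact cYW hV hW (by simp_all)
  have kZ' : a * (c.F.m * a * c.F.m) ∈ 𝐂[c.F.lt.Z] := mem_cent.2 (by
    rintro _ ⟨p, hp, rfl⟩; exact (kZ p hp).symm.eq)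
  have kh : Commute (a * (c.F.m * a * c.F.m)) (c.F.t (α, β)) := by
    have h0 : Commute a (c.F.t (α, β)) := mem_c1.1 hc
    refine h0.mul_left (comm_m ?_)
    rw [c.rf.mt, show ((α⁻¹, α * β) : Kˣ × Kˣ) = (α, β)⁻¹ from Prod.ext rfl
      (eq_inv_of_mul_eq_one_left (by rw [← hαβ, sq, mul_assoc])), map_inv]
    exact h0.inv_right
  obtain ⟨j, hj⟩ := two_of_inv (k := a * (c.F.m * a * c.F.m)) (a := a)
    (by rw [mul_inv_rev, inv_eq_of_mul_eq_one_right aa, inv_eq_of_mul_eq_one_right aa', ← mul_assoc a a, aa,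
      one_mul]) fun j ho => ⟨1, by
      rw [pow_one, sq]
      exact hV.el _ (mul_mem (conj_mem_of_norm (hV.odd _ (pow_mem kΓ j) ho (pow_mem kZ' j)) hW) (inv_mem hW))⟩
  obtain ⟨l, hl, hk, hcm⟩ := c.two' kΓ hj
  obtain ⟨p, hp, rfl⟩ := c.mem_R hl (hcm _ (c.F.u_mem_G0 _) (kZ _ (by simp))) (hcm _ (c.F.u_mem_G0 _) (kZ _ (by simp)))
  rw [fixu h hp (hcm _ (c.F.t_mem_G0 _) kh)] at hk
  have hx : c.F.u (x5 p.a5) ∈ W ⊓ 𝐂₁[c.F.t (α, β)] := mem_inf.2 ⟨uW hV (by simp), mem_c1.2 (x5_t h _).eq⟩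
  rcases hk with hk | hk
  · rw [eq_inv_mul_of_mul_eq hk]; exact mul_mem (inv_mem ha) hx
  · exfalso
    have c1 : Commute (a * (c.F.m * a * c.F.m)) (E (0, 1)) :=
      (cmW hV hW (hV.mem4 _)).mul_left (comm_m (cmW hV hW (hV.mem6 _)))
    have c2 : Commute (c.F.u (x5 p.a5)) (E (0, 1)) := cmW hV (mem_inf.1 hx).1 (hV.mem4 _)
    have c3 : Commute c.t (E (0, 1)) := by
      have := c2.inv_left.mul_left c1
      rwa [hk, inv_mul_cancel_left] at this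
    have e1 := hE.tw 0 1
    rw [c3.eq, mul_assoc, c.tt, mul_one, show ((0 + 1, 1) : K × K) = (0, 1) + (1, 0) by simp, hE.add,
      left_eq_mul] at e1
    simpa using hE.inj _ e1

theorem split1 {p : SG s} (h1 : p.a1 = 0) (h2 : p.a2 = 0) (h8 : p.a8 = 0) :
    ∃ y ∈ Ys s, ∃ y' ∈ Ys s, p = y * mu y' :=
  ⟨⟨0, 0, p.u2, p.a3, p.a4, p.u4, p.a5, 0, 0, 0, 0, 0⟩, by simp,
    ⟨0, 0, p.u8, p.a7, p.a6, p.u6, 0, 0, 0, 0, 0, 0⟩, by simp, by ext <;> simp [*]⟩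

theorem comm_R1 (hV : HV c E W) {a : G} (ha : a ∈ W) (ha' : c.F.m * a * c.F.m ∈ W) {p : SG s} (h1 : p.a1 = 0)
    (h2 : p.a2 = 0) (h8 : p.a8 = 0) : Commute a (c.F.u p) := by
  obtain ⟨y, hy, y', hy', rfl⟩ := split1 h1 h2 h8
  rw [map_mul, ← c.m_u hy'.1]
  refine (cYW hV ha hy).mul_right ?_
  have := commute_conj c.mm (cYW hV ha' hy')
  rwa [mmm] at this

theorem exists_f (hV : HV c E W) {a : G} (ha : a ∈ W) (ha' : c.F.m * a * c.F.m ∈ W) {y : K}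
    (e : c.δ a = c.F.u (x5 y)) (b : K) : ∃ p ∈ Vs s, p.u2 = 0 ∧ p.a3 = 0 ∧
      c.F.u (x1 b) * a * (c.F.u (x1 b))⁻¹ = c.F.u p * a := by
  have hx : c.F.u (x1 b) * a * (c.F.u (x1 b))⁻¹ ∈ W := conj_mem_of_norm (hV.nC (c.F.lt.u_mem_C _)) ha
  have e' : c.δ (c.F.u (x1 b) * a * (c.F.u (x1 b))⁻¹) = c.F.u (x5 y) := by
    rw [c.δ_conj (c.L_le (c.F.u_mem_G0 _)), e, ← map_mul, x1_x5, map_mul, mul_inv_cancel_right]
  obtain ⟨p, hp, ep⟩ := hV.ker _ (mul_mem hx ha)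
    (by rw [δW hV hx _ (by rw [e]; exact uW hV (by simp)), e, e', x5_sq])
  have ep' : c.F.u p = c.F.u (x1 b) * a * (c.F.u (x1 b))⁻¹ * a := ep
  have key : ∀ r : SG s, r.a1 = 0 → r.a2 = 0 → r.a8 = 0 → p * r = r * p := fun r h1 h2 h8 => by
    rw [← c.u_comm, ep']
    refine Commute.mul_left ?_ (comm_R1 hV ha ha' h1 h2 h8)
    have := (comm_R1 hV ha ha' (p := (x1 b)⁻¹ * r * x1 b) (by simp [h1]; grind) (by simp [h1, h2, h8])
      (by simp [h8])).conj (c.F.u (x1 b))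
    rwa [map_mul, map_mul, map_inv, show c.F.u (x1 b) * ((c.F.u (x1 b))⁻¹ * c.F.u r * c.F.u (x1 b)) *
      (c.F.u (x1 b))⁻¹ = c.F.u r by group] at this
  obtain ⟨h1, h2, h4, h6, h7, h8, h9⟩ := hp
  have e4 := congrArg SG.u4 (key (x7 1) rfl rfl rfl)
  have e6 := congrArg SG.u6 (key (w8 0 1) rfl rfl rfl)
  simp [h1, h2, h4, h6, h7, h8, h9] at e4 e6
  refine ⟨p, ⟨h1, h2, h4, h6, h7, h8, h9⟩, e4, by grind, by rw [ep', mul_assoc _ a a, hV.el a ha, mul_one]⟩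

theorem c1 (hV : HV c E W) (h : Wt s (α : K) (β : K)) {O : K × K → G} (add : ∀ w v, O (w + v) = O w * O v)
    (tor : ∀ (x : Kˣ × Kˣ) w, c.F.t x * O w * (c.F.t x)⁻¹ = O (((x.1 : K) * s.σ x.1 * x.2 ^ 2 * s.σ x.2 ^ 2) • w))
    (hW : ∀ w, O w ∈ W) (hm : ∀ w, c.F.m * O w * c.F.m ∈ W) (hδ : ∀ w, ∃ y, c.δ (O w) = c.F.u (x5 y))
    (a : K) (w : K × K) : c.F.u (x1 a) * O w = O w * c.F.u (x1 a) := by
  have ex := fun b w => (hδ w).elim fun y e => exists_f hV (hW w) (hm w) e b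
  choose f fV f2 f3 hf using ex
  have fw : ∀ b w v, f b (w + v) = f b w * f b v := fun b w v => by
    have e := hf b (w + v)
    rw [add, show c.F.u (x1 b) * (O w * O v) * (c.F.u (x1 b))⁻¹ = c.F.u (x1 b) * O w * (c.F.u (x1 b))⁻¹ *
      (c.F.u (x1 b) * O v * (c.F.u (x1 b))⁻¹) by group, hf, hf, mul_assoc, ← mul_assoc (O w),
      (cmW hV (hW w) (uW hV (fV b v))).eq, mul_assoc, ← mul_assoc, ← map_mul] at e
    exact (c.inj (mul_right_cancel e)).symm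
  have fa : ∀ b d w, f (b + d) w = x1 b * f d w * (x1 b)⁻¹ * f b w := fun b d w => by
    have e := hf (b + d) w
    rw [x1_add, map_mul, show c.F.u (x1 b) * c.F.u (x1 d) * O w * (c.F.u (x1 b) * c.F.u (x1 d))⁻¹ =
      c.F.u (x1 b) * (c.F.u (x1 d) * O w * (c.F.u (x1 d))⁻¹) * (c.F.u (x1 b))⁻¹ by group, hf,
      show c.F.u (x1 b) * (c.F.u (f d w) * O w) * (c.F.u (x1 b))⁻¹ = c.F.u (x1 b) * c.F.u (f d w) *
        (c.F.u (x1 b))⁻¹ * (c.F.u (x1 b) * O w * (c.F.u (x1 b))⁻¹) by group, hf, ← mul_assoc, ← map_inv,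
      ← map_mul, ← map_mul, ← map_mul] at e
    exact (c.inj (mul_right_cancel e)).symm
  have ft : ∀ (γ ε : Kˣ) b w, f (γ * b) (((γ : K) * s.σ γ * ε ^ 2 * s.σ ε ^ 2) • w) = dl (γ : K) (ε : K) (f b w) :=
    fun γ ε b w => by
    have e := congrArg (fun g => c.F.t (γ, ε) * g * (c.F.t (γ, ε))⁻¹) (hf b w)
    have e1 : dl (γ : K) (ε : K) (x1 b : SG s) = x1 (γ * b) := by ext <;> simp
    rw [show c.F.t (γ, ε) * (c.F.u (x1 b) * O w * (c.F.u (x1 b))⁻¹) * (c.F.t (γ, ε))⁻¹ =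
      c.F.t (γ, ε) * c.F.u (x1 b) * (c.F.t (γ, ε))⁻¹ * (c.F.t (γ, ε) * O w * (c.F.t (γ, ε))⁻¹) *
        (c.F.t (γ, ε) * c.F.u (x1 b) * (c.F.t (γ, ε))⁻¹)⁻¹ by group,
      show c.F.t (γ, ε) * (c.F.u (f b w) * O w) * (c.F.t (γ, ε))⁻¹ = c.F.t (γ, ε) * c.F.u (f b w) *
        (c.F.t (γ, ε))⁻¹ * (c.F.t (γ, ε) * O w * (c.F.t (γ, ε))⁻¹) by group, c.rf.tu, c.rf.tu, tor, e1, hf] at e
    exact c.inj (mul_right_cancel e)
  have z5 : (f a w).a5 = 0 := by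
    refine inv_zero (K := K) (f := fun b => (f b w).a5) (fun b d => ?_) h.a1 (fun b => ?_) a
    · obtain ⟨h1, h2, h4, h6, h7, h8, h9⟩ := fV b w
      obtain ⟨k1, k2, k4, k6, k7, k8, k9⟩ := fV d w
      simp only [fa]
      simp [*]
      grind
    · have := congrArg SG.a5 (ft α β b w)
      rw [h.a5, one_smul] at this
      simpa [h.a5] using this
  have gen : ∀ π : SG s → K, (∀ p ∈ Vs s, ∀ r ∈ Vs s, π (p * r) = π p + π r) →
      (∀ (ε : Kˣ) p, π (dl (1 : K) (ε : K) p) = ε ^ 3 * s.σ ε ^ 2 * π p) → π (f a w) = 0 := fun π πa πd => by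
    refine na1 (s := s) c.big (f := fun d => π (f a (d ^ 2 • w))) (fun b d => ?_) fun d hd => ?_
    · rw [add_pow_char, add_smul, fw, πa _ (fV _ _) _ (fV _ _)]
    · obtain ⟨ε, hε, rfl⟩ := exists_nrm s hd
      have := ft 1 (Units.mk0 ε hε) a w
      simp only [Units.val_one, map_one, one_mul, Units.val_mk0] at this
      have e2 := πd (Units.mk0 ε hε) (f a w)
      simp only [Units.val_mk0] at e2
      simp only [mul_pow, this, e2, map_mul, s.sq]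
      ring
  have z4 : (f a w).u4 = 0 := gen SG.u4 (fun p hp r hr => by simp_all) fun ε p => by simp
  have z6 : (f a w).u6 = 0 := gen SG.u6 (fun p hp r hr => by simp_all) fun ε p => by simp
  have e1 : f a w = 1 := by
    obtain ⟨h1, h2, h4, h6, h7, h8, h9⟩ := fV a w
    ext <;> simp [*]
  have e := hf a w
  rw [e1, map_one, one_mul] at e
  exact mul_inv_eq_iff_eq_mul.1 e

theorem m_eq (c : Cfg s G) : c.F.m = c.F.u (x1 1) * (c.F.m * c.F.u (x1 1) * c.F.m) * c.F.u (x1 1) := by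
  have h := c.rf.m3
  rw [show (c.F.m * c.F.u (x1 1)) ^ 3 = c.F.m * (c.F.u (x1 1) * (c.F.m * c.F.u (x1 1) * c.F.m) * c.F.u (x1 1)) by
    rw [pow_three]; group] at h
  rw [← inv_eq_of_mul_eq_one_right h, m_inv]

end U5

theorem HV.exists_HO {E : K × K → G} {W : Subgroup G} (hV : HV c E W) (hE : HE c E) : ∃ O, HO c W O := by
  obtain ⟨β, hβ⟩ := c.big
  have hαβ : (β ^ 2)⁻¹ * β ^ 2 = 1 := inv_mul_cancel _
  have h := U5.wt (s := s) hαβ hβ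
  obtain ⟨O, add, inj, zero, tw, tor, mem⟩ := U5.exists_coord hV h
  have hA := fun w => (mem (O w)).2 ⟨w, rfl⟩
  have hm := fun w => U5.m_mem hV hE hαβ h (hA w)
  have c1 := U5.c1 hV h add tor (fun w => (mem_inf.1 (hA w)).1) (fun w => (mem_inf.1 (hm w)).1)
    fun w => U5.δA hV h (hA w)
  refine ⟨O, add, inj, zero, tw, fun α β w => tor (α, β) w, fun w => (mem_inf.1 (hA w)).1, fun w => ?_, c1⟩
  obtain ⟨w', e⟩ := (mem _).1 (hm w)
  have k1 : Commute (c.F.u (x1 1)) (O w) := c1 1 w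
  have k2 : Commute (c.F.m * c.F.u (x1 1) * c.F.m) (O w) := U5.comm_m (by rw [← e]; exact c1 1 w')
  have := (k1.mul_left k2).mul_left k1
  rw [← U5.m_eq] at this
  exact this.eq

end Cfsg.Agent.DF
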