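import Mathlib
import Cfsg.Agent.DF.PK

set_option autoImplicit false
set_option linter.unusedSectionVars false

namespace Cfsg.Agent.DF

open Cfsg.Agent.Og Cfsg.Agent.Og.SG Cfsg.Agent.Loc.Mss Subgroup
open scoped commutatorElement

variable {K : Type*} [Field K] [CharP K 2] [Finite K] {s : Sg K} {G : Type*} [Group G] [Finite G]
  {c : Cfg s G}

namespace Vh

theorem V_le_of (c : Cfg s G) {M : Subgroup G} (hn : c.F.lt.C ≤ 𝐍[M]) (h4 : ∀ a, c.F.u (w4 0 a) ∈ M)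
    (h6 : ∀ a, c.F.u (w6 0 a) ∈ M) : c.F.lt.V ≤ M := by
  have hν : ∀ p ∈ Qs s, c.F.u p ∈ M → c.F.u (nu p) ∈ M := fun p hp h => by
    have := conj_mem_of_norm (hn c.F.lt.n_mem_C) h
    rwa [show c.F.lt.n * c.F.u p * c.F.lt.n⁻¹ = c.F.u (nu p) from c.rf.rc.n_conj hp] at this
  have h2 : ∀ a, c.F.u (w2 0 a) ∈ M := fun a => by
    have := hν _ (by simp) (h6 a)
    rwa [show nu (w6 0 a : SG s) = w2 0 a by ext <;> simp] at this
  have h5 : ∀ a, c.F.u (x5 a) ∈ M := fun a => by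
    have := conj_mem_of_norm (hn (c.F.lt.u_mem_C (w8 0 1))) (h2 a)
    change c.F.u _ * c.F.u _ * (c.F.u _)⁻¹ ∈ M at this
    rw [← map_inv, ← map_mul, ← map_mul, show (w8 0 1 * w2 0 a * (w8 0 1)⁻¹ : SG s) =
      w2 0 a * (w4 0 (s.σ a) * (x5 a * w6 0 a)) by ext <;> simp <;> grind, map_mul, map_mul, map_mul,
      mul_mem_cancel_left (h2 a), mul_mem_cancel_left (h4 _), mul_mem_cancel_right (h6 a)] at this
    exact this
  have h3 : ∀ a, c.F.u (x3 a) ∈ M := fun a => by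
    have := hν _ (by simp) (h5 a)
    rwa [show nu (x5 a : SG s) = x3 a by ext <;> simp] at this
  rintro _ ⟨p, hp, rfl⟩
  change c.F.u p ∈ M
  rw [show p = w2 0 p.u2 * x3 p.a3 * w4 0 p.u4 * x5 p.a5 * w6 0 p.u6 by ext <;> simp_all]
  simp only [map_mul]
  exact mul_mem (mul_mem (mul_mem (mul_mem (h2 _) (h3 _)) (h4 _)) (h5 _)) (h6 _)

theorem V_le_Y (c : Cfg s G) : c.F.lt.V ≤ c.F.lt.Y := Lt.im_mono Vs_le_Ys

theorem Z_le_V (c : Cfg s G) : c.F.lt.Z ≤ c.F.lt.V := Lt.im_mono fun p hp => by simp_all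

theorem sq_V {v : G} (hv : v ∈ c.F.lt.V) : v * v = 1 := by
  obtain ⟨p, hp, rfl⟩ := hv
  rw [← map_mul, V_sq hp, map_one]

theorem comm_V {v v' : G} (hv : v ∈ c.F.lt.V) (hv' : v' ∈ c.F.lt.V) : Commute v v' := by
  obtain ⟨p, hp, rfl⟩ := hv
  obtain ⟨r, hr, rfl⟩ := hv'
  exact c.u_comm.2 (Y_comm_V (Vs_le_Ys hp) hr)

theorem m_inv (c : Cfg s G) : c.F.m⁻¹ = c.F.m := inv_eq_of_mul_eq_one_right c.mm

theorem m_w4 (c : Cfg s G) (a : K) : c.F.m * c.F.u (w4 0 a) * c.F.m = c.F.u (w6 0 a) := by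
  rw [c.m_u (by simp)]; congr 1; ext <;> simp

theorem odd_conj {k : G} (h : Odd (orderOf k)) (g : G) : Odd (orderOf (g * k * g⁻¹)) := by
  rwa [show g * k * g⁻¹ = MulAut.conj g k from rfl, MulEquiv.orderOf_eq]

variable (c) in
/-- The generators. -/
def Gn (E : K × K → G) : Set G :=
  {g | (∃ x ∈ c.F.lt.C, ∃ w, g = x * (c.F.m * E w * c.F.m) * x⁻¹) ∨ ∃ w, g = E w}

variable (c) in
/-- The hat of `V`. -/
def Wh (E : K × K → G) : Subgroup G := closure (Gn c E)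

variable {E : K × K → G}

theorem mem4 (w : K × K) : E w ∈ Wh c E := subset_closure (.inr ⟨w, rfl⟩)

theorem mem6 (w : K × K) : c.F.m * E w * c.F.m ∈ Wh c E :=
  subset_closure (.inl ⟨1, one_mem _, w, by simp⟩)

theorem norm_gen {g : G} (hg : ∀ a ∈ Gn c E, g * a * g⁻¹ ∈ Wh c E) : g ∈ 𝐍[Wh c E] :=
  mem_norm_of_cj_le (cj_le_iff_le_inv.2 ((closure_le _).2 fun a ha => mem_cj.2 (by simpa using hg a ha)))

variable (h : HE c E)
include h

theorem nC : c.F.lt.C ≤ 𝐍[Wh c E] := by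
  refine fun g hg => norm_gen ?_
  rintro _ (⟨x, hx, w, rfl⟩ | ⟨w, rfl⟩)
  · exact subset_closure (.inl ⟨g * x, mul_mem hg hx, w, by group⟩)
  · rw [h.cent g hg, mul_inv_cancel_right]; exact mem4 w

theorem norm_of {g : G} (hC : g ∈ 𝐍[c.F.lt.C]) (h4 : ∀ w, g * E w * g⁻¹ ∈ Wh c E)
    (h6 : ∀ w, g * (c.F.m * E w * c.F.m) * g⁻¹ ∈ Wh c E) : g ∈ 𝐍[Wh c E] := by
  refine norm_gen ?_
  rintro _ (⟨x, hx, w, rfl⟩ | ⟨w, rfl⟩)
  · have := conj_mem_of_norm (nC h (conj_mem_of_norm hC hx)) (h6 w)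
    rwa [show g * x * g⁻¹ * (g * (c.F.m * E w * c.F.m) * g⁻¹) * (g * x * g⁻¹)⁻¹ =
      g * (x * (c.F.m * E w * c.F.m) * x⁻¹) * g⁻¹ by group] at this
  · exact h4 w

theorem δ4 (w : K × K) : c.δ (E w) = c.F.u (w4 0 w.2) := by
  obtain ⟨a, b⟩ := w
  rw [Cfg.δ, inv_of_add h.add, mul_assoc, mul_assoc, ← mul_assoc c.t, h.tw, ← h.add, ← h.zero]
  congr 1
  ext <;> simp <;> grind

theorem δ6 (w : K × K) : c.δ (c.F.m * E w * c.F.m) = c.F.u (w6 0 w.2) := by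
  have := c.δ_conj (c.L_le c.F.m_mem_G0) (E w)
  rwa [m_inv, δ4 h, m_w4] at this

theorem sq6 (w : K × K) : c.F.m * E w * c.F.m * (c.F.m * E w * c.F.m) = 1 := by
  rw [← inv_mul_conj c.mm, sq_of_add h.add, mul_one, c.mm]

theorem sq_gen {a : G} (ha : a ∈ Gn c E) : a * a = 1 := by
  obtain ⟨x, -, w, rfl⟩ | ⟨w, rfl⟩ := ha
  · rw [conj_mul, sq6 h]; simp
  · exact sq_of_add h.add w

theorem le_cY : Wh c E ≤ 𝐂[c.F.lt.Y] := by
  refine (closure_le _).2 ?_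
  rintro _ (⟨x, hx, w, rfl⟩ | ⟨w, rfl⟩)
  · refine conj_mem_of_norm (norm_cent c.rf.rc.C_le_norm_Y hx) (mem_cent.2 ?_)
    rintro _ ⟨p, hp, rfl⟩
    have h1 : Commute (c.F.u (mu p)) (E w) := h.cent _ (c.F.lt.u_mem_C _) w
    have h2 := commute_conj c.mm h1
    rwa [c.m_u (mu_mem p), mu_mu hp.1] at h2
  · exact mem_cent.2 fun y hy => h.cent y (c.F.lt.im_le_C _ hy) w

theorem cV {a v : G} (ha : a ∈ Wh c E) (hv : v ∈ c.F.lt.V) : Commute a v :=
  (mem_cent.1 (le_cY h ha) v (V_le_Y c hv)).symm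

theorem c4 {a : G} (ha : a ∈ Wh c E) (w : K × K) : Commute a (E w) := by
  refine mem_c1.1 ((closure_le 𝐂₁[E w]).2 ?_ ha)
  rintro _ (⟨x, hx, v, rfl⟩ | ⟨v, rfl⟩)
  · have h1 : Commute x (E w) := h.cent x hx w
    exact mem_c1.2 ((h1.mul_left (h.c46 w v).symm).mul_left h1.inv_left)
  · exact mem_c1.2 (comm_of_add h.add v w)

theorem V_le : c.F.lt.V ≤ Wh c E :=
  V_le_of c (nC h) (fun a => h.zero a ▸ mem4 _) fun a => by rw [← m_w4, ← h.zero]; exact mem6 _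

theorem del {a : G} (ha : a ∈ Wh c E) : c.δ a ∈ c.F.lt.V := by
  induction ha using closure_induction with
  | mem a ha =>
    obtain ⟨x, hx, w, rfl⟩ | ⟨w, rfl⟩ := ha
    · rw [c.δ_conj (c.L_le (c.F.C_le_G0 hx)), δ6 h]
      exact conj_mem_of_norm (c.rf.rc.C_le_norm_V hx) (Lt.u_mem_im (by simp))
    · rw [δ4 h]; exact Lt.u_mem_im (by simp)
  | one => rw [c.δ_eq_one.2 (one_mem _)]; exact one_mem _
  | mul a b ha hb h1 h2 => rw [c.δ_mul, (cV h ha h2).eq, mul_inv_cancel_right]; exact mul_mem h2 h1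
  | inv a ha h1 =>
    have e := c.δ_mul a⁻¹ a
    rw [inv_mul_cancel, c.δ_eq_one.2 (one_mem _), (cV h (inv_mem ha) h1).eq, mul_inv_cancel_right] at e
    rw [← inv_eq_of_mul_eq_one_right e.symm]
    exact inv_mem h1

theorem δ_hom {a b : G} (ha : a ∈ Wh c E) (hb : b ∈ Wh c E) : c.δ (a * b) = c.δ a * c.δ b := by
  rw [c.δ_mul, (cV h ha (del h hb)).eq, mul_inv_cancel_right, (comm_V (del h ha) (del h hb)).eq]

theorem δ_inv {a : G} (ha : a ∈ Wh c E) : c.δ a⁻¹ = (c.δ a)⁻¹ := by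
  refine eq_inv_of_mul_eq_one_left ?_
  rw [← δ_hom h (inv_mem ha) ha, inv_mul_cancel, c.δ_eq_one.2 (one_mem _)]

theorem δ_sq {a : G} (ha : a ∈ Wh c E) : a * a ∈ 𝐂₁[c.t] :=
  c.δ_eq_one.1 (by rw [δ_hom h ha ha, sq_V (del h ha)])

theorem onto {v : G} (hv : v ∈ c.F.lt.V) : ∃ a ∈ Wh c E, c.δ a = v := by
  let D : Subgroup G :=
    { carrier := {v | ∃ a ∈ Wh c E, c.δ a = v}
      mul_mem' := by
        rintro _ _ ⟨a, ha, rfl⟩ ⟨b, hb, rfl⟩
        exact ⟨a * b, mul_mem ha hb, δ_hom h ha hb⟩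
      one_mem' := ⟨1, one_mem _, c.δ_eq_one.2 (one_mem _)⟩
      inv_mem' := by
        rintro _ ⟨a, ha, rfl⟩
        exact ⟨a⁻¹, inv_mem ha, δ_inv h ha⟩ }
  refine V_le_of c (M := D) (fun x hx => mem_norm_of_cj_le (cj_le_iff.2 ?_))
    (fun a => ⟨_, mem4 (0, a), δ4 h _⟩) (fun a => ⟨_, mem6 (0, a), δ6 h _⟩) hv
  rintro _ ⟨a, ha, rfl⟩
  exact ⟨_, conj_mem_of_norm (nC h hx) ha, c.δ_conj (c.L_le (c.F.C_le_G0 hx)) a⟩

theorem mem_V {k : G} (hk : k ∈ Wh c E) (ht : k ∈ 𝐂₁[c.t]) {j : ℕ} (h2 : k ^ 2 ^ j = 1) : k ∈ c.F.lt.V := by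
  obtain ⟨l, hl, e, hc⟩ := c.two' ht h2
  have hV : l ∈ c.F.lt.V := c.cent_Y hl (mem_cent.2 fun y hy =>
    (hc y (c.F.C_le_G0 (c.F.lt.im_le_C _ hy)) (mem_cent.1 (le_cY h hk) y hy).symm).symm)
  rcases e with rfl | rfl
  · exact hV
  · have h1 : Commute l (E (0, 1)) := h.cent l (c.F.lt.im_le_C _ hV) _
    have h3 := h1.inv_left.mul_left (c4 h hk (0, 1))
    rw [inv_mul_cancel_left] at h3
    have h4 := c.δ_eq_one.2 (mem_c1.2 h3.symm)
    rw [δ4 h, ← map_one c.F.u] at h4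
    simpa using congrArg SG.u4 (c.inj h4)

theorem odd6 {k : G} (ht : k ∈ 𝐂₁[c.t]) (ho : Odd (orderOf k)) (hZ : k ∈ 𝐂[c.F.lt.Z]) (w : K × K) :
    Commute k (c.F.m * E w * c.F.m) := by
  have hm := c.L_le c.F.m_mem_G0
  have h1 := odd_conj ho c.F.m
  rw [m_inv] at h1
  have h2 : Commute (c.F.m * k * c.F.m) (E w) := by
    refine h.odd _ (mul_mem (mul_mem hm ht) hm) h1 (mem_cent.2 ?_) w
    rintro _ ⟨p, hp, rfl⟩
    obtain ⟨a, rfl⟩ := mem_Xs_iff.1 hp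
    have h3 : Commute (c.F.u (w6 0 a)) k := mem_cent.1 hZ _ (Lt.u_mem_im (by simp))
    have h4 := commute_conj c.mm h3
    rwa [← m_w4, ← mul_assoc, ← mul_assoc, c.mm, one_mul, mul_assoc, c.mm, mul_one] at h4
  have h3 := commute_conj c.mm h2
  rwa [← mul_assoc, ← mul_assoc, c.mm, one_mul, mul_assoc, c.mm, mul_one] at h3

theorem comm_gen {a b : G} (ha : a ∈ Gn c E) (hb : b ∈ Gn c E) : ⁅a, b⁆ ∈ c.F.lt.V := by
  have ha' : a ∈ Wh c E := subset_closure ha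
  have hb' : b ∈ Wh c E := subset_closure hb
  have ai := inv_eq_of_mul_eq_one_right (sq_gen h ha)
  have bi := inv_eq_of_mul_eq_one_right (sq_gen h hb)
  have hk : a * b * (a * b) ∈ Wh c E := mul_mem (mul_mem ha' hb') (mul_mem ha' hb')
  have ht := δ_sq h (mul_mem ha' hb')
  obtain ⟨j, hj⟩ := two_of_inv (k := a * b * (a * b)) (a := a)
    (by simp only [mul_inv_rev, ai, bi, ← mul_assoc, sq_gen h ha, one_mul]) fun j ho => ⟨0, by
      have h1 : Commute ((a * b * (a * b)) ^ j) a := by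
        generalize hk' : (a * b * (a * b)) ^ j = k at ho
        have k1 : k ∈ Wh c E := hk' ▸ pow_mem hk j
        have k2 : k ∈ 𝐂₁[c.t] := hk' ▸ pow_mem ht j
        clear hk'
        obtain ⟨x, hx, w, rfl⟩ | ⟨w, rfl⟩ := ha
        · have hx' := c.L_le (c.F.C_le_G0 hx)
          have h2 := odd6 h (k := x⁻¹ * k * x⁻¹⁻¹) (mul_mem (mul_mem (inv_mem hx') k2) (inv_mem (inv_mem hx')))
            (odd_conj ho _) (cent_anti ((Z_le_V c).trans (V_le_Y c))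
              (le_cY h (conj_mem_of_norm (nC h (inv_mem hx)) k1))) w
          have h3 := h2.conj x
          rwa [show x * (x⁻¹ * k * x⁻¹⁻¹) * x⁻¹ = k by group] at h3
        · exact c4 h k1 w
      rw [h1.eq]; simp⟩
  have := mem_V h hk ht hj
  rwa [commutatorElement_def, ai, bi, mul_assoc]

theorem norm_V : Wh c E ≤ 𝐍[c.F.lt.V] := norm_of_cent ((le_cY h).trans (cent_anti (V_le_Y c)))

theorem comm_le : ⁅Wh c E, Wh c E⁆ ≤ c.F.lt.V := by
  refine comm_closure_le (fun a ha => norm_V h (subset_closure ha)) fun a ha v hv => ?_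
  have : ⁅zpowers a, Wh c E⁆ ≤ c.F.lt.V := by
    refine comm_closure_le (fun a ha => norm_V h (subset_closure ha)) fun b hb x hx => ?_
    have h2 : orderOf a ∣ 2 := orderOf_dvd_of_pow_eq_one (by rw [sq, sq_gen h ha])
    obtain ⟨k, rfl⟩ := hx
    change ⁅a ^ k, b⁆ ∈ _
    rcases Int.even_or_odd' k with ⟨i, rfl | rfl⟩
    · rw [zpow_mul, zpow_two, sq_gen h ha]; simp
    · rw [zpow_add, zpow_mul, zpow_two, sq_gen h ha]; simpa using comm_gen h ha hb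
  rw [← commutatorElement_inv]
  exact inv_mem (this (commutator_mem_commutator (mem_zpowers a) hv))

theorem sq_mem {a : G} (ha : a ∈ Wh c E) : a * a ∈ c.F.lt.V := by
  induction ha using closure_induction with
  | mem a ha => rw [sq_gen h ha]; exact one_mem _
  | one => simp
  | mul a b ha hb h1 h2 =>
    rw [show a * b * (a * b) = a * a * ⁅a⁻¹, b⁆ * (b * b) by rw [commutatorElement_def]; group]
    exact mul_mem (mul_mem h1 (comm_le h (commutator_mem_commutator (inv_mem ha) hb))) h2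
  | inv a ha h1 => rw [← mul_inv_rev]; exact inv_mem h1

theorem ker {a : G} (ha : a ∈ Wh c E) (e : c.δ a = 1) : a ∈ c.F.lt.V :=
  mem_V h ha (c.δ_eq_one.1 e) (j := 2) (by
    rw [show a ^ 2 ^ 2 = a * a * (a * a) by rw [sq, pow_mul, sq, sq]]
    exact sq_V (sq_mem h ha))

theorem sq_eq {a b : G} (ha : a ∈ Wh c E) (hb : b ∈ Wh c E) (e : c.δ a = c.δ b) : a * a = b * b := by
  have hv := ker h (mul_mem (inv_mem ha) hb) (by rw [δ_hom h (inv_mem ha) hb, δ_inv h ha, e, inv_mul_cancel])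
  calc a * a = a * a * (a⁻¹ * b * (a⁻¹ * b)) := by rw [sq_V hv, mul_one]
    _ = a * (a * (a⁻¹ * b)) * (a⁻¹ * b) := by group
    _ = b * b := by rw [(cV h ha hv).eq]; group

theorem sq_eq' {a b : G} (ha : a ∈ Wh c E) (hb : b ∈ Wh c E) {x : G} (hx : x ∈ c.F.lt.X)
    (e : c.δ a = x * c.δ b) : a * a = b * b := by
  obtain ⟨p, hp, rfl⟩ := hx
  obtain ⟨r, rfl⟩ := mem_Xs_iff.1 hp
  rw [sq_eq h ha (mul_mem (mem4 (0, r)) hb) (by rw [δ_hom h (mem4 _) hb, δ4 h, e]; rfl),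
    (c4 h hb _).mul_mul_mul_comm, sq_of_add h.add, one_mul]

theorem sq_X {a : G} (ha : a ∈ Wh c E) : a * a ∈ c.F.lt.X := by
  obtain ⟨p, hp, e⟩ := sq_mem h ha
  obtain ⟨v, hv, e'⟩ := del h ha
  refine e ▸ Lt.u_mem_im (mem_Xs_of_comm fun r hr => c.u_comm.1 ?_)
  have hr' := c.F.lt.u_mem_C r
  have h1 := sq_eq' h (conj_mem_of_norm (nC h hr') ha) ha (Lt.u_mem_im (comm_mem_X hr hv)) (by
    rw [c.δ_conj (c.L_le (c.F.C_le_G0 hr')), ← e', map_commutatorElement, commutatorElement_def]; group)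
  rw [conj_mul, ← e] at h1
  exact mul_inv_eq_iff_eq_mul.1 h1

theorem nH : c.F.H ≤ 𝐍[Wh c E] := by
  rintro _ ⟨⟨α, β⟩, rfl⟩
  refine norm_of h (c.rf.H_norm_C (c.F.t_mem_H _)) (fun w => by rw [h.tor]; exact mem4 _) fun w => ?_
  have e : c.F.t (α, β) = c.F.m * c.F.t (α⁻¹, α * β) * c.F.m := by rw [c.rf.mt]; simp
  have := mem6 (c := c) (E := E) ((((α⁻¹ : Kˣ) : K) ^ 2 * s.σ (α⁻¹ : Kˣ) * (α * β : Kˣ) ^ 3 * s.σ (α * β : Kˣ) ^ 2) • w)
  rw [← h.tor, inv_mul_conj c.mm, inv_mul_conj c.mm, ← e] at this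
  rwa [e, mul_inv_rev, mul_inv_rev, m_inv, ← mul_assoc c.F.m, ← e]

theorem el {a : G} (ha : a ∈ Wh c E) : a * a = 1 := by
  by_cases hX : c.δ a ∈ c.F.lt.X
  · rw [sq_eq' h ha (one_mem _) hX (by rw [c.δ_eq_one.2 (one_mem _), mul_one]), mul_one]
  obtain ⟨x, hx, e⟩ := c.rf.rc.conj_V (del h ha) hX
  rw [← c.δ_conj (c.L_le (c.F.C_le_G0 hx))] at e
  have hg := conj_mem_of_norm (nC h hx) ha
  suffices hs : x * a * x⁻¹ * (x * a * x⁻¹) = 1 by rwa [conj_mul, conj_eq_one_iff] at hs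
  generalize x * a * x⁻¹ = g at e hg
  rcases e with e | e
  · rw [sq_eq h hg (mem6 (0, 1)) (e.trans (δ6 h (0, 1)).symm), sq6 h]
  · obtain ⟨β, hβ⟩ := c.big
    obtain ⟨p, hp, e1⟩ := sq_X h hg
    obtain ⟨r, rfl⟩ := mem_Xs_iff.1 hp
    have h0 : s.σ β ≠ 0 := σ_ne_zero β.ne_zero
    have h1 := sq_eq h (conj_mem_of_norm (nH h (c.F.t_mem_H ((β ^ 2)⁻¹, β))) hg) hg (by
      rw [c.δ_conj (c.L_le (c.F.t_mem_G0 _)), e]
      refine (c.rf.tu _ _ _).trans (congrArg c.F.u ?_)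
      ext <;> simp
      field_simp)
    rw [conj_mul, ← e1] at h1
    have h2 := congrArg SG.u4 (c.inj ((c.rf.tu _ _ _).symm.trans h1))
    simp only [dl_u4, w4_u4, Units.val_inv_eq_inv_val, Units.val_pow_eq_pow_val, map_inv₀, map_pow] at h2
    field_simp at h2
    have h3 : r = 0 := by
      by_contra hr
      exact hβ (Units.ext (mul_right_cancel₀ hr (by simpa using h2.symm)))
    rw [← e1, h3, show (w4 0 0 : SG s) = 1 from rfl, map_one]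

end Vh

open Vh in
theorem HE.exists_HV {E : K × K → G} (h : HE c E) : ∃ W, HV c E W :=
  ⟨Wh c E,
    { el := fun _ => el h
      V_le := V_le h
      mem4 := mem4
      mem6 := mem6
      nC := nC h
      nH := nH h
      cY := cent_comm (le_cY h)
      del := fun _ => del h
      ker := fun _ => ker h
      onto := fun _ => onto h
      odd := fun k ht ho hZ => norm_of h
        (c.norm_C ht (mem_cent.1 hZ _ (c.X_le_Z c.F.lt.τ_mem_X)).symm)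
        (fun w => by rw [h.odd k ht ho (cent_anti c.X_le_Z hZ), mul_inv_cancel_right]; exact mem4 w)
        fun w => by rw [(odd6 h ht ho hZ w).eq, mul_inv_cancel_right]; exact mem6 w }⟩

end Cfsg.Agent.DF
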